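import Cfsg.Agent.DIM4.Irr
import Cfsg.Agent.DIM4.Stab

/-! `2.A₅` is never the perfect core of a maximal subgroup of `Sp₄(q)`. -/

set_option autoImplicit false
set_option linter.unusedSectionVars false

namespace Cfsg.Agent.DIM4

open Matrix Equiv

/-- a five-cycle -/
def a5t : Perm (Fin 5) := c[0, 1, 2, 3, 4]

/-- another five-cycle -/
def a5s : Perm (Fin 5) := c[0, 1, 3, 4, 2]

/-- generators of the six Sylow 5-subgroups -/
def a5z (i : Fin 6) : Perm (Fin 5) :=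
  if i = 0 then a5t else a5t ^ (i.1 - 1) * a5s * (a5t ^ (i.1 - 1))⁻¹

theorem a5_f1 : ∀ x : Perm (Fin 5), x ^ 5 = 1 → x ≠ 1 →
    ∃ i, ∃ a : Fin 4, x = a5z i ^ (a.1 + 1) := by decide +kernel

theorem a5_f2 : ∀ i j, i ≠ j → ∃ g : Perm (Fin 5), Perm.sign g = 1 ∧
    (g * a5z 0 * g⁻¹ = a5z i ∨ g * a5z 0 * g⁻¹ = (a5z i)⁻¹) ∧
    (g * a5z 1 * g⁻¹ = a5z j ∨ g * a5z 1 * g⁻¹ = (a5z j)⁻¹) := by decide +kernel

theorem a5_f3 : (a5t * a5s) ^ 5 = 1 ∧ a5t ^ 5 = 1 ∧ a5s ^ 5 = 1 ∧ Perm.sign a5t = 1 ∧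
    Perm.sign a5s = 1 ∧ a5t ≠ 1 := by decide +kernel

variable {F : Type*} [Field F] [Finite F] {H P : Subgroup (G4 F)}

/-- the traceless part of `y + y⁻¹` -/
def a5A (y : G4 F) : M4 F :=
  ((y : M4 F) + ((y⁻¹ : G4 F) : M4 F)) - (((y : M4 F) + ((y⁻¹ : G4 F) : M4 F)).trace / 4) • 1

theorem a5A_mem (h2 : (2 : F) ≠ 0) {y : G4 F} (hy : y ∈ Cfsg.spGL 2 F) : a5A y ∈ Wsp F :=
  sub_trace_mem h2 (adj_add_inv hy)

theorem a5A_inv (y : G4 F) : a5A y⁻¹ = a5A y := by rw [a5A, a5A, inv_inv, add_comm]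

theorem a5A_conj (g y : G4 F) :
    a5A (g * y * g⁻¹) = (g : M4 F) * a5A y * ((g⁻¹ : G4 F) : M4 F) := by
  have e : ((g * y * g⁻¹ : G4 F) : M4 F) + (((g * y * g⁻¹)⁻¹ : G4 F) : M4 F) =
      g * ((y : M4 F) + ((y⁻¹ : G4 F) : M4 F)) * ((g⁻¹ : G4 F) : M4 F) := by
    simp only [_root_.mul_inv_rev, inv_inv, Units.val_mul, Matrix.mul_add, Matrix.add_mul,
      Matrix.mul_assoc]
  rw [a5A, a5A, e, trace_conj, Matrix.mul_sub, Matrix.sub_mul, Matrix.mul_smul, Matrix.mul_one,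
    Matrix.smul_mul, Units.mul_inv]

theorem a5A_sq (h2 : (2 : F) ≠ 0) {y : G4 F} (hy : y ∈ Cfsg.spGL 2 F) :
    ∃ c : F, a5A (y ^ 2) = c • a5A y := by
  have hW := a5A_mem h2 hy
  obtain ⟨c, hc⟩ : ∃ c : F, (y : M4 F) + ((y⁻¹ : G4 F) : M4 F) = a5A y + c • 1 :=
    ⟨_, by rw [a5A, sub_add_cancel]⟩
  have e : ((y ^ 2 : G4 F) : M4 F) + (((y ^ 2)⁻¹ : G4 F) : M4 F) =
      (2 * c) • a5A y + (qW (a5A y) + c ^ 2 - 2) • 1 := by
    have := congrArg (fun X => X * X) hc
    simp only [Matrix.add_mul, Matrix.mul_add, Units.mul_inv, Units.inv_mul, mul_self h2 hW,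
      Matrix.smul_mul, Matrix.mul_smul, Matrix.one_mul, Matrix.mul_one] at this
    rw [← inv_pow, pow_two, pow_two, Units.val_mul, Units.val_mul]
    linear_combination (norm := module) this
  have := four_ne h2
  refine ⟨2 * c, ?_⟩
  rw [a5A, e, trace_add, trace_smul, hW.2, trace_smul, trace_one4, smul_zero, zero_add, smul_eq_mul,
    mul_div_cancel_right₀ _ this, add_sub_cancel_right]

theorem a5A_pow (h2 : (2 : F) ≠ 0) {y : G4 F} (hy : y ∈ Cfsg.spGL 2 F) (h5 : y ^ 5 = 1) (a : Fin 4) :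
    ∃ c : F, a5A (y ^ (a.1 + 1)) = c • a5A y := by
  fin_cases a
  · exact ⟨1, by simp⟩
  · exact a5A_sq h2 hy
  · rw [← a5A_inv, show (y ^ (2 + 1))⁻¹ = y ^ 2 from
      inv_eq_of_mul_eq_one_right (by rw [← pow_add, h5])]
    exact a5A_sq h2 hy
  · rw [← a5A_inv, show (y ^ (3 + 1))⁻¹ = y from
      inv_eq_of_mul_eq_one_right (by rw [← pow_succ, h5])]
    exact ⟨1, by simp⟩

/-- six vectors with constant Gram matrix off the diagonal -/
theorem a5_gram (h2 : (2 : F) ≠ 0) {v : Fin 6 → M4 F} (hW : ∀ i, v i ∈ Wsp F) {β d : F}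
    (off : ∀ i j, i ≠ j → bW (v i) (v j) = β) (diag : ∀ i, bW (v i) (v i) = d) (hne : d ≠ β) :
    β ≠ 0 ∧ d ≠ -β := by
  have hl : ¬ LinearIndependent F v := fun hl => by simpa using card_le_five h2 hW hl
  obtain ⟨a, ha, i, hi⟩ := Fintype.not_linearIndependent_iff.1 hl
  have key : ∀ j, (d - β) * a j + β * ∑ i, a i = 0 := fun j => by
    have := congrArg (bL F (v j)) ha
    rw [map_sum, map_zero] at this
    rw [← this, Finset.mul_sum, ← Finset.add_sum_erase _ _ (Finset.mem_univ j),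
      ← Finset.add_sum_erase _ _ (Finset.mem_univ j), map_smul, bL_apply, diag, smul_eq_mul,
      Finset.sum_congr rfl fun k hk => (show bL F (v j) (a k • v k) = β * a k by
        rw [map_smul, bL_apply, off j k (Finset.ne_of_mem_erase hk).symm, smul_eq_mul, mul_comm])]
    ring
  have hβ : β ≠ 0 := by
    rintro rfl
    exact mul_ne_zero (sub_ne_zero.2 hne) hi (by simpa using key i)
  refine ⟨hβ, ?_⟩
  rintro rfl
  have h1 : ∑ j, ((-β - β) * a j + β * ∑ i, a i) = 0 := Finset.sum_eq_zero fun j _ => key j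
  rw [Finset.sum_add_distrib, ← Finset.mul_sum, Finset.sum_const, Finset.card_univ,
    Fintype.card_fin, nsmul_eq_mul] at h1
  have h3 : ∑ i, a i = 0 := (mul_eq_zero.1 (show 4 * β * ∑ i, a i = 0 by
    push_cast at h1; linear_combination h1)).resolve_left (mul_ne_zero (four_ne h2) hβ)
  exact mul_ne_zero (sub_ne_zero.2 hne) hi (by simpa [h3] using key i)

/-- the transposition of two vectors of the simplex -/
theorem a5_refl (h2 : (2 : F) ≠ 0) {v : Fin 6 → M4 F} (hW : ∀ i, v i ∈ Wsp F) {β d : F}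
    (off : ∀ i j, i ≠ j → bW (v i) (v j) = β) (diag : ∀ i, bW (v i) (v i) = d) {i j : Fin 6}
    (hij : i ≠ j) : qW (v i - v j) = d - β ∧
      ∀ k, (v i - v j) * v k * (v i - v j) = (-(d - β)) • v (Equiv.swap i j k) := by
  have hq : qW (v i - v j) = d - β := mul_left_cancel₀ h2 (by
    rw [← bW_self h2, bW_sub_left, bW_sub_right, bW_sub_right, diag, diag, off i j hij,
      off j i hij.symm]; ring)
  refine ⟨hq, fun k => ?_⟩
  rw [sandwich h2 (sub_mem (hW i) (hW j)) (hW k), hq, bW_sub_right]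
  by_cases hi : k = i
  · rw [hi, swap_apply_left, diag, off i j hij]; module
  by_cases hj : k = j
  · rw [hj, swap_apply_right, diag, off j i hij.symm]; module
  · rw [swap_apply_of_ne_of_ne hi hj, off k i hi, off k j hj]; module

theorem Res.not_a5 (h : Res H P) (ho : OneInv P) (e : P ⧸ ZP P ≃* alternatingGroup (Fin 5)) :
    False := by
  have h2 := h.two
  let π : P →* Perm (Fin 5) :=
    (alternatingGroup (Fin 5)).subtype.comp (e.toMonoidHom.comp (QuotientGroup.mk' _))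
  have hker : ∀ g : P, π g = 1 → (g : G4 F) = 1 ∨ (g : G4 F) = -1 := fun g hg => by
    rw [← h.mem_ZP, ← QuotientGroup.eq_one_iff, ← e.map_eq_one_iff]
    exact Subtype.ext hg
  have hsur : ∀ x, Perm.sign x = 1 → ∃ g, π g = x := fun x hx => by
    obtain ⟨g, hg⟩ := QuotientGroup.mk'_surjective (ZP P) (e.symm ⟨x, hx⟩)
    exact ⟨g, by simp only [π, MonoidHom.comp_apply, hg]; simp⟩
  have n1 : (-1 : G4 F) ≠ 1 := fun e => h2 (by
    have := congrArg (fun x : G4 F => (x : M4 F) (.inl 0) (.inl 0)) e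
    simp only [Units.val_neg, Units.val_one, Matrix.neg_apply, one_apply_eq] at this
    linear_combination -this)
  have uniq : ∀ y y' : P, y ^ 5 = 1 → y' ^ 5 = 1 → π y = π y' → y = y' := fun y y' a b c => by
    rcases hker (y⁻¹ * y') (by rw [map_mul, map_inv, c, inv_mul_cancel]) with e | e
    · exact Subtype.ext (inv_mul_eq_one.1 e)
    · have a' : (y : G4 F) ^ 5 = 1 := congrArg Subtype.val a
      have b' : (y' : G4 F) ^ 5 = 1 := congrArg Subtype.val b
      rw [show (y' : G4 F) = y * -1 from inv_mul_eq_iff_eq_mul.1 e, mul_neg_one,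
        Odd.neg_pow (by decide), a'] at b'
      exact (n1 b').elim
  have six : ∀ y : P, π y ^ 5 = 1 → (y ^ 6) ^ 5 = 1 ∧ π (y ^ 6) = π y := fun y hy => by
    refine ⟨Subtype.ext ?_, by rw [map_pow, pow_succ, hy, one_mul]⟩
    rw [← pow_mul, mul_comm, pow_mul, Subgroup.coe_pow]
    rcases hker (y ^ 5) (by rwa [map_pow]) with e | e <;> rw [e]
    exacts [one_pow _, Even.neg_one_pow (by decide)]
  obtain ⟨f1, f2, f3, f4, f5, f6⟩ := a5_f3
  obtain ⟨y, hy5, hy⟩ : ∃ y : P, y ^ 5 = 1 ∧ π y = a5t :=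
    let ⟨g, hg⟩ := hsur _ f4; ⟨_, (six g (hg ▸ f2)).1, (six g (hg ▸ f2)).2.trans hg⟩
  obtain ⟨k, hk5, hk⟩ : ∃ k : P, k ^ 5 = 1 ∧ π k = a5s :=
    let ⟨g, hg⟩ := hsur _ f5; ⟨_, (six g (hg ▸ f3)).1, (six g (hg ▸ f3)).2.trans hg⟩
  let Y : Fin 6 → P := fun i => if i = 0 then y else y ^ (i.1 - 1) * k * (y ^ (i.1 - 1))⁻¹
  have hY : ∀ i, Y i ^ 5 = 1 ∧ π (Y i) = a5z i := fun i => by
    by_cases hi : i = 0 <;> simp [Y, a5z, hi, hy5, hk5, hy, hk, conj_pow]
  let v : Fin 6 → M4 F := fun i => a5A (Y i : G4 F)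
  have hW : ∀ i, v i ∈ Wsp F := fun i => a5A_mem h2 (h.le_sp (Y i).2)
  have cls : ∀ x : P, x ^ 5 = 1 → x ≠ 1 → ∃ i, ∃ a : Fin 4, x = Y i ^ (a.1 + 1) := fun x x5 x1 => by
    obtain ⟨i, a, ha⟩ := a5_f1 (π x) (by rw [← map_pow, x5, map_one]) fun e =>
      x1 (uniq x 1 x5 (one_pow _) (e.trans (map_one π).symm))
    exact ⟨i, a, uniq _ _ x5 (by rw [← pow_mul, mul_comm, pow_mul, (hY i).1, one_pow])
      (by rw [ha, map_pow, (hY i).2])⟩
  have Y1 : ∀ i, Y i ≠ 1 := fun i e => by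
    by_cases hi : i = 0
    · exact f6 (by rw [← hy, show y = 1 by simpa [Y, hi] using e, map_one])
    · have : k = 1 := by simpa [Y, hi] using e
      rw [this, map_one] at hk
      exact absurd hk (by decide)
  have act : ∀ g ∈ H, ∀ i, ∃ j, ∃ a : Fin 4, g * Y i * g⁻¹ = (Y j : G4 F) ^ (a.1 + 1) ∧
      ∃ c : F, (g : M4 F) * v i * ((g⁻¹ : G4 F) : M4 F) = c • v j := fun g hg i => by
    obtain ⟨j, a, ha⟩ := cls ⟨_, h.core.normal g hg _ (Y i).2⟩
      (Subtype.ext (by simp [conj_pow, ← Subgroup.coe_pow, (hY i).1]))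
      fun e => Y1 i (Subtype.ext (by simpa using congrArg Subtype.val e))
    have ha' := congrArg Subtype.val ha
    refine ⟨j, a, ha', ?_⟩
    rw [← a5A_conj, show g * Y i * g⁻¹ = _ from ha']
    exact a5A_pow h2 (h.le_sp (Y j).2) (congrArg Subtype.val (hY j).1) a
  have two : ∀ i j, i ≠ j → ∃ g : P, ((g : G4 F) : M4 F) * v 0 * (((g : G4 F)⁻¹ : G4 F) : M4 F) = v i ∧
      ((g : G4 F) : M4 F) * v 1 * (((g : G4 F)⁻¹ : G4 F) : M4 F) = v j := fun i j hij => by
    obtain ⟨x, hx, h0, h1⟩ := a5_f2 i j hij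
    obtain ⟨g, rfl⟩ := hsur x hx
    have key : ∀ i j, (π g * a5z i * (π g)⁻¹ = a5z j ∨ π g * a5z i * (π g)⁻¹ = (a5z j)⁻¹) →
        ((g : G4 F) : M4 F) * v i * (((g : G4 F)⁻¹ : G4 F) : M4 F) = v j := fun i j e => by
      have c5 : (g * Y i * g⁻¹) ^ 5 = 1 := by simp [conj_pow, (hY i).1]
      rw [← a5A_conj]
      rcases e with e | e
      · exact congrArg (fun x : P => a5A (x : G4 F)) (uniq _ _ c5 (hY j).1 (by simp [hY, e]))
      · exact (congrArg (fun x : P => a5A (x : G4 F)) (uniq _ (Y j)⁻¹ c5 (by simp [(hY j).1])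
          (by simp [hY, e]))).trans (a5A_inv _)
    exact ⟨g, key _ _ h0, key _ _ h1⟩
  have off : ∀ i j, i ≠ j → bW (v i) (v j) = bW (v 0) (v 1) := fun i j hij => by
    obtain ⟨g, h0, h1⟩ := two i j hij
    rw [← h0, ← h1, bW_conj]
  have cj0 : ∀ i, ∃ g : P, ((g : G4 F) : M4 F) * v 0 * (((g : G4 F)⁻¹ : G4 F) : M4 F) = v i :=
    fun i => let ⟨j, hj⟩ := exists_ne i; let ⟨g, hg, _⟩ := two i j hj.symm; ⟨g, hg⟩
  have diag : ∀ i, bW (v i) (v i) = bW (v 0) (v 0) := fun i => by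
    obtain ⟨g, h0⟩ := cj0 i
    rw [← h0, bW_conj]
  -- `v 0 ≠ 0`
  have hv0 : v 0 ≠ 0 := fun e0 => by
    have sc : ∀ x : P, x ^ 5 = 1 → ∃ c : F, ((x : G4 F) : M4 F) + (((x : G4 F)⁻¹ : G4 F) : M4 F) = c • 1 := by
      intro x x5
      by_cases x1 : x = 1
      · exact ⟨2, by simp [x1, two_smul]⟩
      obtain ⟨i, a, rfl⟩ := cls x x5 x1
      obtain ⟨c, hc⟩ := a5A_pow h2 (h.le_sp (Y i).2) (congrArg Subtype.val (hY i).1) a
      obtain ⟨g, hg⟩ := cj0 i
      rw [show a5A (Y i : G4 F) = v i from rfl, ← hg, e0, Matrix.mul_zero, Matrix.zero_mul,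
        smul_zero, a5A, sub_eq_zero] at hc
      exact ⟨_, hc⟩
    have gen : Subgroup.closure {(y : G4 F), (k : G4 F)} = P := by
      refine le_antisymm ((Subgroup.closure_le _).2 (by rintro _ (rfl | rfl); exacts [y.2, k.2])) ?_
      have y5 : (y : G4 F) ^ 5 = 1 := congrArg Subtype.val hy5
      refine (h.eq_of_normal (N := Subgroup.closure {x | x ∈ P ∧ x ^ 5 = 1})
        ((Subgroup.closure_le _).2 fun _ hx => hx.1) (fun g hg x hx => ?_) (x := y)
        (Subgroup.subset_closure ⟨y.2, y5⟩)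
        (fun e => f6 (by rw [← hy, show y = 1 from Subtype.ext e, map_one]))
        fun e => n1 (by rwa [e, Odd.neg_one_pow (by decide)] at y5)).ge.trans
          ((Subgroup.closure_le _).2 ?_)
      swap
      · rintro x ⟨hx, x5⟩
        by_cases x1 : x = 1
        · exact x1 ▸ Subgroup.one_mem _
        obtain ⟨i, a, ha⟩ := cls ⟨x, hx⟩ (Subtype.ext x5) fun e => x1 (congrArg Subtype.val e)
        have my : (y : G4 F) ∈ Subgroup.closure {(y : G4 F), (k : G4 F)} :=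
          Subgroup.subset_closure (by simp)
        have mk : (k : G4 F) ∈ Subgroup.closure {(y : G4 F), (k : G4 F)} :=
          Subgroup.subset_closure (by simp)
        rw [show x = (Y i : G4 F) ^ (a.1 + 1) from congrArg Subtype.val ha]
        refine pow_mem ?_ _
        by_cases hi : i = 0
        · simpa [Y, hi] using my
        · simpa [Y, hi] using mul_mem (mul_mem (pow_mem my _) mk) (inv_mem (pow_mem my _))
      · induction hx using Subgroup.closure_induction with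
        | mem x hx => exact Subgroup.subset_closure ⟨mul_mem (mul_mem hg hx.1) (inv_mem hg), by
            rw [conj_pow, hx.2]; simp⟩
        | one => simp
        | mul a b _ _ ha hb => simpa [mul_assoc] using Subgroup.mul_mem _ ha hb
        | inv a _ ha => simpa [mul_assoc] using Subgroup.inv_mem _ ha
    obtain ⟨a, ha⟩ := sc y hy5
    obtain ⟨b, hb⟩ := sc k hk5
    obtain ⟨s1, s2⟩ := six (y * k) (by rw [map_mul, hy, hk, f1])
    obtain ⟨c, hc⟩ := sc _ s1
    rcases hker (((y * k) ^ 6)⁻¹ * (y * k)) (by rw [map_mul, map_inv, s2, inv_mul_cancel]) with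
      e | e
    · exact h.q3 gen ha hb (c := c) (by rw [← hc, ← show _ = (y * k : G4 F) from inv_mul_eq_one.1 e])
    · refine h.q3 gen ha hb (c := -c) ?_
      rw [show (y * k : G4 F) = _ * -1 from inv_mul_eq_iff_eq_mul.1 e, mul_neg_one, inv_neg,
        Units.val_neg, Units.val_neg, ← neg_add, hc, neg_smul]
  have hs : Wsp F ≤ Submodule.span F (Set.range v) := by
    refine ((h.W_irr (T := Submodule.span F (Set.range v))
      (Submodule.span_le.2 (Set.range_subset_iff.2 hW)) fun g hg x hx => ?_).resolve_left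
        fun e => hv0 ((Submodule.eq_bot_iff _).1 e _ (Submodule.subset_span ⟨0, rfl⟩))).ge
    induction hx using Submodule.span_induction with
    | mem x hx =>
      obtain ⟨i, rfl⟩ := hx
      obtain ⟨j, -, -, c, hc⟩ := act g (h.core.le hg) i
      exact hc ▸ Submodule.smul_mem _ _ (Submodule.subset_span ⟨j, rfl⟩)
    | zero => simp
    | add a b _ _ ha hb => rw [Matrix.mul_add, Matrix.add_mul]; exact add_mem ha hb
    | smul c a _ ha => rw [Matrix.mul_smul, Matrix.smul_mul]; exact Submodule.smul_mem _ _ ha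
  generalize bW (v 0) (v 1) = β at off
  generalize bW (v 0) (v 0) = d at diag
  have hne : d ≠ β := fun e => by
    have eq : ∀ i, v i = v 0 := fun i => sub_eq_zero.1 (eq_zero_of_perp h2 (sub_mem (hW i) (hW 0))
      fun x hx => (Submodule.span_le (p := LinearMap.ker (bL F (v i - v 0)))).2 (by
        rintro _ ⟨j, rfl⟩
        have all : ∀ a b, bW (v a) (v b) = β := fun a b =>
          if hab : a = b then by rw [hab, diag, e] else off a b hab
        change bW _ _ = 0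
        rw [bW_sub_left, all, all, sub_self]) (hs hx))
    have h1 : Submodule.span F (Set.range v) ≤ Submodule.span F {v 0} :=
      Submodule.span_mono (by rintro _ ⟨i, rfl⟩; exact eq i)
    have h3 := Submodule.finrank_mono (hs.trans h1)
    rw [finrank_Wsp h2, finrank_span_singleton hv0] at h3
    omega
  obtain ⟨hβ, hd⟩ := a5_gram h2 hW off diag hne
  have par : ∀ i j (a b : F), a • v i = b • v j → a ≠ 0 → i = j := fun i j a b e ha => by
    by_contra hij
    obtain ⟨m, hm⟩ := (by decide : ∀ i j : Fin 6, ∃ m, m ≠ i ∧ m ≠ j) i j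
    have e1 := congrArg (bW (v m)) e
    have e2 := congrArg (bW (v i)) e
    rw [bW_smul_right, bW_smul_right, off _ _ hm.1, off _ _ hm.2] at e1
    rw [bW_smul_right, bW_smul_right, diag, off _ _ hij, ← e1] at e2
    exact hne (mul_left_cancel₀ ha e2)
  have pm : ∀ g ∈ H, ∀ i, ∃ j, (g : M4 F) * v i * ((g⁻¹ : G4 F) : M4 F) = v j ∨
      (g : M4 F) * v i * ((g⁻¹ : G4 F) : M4 F) = -v j := fun g hg i => by
    choose σ _ _ c hc using act g hg
    have cc : ∀ i j, i ≠ j → c i * c j = 1 := fun i j hij => by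
      have e := bW_conj g (v i) (v j)
      rw [hc, hc, bW_smul_left, bW_smul_right, off i j hij] at e
      by_cases hσ : σ i = σ j
      · refine absurd (par j i (c i) (c j) ?_ fun e0 => hβ (by rw [← e, e0, zero_mul])).symm hij
        rw [← Units.mul_right_inj g, ← Units.mul_left_inj g⁻¹, Matrix.mul_smul, Matrix.mul_smul,
          Matrix.smul_mul, Matrix.smul_mul, hc, hc, hσ, smul_comm]
      · rw [off _ _ hσ, ← mul_assoc] at e
        exact mul_right_cancel₀ hβ (e.trans (one_mul β).symm)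
    obtain ⟨j, k, hj, hk, hjk⟩ := (by decide : ∀ i : Fin 6, ∃ j k, i ≠ j ∧ i ≠ k ∧ j ≠ k) i
    have : c i * c i = 1 := by
      linear_combination (-c i * c i) * cc j k hjk + (c i * c k) * cc i j hj + cc i k hk
    refine ⟨σ i, (mul_self_eq_one_iff.1 this).imp (fun e => ?_) fun e => ?_⟩ <;> rw [hc, e]
    exacts [one_smul _ _, neg_one_smul _ _]
  have hκ : d - β ≠ 0 := sub_ne_zero.2 hne
  obtain ⟨q1, r1⟩ := a5_refl h2 hW off diag (i := 3) (j := 4) (by decide)
  obtain ⟨q2, r2⟩ := a5_refl h2 hW off diag (i := 4) (j := 5) (by decide)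
  have hsp := adj_pair h2 (sub_mem (hW 3) (hW 4)) (sub_mem (hW 4) (hW 5)) (d := (d - β)⁻¹)
    (by rw [q1, q2]; field_simp)
  set g := spOf _ hsp with hg
  have gv : ∀ i, (g : M4 F) * v i * ((g⁻¹ : G4 F) : M4 F) = v (Equiv.swap 3 4 (Equiv.swap 4 5 i)) := fun i => by
    rw [← adj_coe (spOf_mem _ hsp), hg, coe_spOf, adj_smul, adj_mul, (sub_mem (hW 3) (hW 4)).1,
      (sub_mem (hW 4) (hW 5)).1, Matrix.smul_mul, Matrix.smul_mul, Matrix.mul_smul,
      show (v 3 - v 4) * (v 4 - v 5) * v i * ((v 4 - v 5) * (v 3 - v 4)) =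
        (v 3 - v 4) * ((v 4 - v 5) * v i * (v 4 - v 5)) * (v 3 - v 4) by
          simp only [Matrix.mul_assoc],
      r2, Matrix.mul_smul, Matrix.smul_mul, r1, smul_smul, smul_smul, smul_smul]
    rw [show (d - β)⁻¹ * (d - β)⁻¹ * -(d - β) * -(d - β) = 1 by field_simp, one_smul]
  have gH : g ∈ H := by
    refine h.mem_of_stab (R := {x | ∃ i, x = v i ∨ x = -v i}) ?_ (hs.trans (Submodule.span_mono ?_))
      ?_ ?_ (spOf_mem _ hsp) ?_
    · rintro _ ⟨i, rfl | rfl⟩
      exacts [hW i, neg_mem (hW i)]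
    · rintro _ ⟨i, rfl⟩; exact ⟨i, Or.inl rfl⟩
    · rintro _ ⟨i, hi⟩ _ ⟨j, hj⟩ e
      obtain rfl : i = j := by
        by_contra hij
        rcases hi with rfl | rfl <;> rcases hj with rfl | rfl <;>
          simp only [bW_neg_left, bW_neg_right, neg_neg, diag, off i j hij] at e
        exacts [hne e.symm, hd e.symm, hd e.symm, hne e.symm]
      rcases hi with rfl | rfl <;> rcases hj with rfl | rfl <;> simp
    · rintro x hx _ ⟨i, rfl | rfl⟩
      · exact pm x hx i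
      · obtain ⟨j, hj⟩ := pm x hx i
        rw [Matrix.mul_neg, Matrix.neg_mul]
        exact ⟨j, hj.symm.imp (fun e => by rw [e, neg_neg]) fun e => by rw [e]⟩
    · rintro _ ⟨i, rfl | rfl⟩
      · exact ⟨_, Or.inl (gv i)⟩
      · exact ⟨_, Or.inr (by rw [Matrix.mul_neg, Matrix.neg_mul, gv i])⟩
  obtain ⟨j, a, ha, c, hc⟩ := act g gH 0
  obtain rfl : 0 = j := par 0 j 1 c (by rw [← hc, gv, one_smul]; rfl) one_ne_zero
  have yv : ∀ a : Fin 5, (((y : G4 F) ^ a.1 : G4 F) : M4 F) * v 1 * ((((y : G4 F) ^ a.1)⁻¹ : G4 F) : M4 F) =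
      v a.succ := fun a => by
    rw [← a5A_conj]; simp [v, Y, Fin.succ_ne_zero]
  have mv : ∀ i j, ((y : G4 F) : M4 F) * v i * (((y : G4 F)⁻¹ : G4 F) : M4 F) = v j →
      ((g * y * g⁻¹ : G4 F) : M4 F) * v (Equiv.swap 3 4 (Equiv.swap 4 5 i)) * (((g * y * g⁻¹)⁻¹ : G4 F) : M4 F) =
        v (Equiv.swap 3 4 (Equiv.swap 4 5 j)) := fun i j e => by
    rw [← gv, ← gv, ← e, ← conj_conj, ← conj_conj, inv_mul_cancel_right]
  have y1 : ((y : G4 F) : M4 F) * v 1 * (((y : G4 F)⁻¹ : G4 F) : M4 F) = v 2 := by simpa using yv 1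
  have y2 : ((y : G4 F) : M4 F) * v 2 * (((y : G4 F)⁻¹ : G4 F) : M4 F) = v 3 := by
    rw [← y1, ← conj_conj, ← pow_two]; exact yv 2
  have ha' : g * y * g⁻¹ = (y : G4 F) ^ a.succ.1 := by simpa [Y] using ha
  have e1 := mv 1 2 y1
  have e2 := mv 2 3 y2
  rw [ha'] at e1 e2
  have e3 := par _ _ 1 1 (congrArg ((1 : F) • ·) ((yv a.succ).symm.trans e1)) one_ne_zero
  obtain rfl : a = 0 := (by decide : ∀ a : Fin 4,
    a.succ.succ = Equiv.swap 3 4 (Equiv.swap 4 5 2) → a = 0) a e3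
  rw [show (Fin.succ (0 : Fin 4)).1 = 1 from rfl, pow_one] at e2
  exact absurd (par _ _ 1 1 (congrArg ((1 : F) • ·) (y2.symm.trans e2)) one_ne_zero) (by decide)

end Cfsg.Agent.DIM4
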