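import Cfsg.Agent.DIM4.A6S
import Cfsg.Agent.DIM4.UTrace

/-! `2.A₆` can only be the core of a maximal subgroup of `Sp₄(q)` if `q = p ≠ 7`. -/

set_option autoImplicit false
set_option linter.unusedSectionVars false

namespace Cfsg.Agent.DIM4

open Matrix Cfsg.Agent.H23.Six

variable {F : Type*} [Field F] [Finite F] {H P : Subgroup (G4 F)}

namespace Six

/-- the reflection in `u` -/
def rf (u x : M4 F) : M4 F := x - (bW x u / qW u) • u

theorem rf_mem {u x : M4 F} (hu : u ∈ Wsp F) (hx : x ∈ Wsp F) : rf u x ∈ Wsp F :=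
  sub_mem hx (Submodule.smul_mem _ _ hu)

theorem sand (h2 : (2 : F) ≠ 0) {u x : M4 F} (hu : u ∈ Wsp F) (hx : x ∈ Wsp F) (h : qW u ≠ 0) :
    u * x * u = -(qW u • rf u x) := by
  rw [sandwich h2 hu hx, rf, smul_sub, smul_smul, mul_div_cancel₀ _ h, neg_sub]

/-- the product of two reflections in vectors of the same norm -/
theorem exists_pair (h2 : (2 : F) ≠ 0) {u w : M4 F} (hu : u ∈ Wsp F) (hw : w ∈ Wsp F) {κ : F}
    (h : κ ≠ 0) (qu : qW u = κ) (qw : qW w = κ) : ∃ g ∈ Cfsg.spGL 2 F,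
      (g : M4 F) = κ⁻¹ • (u * w) ∧ ∀ x ∈ Wsp F, cg g x = rf u (rf w x) := by
  have h1 := adj_pair h2 hu hw (d := κ⁻¹) (by rw [qu, qw]; field_simp)
  refine ⟨spOf _ h1, spOf_mem _ h1, rfl, fun x hx => ?_⟩
  rw [cg_apply, ← adj_coe (spOf_mem _ h1), coe_spOf, adj_smul, adj_mul, hu.1, hw.1]
  have h3 : κ⁻¹ • (u * w) * x * κ⁻¹ • (w * u) = (κ⁻¹ * κ⁻¹) • (u * (w * x * w) * u) := by
    simp only [smul_mul_assoc, mul_smul_comm, smul_smul, Matrix.mul_assoc]
  rw [h3, sand h2 hw hx (qw ▸ h), Matrix.mul_neg, Matrix.neg_mul, mul_smul_comm, smul_mul_assoc,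
    sand h2 hu (rf_mem hw hx) (qu ▸ h), qu, qw, smul_neg, smul_neg, smul_neg, neg_neg, smul_smul,
    smul_smul]
  rw [show κ⁻¹ * κ⁻¹ * κ * κ = 1 by field_simp, one_smul]

variable {v : Fin 6 → M4 F} {β : F}

theorem q_sub (h2 : (2 : F) ≠ 0) (hS : Simplex v β) {i j : Fin 6} (h : i ≠ j) :
    qW (v i - v j) = -6 * β := by
  apply mul_left_cancel₀ h2
  rw [← bW_self h2, bW_sub_left, bW_sub_right, bW_sub_right, hS.diag, hS.diag, hS.off _ _ h,
    hS.off _ _ h.symm]
  ring

theorem six_ne (h2 : (2 : F) ≠ 0) (hS : Simplex v β) : -6 * β ≠ 0 := by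
  rw [show -6 * β = -(2 * 3 * β) by ring]
  simp [h2, hS.three, hS.ne]

theorem rf_sub (h2 : (2 : F) ≠ 0) (hS : Simplex v β) {i j : Fin 6} (h : i ≠ j) (m : Fin 6) :
    rf (v i - v j) (v m) = v (Equiv.swap i j m) := by
  have h6 := six_ne h2 hS
  rw [rf, q_sub h2 hS h, bW_sub_right]
  by_cases hi : m = i
  · rw [hi, hS.diag, hS.off _ _ h, Equiv.swap_apply_left,
      show -5 * β - β = -6 * β by ring, div_self h6, one_smul, sub_sub_cancel]
  by_cases hj : m = j
  · rw [hj, hS.diag, hS.off _ _ h.symm, Equiv.swap_apply_right,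
      show β - -5 * β = -(-6 * β) by ring, neg_div, div_self h6, neg_smul, one_smul]
    abel
  · rw [hS.off _ _ hi, hS.off _ _ hj, Equiv.swap_apply_of_ne_of_ne hi hj, sub_self, zero_div,
      zero_smul, sub_zero]

theorem card_eq (h : Res H P) (p : ℕ) [Fact p.Prime] [CharP F p] (hS : Simplex v β)
    {σ : P →* A6} (hσ : Function.Surjective σ) (hg : ∀ (g : P) (i), cg g (v i) = v ((σ g).1 i)) :
    Nat.card F = p := by
  have h2 := h.two
  have h6 := six_ne h2 hS
  let L : Set (M4 F) := {u | ∃ i j, u = v i - v j}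
  let D : Set (M4 F) := {x | adj x * x = 1 ∧ ∃ d : F, ∃ u ∈ L, ∃ w ∈ L, d * β ∈ (⊥ : Subfield F) ∧
    x = d • (u * w)}
  have hb (i j) : bW (v i) (v j) / β ∈ (⊥ : Subfield F) := by
    by_cases hij : i = j
    · rw [hij, hS.diag, mul_div_cancel_right₀ _ hS.ne]
      exact neg_mem (ofNat_mem _ 5)
    · rw [hS.off _ _ hij, div_self hS.ne]
      exact one_mem _
  have htr {g : G4 F} (hg : g ∈ grp D) : (g : M4 F).trace ∈ (⊥ : Subfield F) := by
    refine trace_pairs h2 hS.ne (L := L) ?_ ?_ (fun x hx => hx) hg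
    · rintro _ ⟨i, j, rfl⟩
      exact sub_mem (hS.mem i) (hS.mem j)
    · rintro _ ⟨i, j, rfl⟩ _ ⟨k, l, rfl⟩
      simp only [bW_sub_left, bW_sub_right, sub_div]
      exact sub_mem (sub_mem (hb _ _) (hb _ _)) (sub_mem (hb _ _) (hb _ _))
  have hpm {g k : P} (e : σ g = σ k) : (g : G4 F) = k ∨ (g : G4 F) = -k :=
    pm_of_conj_eq h2 (h.le_sp g.2) (h.le_sp k.2) hS.span (by
      rintro _ ⟨i, rfl⟩
      exact (hg g i).trans (e ▸ (hg k i).symm))
  have hN : ∀ x : A6, x ∈ ((grp D).subgroupOf P).map σ := by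
    intro x
    have h1 : x.1 ∈ Subgroup.closure {c : Equiv.Perm (Fin 6) | c.IsThreeCycle} := by
      rw [Equiv.Perm.closure_three_cycles_eq_alternating]; exact x.2
    have h3 : Subgroup.closure {c : Equiv.Perm (Fin 6) | c.IsThreeCycle} ≤
        (((grp D).subgroupOf P).map σ).map (alternatingGroup (Fin 6)).subtype := by
      rw [Subgroup.closure_le]
      intro c hc
      obtain ⟨g, hgc⟩ := hσ ⟨c, hc.mem_alternatingGroup⟩
      refine ⟨_, ⟨g, Subgroup.mem_subgroupOf.2 (Subgroup.subset_closure ?_), hgc⟩, rfl⟩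
      obtain ⟨i, j, k, hj, hk, rfl⟩ := exists_swaps hc
      obtain ⟨g', hg', e1, e2⟩ := exists_pair h2 (sub_mem (hS.mem i) (hS.mem j))
        (sub_mem (hS.mem i) (hS.mem k)) h6 (q_sub h2 hS hj) (q_sub h2 hS hk)
      have h4 := pm_of_conj_eq h2 (h.le_sp g.2) hg' hS.span (by
        rintro _ ⟨m, rfl⟩
        refine (hg g m).trans (Eq.symm ((e2 _ (hS.mem m)).trans ?_))
        rw [rf_sub h2 hS hk, rf_sub h2 hS hj, hgc]
        rfl)
      have h5 : (-6 * β)⁻¹ * β ∈ (⊥ : Subfield F) := by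
        rw [mul_inv, inv_mul_cancel_right₀ hS.ne]
        exact inv_mem (neg_mem (ofNat_mem _ 6))
      refine ⟨mem_spGL_iff.1 (h.le_sp g.2), ?_⟩
      rcases h4 with e | e
      · exact ⟨_, _, ⟨i, j, rfl⟩, _, ⟨i, k, rfl⟩, h5, by rw [e, e1]⟩
      · exact ⟨_, _, ⟨i, j, rfl⟩, _, ⟨i, k, rfl⟩, by rw [neg_mul]; exact neg_mem h5,
          by rw [e, Units.val_neg, e1, neg_smul]⟩
    obtain ⟨y, hy, e⟩ := h3 h1
    rwa [← show y = x from Subtype.ext e]
  have htop : (⊥ : Subfield F) = ⊤ := h.trace_top fun g hgP => by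
    obtain ⟨k, hk, e⟩ := hN (σ ⟨g, hgP⟩)
    rcases hpm e.symm with e1 | e1
    · exact (show g = k from e1) ▸ htr hk
    · rw [show g = -k from e1, Units.val_neg, trace_neg]
      exact neg_mem (htr hk)
  rw [← Subfield.card_bot F p, htop]
  exact (Nat.card_congr Subfield.topEquiv.toEquiv).symm

/-- in characteristic seven the simplex is part of a root system of type `A₆` -/
theorem not_seven (h : Res H P) (h7 : (7 : F) = 0) (hS : Simplex v β)
    (hH : ∀ g ∈ H, ∀ i, ∃ j, cg g (v i) = v j ∨ cg g (v i) = -v j) : False := by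
  have h2 := h.two
  have h3 := hS.three
  have hβ := hS.ne
  have h4 := four_ne h2
  let w : Option (Fin 6) → M4 F := fun a => a.elim 0 v
  let n : Option (Fin 6) → Option (Fin 6) → F := fun a c => if a = c then 1 else 0
  have hw (a) : w a ∈ Wsp F := by
    cases a
    · exact zero_mem _
    · exact hS.mem _
  have hd (i) : bW (v i) (v i) = 2 * β := by rw [hS.diag]; linear_combination -β * h7
  have hb (a c) : bW (w a) (w c) = β * (n a c - n a none - n none c + 1) := by
    rcases a with _ | i <;> rcases c with _ | j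
    · simp [w, n]
    · simp [w, n]
    · simp [w, n]
    · by_cases hij : i = j
      · subst hij; simp [w, n, hd]; ring
      · simp [w, n, hij, hS.off _ _ hij]
  have hb' (a b c d) : bW (w a - w b) (w c - w d) = β * (n a c - n a d - n b c + n b d) := by
    simp only [bW_sub_left, bW_sub_right, hb]; ring
  have hq (a b) (hab : a ≠ b) : qW (w a - w b) = β := by
    apply mul_left_cancel₀ h2
    rw [← bW_self h2, hb']
    simp [n, hab, hab.symm]; ring
  let R : Set (M4 F) := {u | ∃ a b, a ≠ b ∧ u = w a - w b}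
  have hR (u) (hu : u ∈ R) : u ∈ Wsp F := by
    obtain ⟨a, b, -, rfl⟩ := hu
    exact sub_mem (hw a) (hw b)
  have hv (i) : v i = w (some i) - w none := (sub_zero _).symm
  have hvR (i) : v i ∈ R := ⟨some i, none, by simp, hv i⟩
  have hneg (u) (hu : u ∈ R) : -u ∈ R := by
    obtain ⟨a, b, hab, rfl⟩ := hu
    exact ⟨b, a, hab.symm, neg_sub _ _⟩
  have hrf (a b) (hab : a ≠ b) (u) (hu : u ∈ R) : rf (w a - w b) u ∈ R := by
    obtain ⟨c, d, hcd, rfl⟩ := hu
    refine ⟨Equiv.swap a b c, Equiv.swap a b d, (Equiv.swap a b).injective.ne hcd, ?_⟩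
    have h1 (c) : w (Equiv.swap a b c) = w c - (n c a - n c b) • (w a - w b) := by
      by_cases ha : c = a
      · simp [n, ha, hab]
      by_cases hb : c = b
      · simp [n, hb, hab.symm]
      · simp [n, ha, hb, Equiv.swap_apply_of_ne_of_ne ha hb]
    rw [rf, hq a b hab, hb', mul_div_cancel_left₀ _ hβ, h1, h1]
    module
  obtain ⟨g, hg, -, e⟩ := exists_pair h2 (hS.mem 0) (hS.mem 1) hβ
    (by rw [hv, hq _ _ (by simp)]) (by rw [hv, hq _ _ (by simp)])
  have hgH : g ∈ H := by
    refine h.mem_of_stab hR (hS.span.trans (Submodule.span_mono (Set.range_subset_iff.2 hvR)))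
      ?_ ?_ hg fun u hu => ?_
    · rintro _ ⟨a, b, hab, rfl⟩ _ ⟨c, d, hcd, rfl⟩ e
      rw [hb', hb'] at e
      have e' := mul_left_cancel₀ hβ e
      simp only [n, hab, hab.symm, if_true, if_false] at e'
      by_cases h1 : a = c <;> by_cases h5 : b = d
      · left; rw [h1, h5]
      all_goals
        exfalso
        split_ifs at e' <;> first
          | exact h2 (by linear_combination -e') | exact h3 (by linear_combination -e')
          | exact h4 (by linear_combination -e') | exact one_ne_zero (by linear_combination -e')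
    · intro k hk
      choose π hπ using hH k hk
      have h1 (i) : cg k (v i) ∈ R := by
        rcases hπ i with e | e <;> rw [e]
        · exact hvR _
        · exact hneg _ (hvR _)
      rintro _ ⟨a, b, hab, rfl⟩
      change cg k (w a - w b) ∈ R
      rcases a with _ | i <;> rcases b with _ | j
      · exact absurd rfl hab
      · rw [← neg_sub, ← hv, map_neg]; exact hneg _ (h1 j)
      · rw [← hv]; exact h1 i
      have hij : i ≠ j := fun e => hab (by rw [e])
      have h5 := bW_cg k (v i) (v j)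
      rw [hS.off _ _ hij] at h5
      change cg k (v i - v j) ∈ R
      rw [map_sub]
      by_cases hπ' : π i = π j
      · exfalso
        rcases hπ i with e | e <;> rcases hπ j with e' | e' <;>
          simp only [e, e', hπ', bW_neg_left, bW_neg_right, hd, neg_neg] at h5
        · exact hβ (by linear_combination h5)
        · exact mul_ne_zero h3 hβ (by linear_combination -h5)
        · exact mul_ne_zero h3 hβ (by linear_combination -h5)
        · exact hβ (by linear_combination h5)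
      rcases hπ i with e | e <;> rcases hπ j with e' | e' <;>
        simp only [e, e', bW_neg_left, bW_neg_right, hS.off _ _ hπ', neg_neg] at h5 ⊢
      · exact ⟨some (π i), some (π j), by simpa using hπ', rfl⟩
      · exact absurd (by linear_combination -h5) (mul_ne_zero h2 hβ)
      · exact absurd (by linear_combination -h5) (mul_ne_zero h2 hβ)
      · exact ⟨some (π j), some (π i), by simpa using Ne.symm hπ', by
          change _ = v _ - v _; abel⟩
    · change cg g u ∈ R
      rw [e u (hR u hu), hv 0, hv 1]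
      exact hrf _ _ (by simp) _ (hrf _ _ (by simp) _ hu)
  have hq1 (i) : qW (v i) = β := by rw [hv, hq _ _ (by simp)]
  have h5 : cg g (v 2) = v 2 - v 1 := by
    rw [e _ (hS.mem 2), rf, rf, hq1, hq1, hS.off 2 1 (by decide), div_self hβ, one_smul,
      bW_sub_left, hS.off 2 0 (by decide), hS.off 1 0 (by decide), sub_self, zero_div, zero_smul,
      sub_zero]
  obtain ⟨j, hj⟩ := hH g hgH 2
  have h6 : bW (v 2 - v 1) (v 0) = 0 := by
    rw [bW_sub_left, hS.off 2 0 (by decide), hS.off 1 0 (by decide), sub_self]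
  have h8 : bW (v j) (v 0) ≠ 0 := by
    by_cases hj0 : j = 0
    · rw [hj0, hd]; exact mul_ne_zero h2 hβ
    · rwa [hS.off _ _ hj0]
  rw [← h5] at h6
  rcases hj with e | e <;> rw [e] at h6
  · exact h8 h6
  · exact h8 (by rwa [bW_neg_left, neg_eq_zero] at h6)

end Six

theorem Res.a6 (h : Res H P) (ho : OneInv P) (p : ℕ) [Fact p.Prime] [CharP F p] (h3 : p ≠ 3)
    (e : P ⧸ ZP P ≃* alternatingGroup (Fin 6)) : Nat.card F = p ∧ p ≠ 7 := by
  have h3' : (3 : F) ≠ 0 := fun e => h3 ((Nat.prime_dvd_prime_iff_eq Fact.out Nat.prime_three).1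
    ((CharP.cast_eq_zero_iff F p 3).1 (by exact_mod_cast e)))
  obtain ⟨v, β, σ, hS, hσ, hg, hH⟩ := h.a6_simplex ho h3' e
  refine ⟨Six.card_eq h p hS hσ hg, ?_⟩
  rintro rfl
  exact Six.not_seven h (by exact_mod_cast CharP.cast_eq_zero F 7) hS hH

end Cfsg.Agent.DIM4
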