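import Cfsg.Agent.DIM4.Irr
import Cfsg.Agent.DIM4.Stab
import Cfsg.Agent.H23.A6Q

/-! `2.A₆` in `Sp₄(q)` permutes a simplex of six vectors of `W`. -/

set_option autoImplicit false
set_option linter.unusedSectionVars false

namespace Cfsg.Agent.DIM4

open Matrix Cfsg.Agent.H23.Six

variable {F : Type*} [Field F] [Finite F] {H P : Subgroup (G4 F)}

theorem exists_a6_outer : ∃ φ : alternatingGroup (Fin 6) ≃* alternatingGroup (Fin 6),
    ∀ g : alternatingGroup (Fin 6), g ^ 3 = 1 → g ≠ 1 →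
      ((φ g).1.IsThreeCycle ↔ ¬ g.1.IsThreeCycle) := exists_outer

namespace Six

theorem neg_one_ne (h2 : (2 : F) ≠ 0) : (-1 : G4 F) ≠ 1 := fun e => by
  have h := congrArg (fun g : G4 F => (g : M4 F) (Sum.inl 0) (Sum.inl 0)) e
  simp only [Units.val_neg, Units.val_one, Matrix.neg_apply, one_apply_eq] at h
  exact h2 (by linear_combination -h)

/-- `σ` is onto `A₆` with kernel `±1` -/
structure Cov (σ : P →* A6) : Prop where
  surj : Function.Surjective σ
  ker : ∀ g : P, σ g = 1 ↔ (g : G4 F) = 1 ∨ (g : G4 F) = -1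

variable {σ : P →* A6}

theorem Cov.comp (hσ : Cov σ) (φ : A6 ≃* A6) : Cov (φ.toMonoidHom.comp σ) :=
  ⟨φ.surjective.comp hσ.surj, fun g => by
    rw [← hσ.ker]; exact map_eq_one_iff φ φ.injective⟩

theorem Cov.eq_or (hσ : Cov σ) {g k : P} (h : σ g = σ k) :
    (g : G4 F) = k ∨ (g : G4 F) = -k := by
  have h1 := (hσ.ker (g * k⁻¹)).1 (by rw [map_mul, map_inv, h, mul_inv_cancel])
  simp only [Subgroup.coe_mul, Subgroup.coe_inv, mul_inv_eq_iff_eq_mul, one_mul, neg_mul] at h1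
  exact h1

theorem Cov.cg_eq (hσ : Cov σ) {g k : P} (h : σ g = σ k) (A : M4 F) : cg g A = cg k A := by
  rcases hσ.eq_or h with e | e <;> rw [e]
  exact cg_neg _ _

theorem Cov.lift3 (hσ : Cov σ) {x : A6} (hx : x ^ 3 = 1) : ∃ g : P, σ g = x ∧ g ^ 3 = 1 := by
  obtain ⟨g, rfl⟩ := hσ.surj x
  refine ⟨g ^ 4, by rw [map_pow, pow_succ, hx, one_mul], Subtype.ext ?_⟩
  have h1 := (hσ.ker (g ^ 3)).1 (by rw [map_pow, hx])
  rw [← pow_mul, mul_comm, pow_mul, Subgroup.coe_pow]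
  rcases h1 with e | e <;> rw [e]
  · simp
  · exact Even.neg_one_pow (by decide)

theorem Cov.comm3 (hσ : Cov σ) (h2 : (2 : F) ≠ 0) {g k : P} (hk : k ^ 3 = 1)
    (h : σ g * σ k = σ k * σ g) : g * k = k * g := by
  have h1 := hσ.eq_or (g := g * k * g⁻¹) (k := k)
    (by rw [map_mul, map_mul, map_inv, h, mul_inv_cancel_right])
  rcases h1 with e | e
  · exact mul_inv_eq_iff_eq_mul.1 (Subtype.ext e)
  · have h3 := congrArg (· ^ 3) e
    simp only [Odd.neg_pow (by decide : Odd 3), ← Subgroup.coe_pow, conj_pow, hk] at h3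
    exact absurd (by simpa using h3.symm) (neg_one_ne h2)

theorem Cov.exists_one (hσ : Cov σ) (h : Res H P) (h3 : (3 : F) ≠ 0) : ∃ k : P, k ^ 3 = 1 ∧
    σ k ≠ 1 ∧ ((k : G4 F) : M4 F) + (((k : G4 F)⁻¹ : G4 F) : M4 F) = -1 := by
  by_contra! hn
  have key (k : P) (hk : k ^ 3 = 1) (h1 : σ k ≠ 1) :=
    (three_cases h.two h3 (h.le_sp k.2) (congrArg Subtype.val hk)
      fun e => h1 ((hσ.ker k).2 (Or.inl e))).resolve_left (hn k hk h1)
  obtain ⟨f1, f2, f3, f4, f5, f6, f7⟩ := nine_facts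
  obtain ⟨g, hg, hg3⟩ := hσ.lift3 f1
  obtain ⟨k, hk, hk3⟩ := hσ.lift3 f2
  have hc : Commute g k := hσ.comm3 h.two hk3 (by rw [hg, hk, f3])
  obtain ⟨A, hA, eA, qA⟩ := key g hg3 (hg ▸ f4)
  obtain ⟨B, hB, eB, qB⟩ := key k hk3 (hk ▸ f5)
  obtain ⟨C, hC, eC, -⟩ := key (g * k) (by rw [hc.mul_pow, hg3, hk3, one_mul])
    (by rwa [map_mul, hg, hk])
  obtain ⟨D, hD, eD, -⟩ := key (g * k⁻¹)
    (by rw [hc.inv_right.mul_pow, hg3, inv_pow, hk3, inv_one, one_mul])
    (by rwa [map_mul, map_inv, hg, hk])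
  exact nine h.two h3 (congrArg Subtype.val hc.eq) hA hB hC hD eA eB eC eD qA qB

/-- the stabiliser of a point fixes a vector -/
theorem Cov.exists_fixed (hσ : Cov σ) (h : Res H P) (ho : OneInv P) (h3 : (3 : F) ≠ 0) {k : P}
    (hk : (σ k).1.IsThreeCycle)
    (ek : ((k : G4 F) : M4 F) + (((k : G4 F)⁻¹ : G4 F) : M4 F) = -1) :
    ∃ v ∈ Wsp F, v ≠ 0 ∧ ∀ g : P, (σ g).1 5 = 5 → cg g v = v := by
  have h2 := h.two
  obtain ⟨c, hc⟩ := isConj_iff.1 (alternatingGroup.isThreeCycle_isConj (by simp) hk yb_three)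
  obtain ⟨c, rfl⟩ := hσ.surj c
  obtain ⟨b, hb⟩ : ∃ b : P, b = c * k * c⁻¹ := ⟨_, rfl⟩
  have hb1 : σ b = yb := by rw [hb, map_mul, map_mul, map_inv, hc]
  have eb : ((b : G4 F) : M4 F) + (((b : G4 F)⁻¹ : G4 F) : M4 F) = -1 := by
    have := congrArg (cg (c : G4 F)) ek
    rw [map_add, map_neg, cg_of_comm (A := 1) (by simp)] at this
    rw [← this, hb]
    simp only [cg_apply, Subgroup.coe_mul, Subgroup.coe_inv, _root_.mul_inv_rev, inv_inv,
      Units.val_mul, Matrix.mul_assoc]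
  obtain ⟨a, ha⟩ := hσ.surj xa
  have ha2 : (a : G4 F) * a = -1 := by
    refine ((hσ.ker (a * a)).1 (by rw [map_mul, ha, xa_facts.1])).resolve_left fun e => ?_
    exact xa_facts.2 (ha ▸ (hσ.ker a).2 (ho.uniq a a.2 e))
  have ha3 : ((a : G4 F) : M4 F) * (a : G4 F) = (-1 : F) • 1 := by
    rw [← Units.val_mul, ha2]; simp
  have ha4 : adj ((a : G4 F) : M4 F) = -((a : G4 F) : M4 F) := by
    rw [adj_coe (h.le_sp a.2), Units.inv_eq_of_mul_eq_one_left (a := -((a : G4 F) : M4 F))]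
    rw [Matrix.neg_mul, ha3]; simp
  have hbi : (((b : G4 F)⁻¹ : G4 F) : M4 F) = -1 - (b : G4 F) := by rw [← eb]; abel
  have hbb : ((b : G4 F) : M4 F) * (-1 - (b : G4 F)) = 1 := by rw [← hbi, Units.mul_inv]
  have hhalf : (1 / 2 : F) + 1 / 2 = 1 := by field_simp; norm_num
  obtain ⟨v, hv, h0, hav, hbv⟩ := exists_fix h2 ha4 (by simp) ha3
    (B := ((b : G4 F) : M4 F) + (1 / 2 : F) • 1) (d := -(3 * (1 / 2) ^ 2))
    (by
      rw [adj_add, adj_smul, adj_one, adj_coe (h.le_sp b.2), hbi]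
      linear_combination (norm := module) hhalf • (1 : M4 F))
    (by simp [h2, h3])
    (by
      simp only [add_mul, mul_add, mul_sub, smul_mul_assoc, mul_smul_comm, one_mul, mul_one,
        Matrix.mul_neg] at hbb ⊢
      linear_combination (norm := module) -hbb + hhalf • ((b : G4 F) : M4 F) +
        ((1 / 2 + 1 / 2 + 1 : F) * hhalf) • (1 : M4 F))
  have hbv' : ((b : G4 F) : M4 F) * v = v * (b : G4 F) := by
    simp only [add_mul, mul_add, smul_mul_assoc, mul_smul_comm, one_mul, mul_one] at hbv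
    exact add_right_cancel hbv
  let S : Subgroup P :=
    { carrier := {g | cg g v = v}
      one_mem' := cg_one v
      mul_mem' := fun {x y} hx hy => by
        change cg ((x : G4 F) * (y : G4 F)) v = v
        rw [cg_mul, hy, hx]
      inv_mem' := fun {x} hx => by
        change cg (x : G4 F)⁻¹ v = v
        conv_lhs => rw [← show cg x v = v from hx]
        exact cg_inv_cg _ _ }
  refine ⟨v, hv, h0, fun g hg => ?_⟩
  obtain ⟨s, hs, e⟩ := stab_mem (K := S.map σ) ⟨a, cg_of_comm hav, ha⟩ ⟨b, cg_of_comm hbv', hb1⟩ hg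
  rw [← hσ.cg_eq e]
  exact hs

/-- the orbit of the fixed vector is a simplex -/
theorem Cov.simplex (h : Res H P) (hσ : Cov σ) (h3 : (3 : F) ≠ 0) {v0 : M4 F} (hv : v0 ∈ Wsp F)
    (h0 : v0 ≠ 0) (hf : ∀ g : P, (σ g).1 5 = 5 → cg g v0 = v0) :
    ∃ (v : Fin 6 → M4 F) (β : F), Simplex v β ∧ ∀ (g : P) (i), cg g (v i) = v ((σ g).1 i) := by
  have h2 := h.two
  choose t' ht' using one_trans
  choose t ht using fun i => hσ.surj (t' i)
  have ht5 (i) : (σ (t i)).1 5 = i := by rw [ht, ht']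
  obtain ⟨v, hvd⟩ : ∃ v : Fin 6 → M4 F, v = fun i => cg (t i) v0 := ⟨_, rfl⟩
  have hW (i) : v i ∈ Wsp F := hvd ▸ cg_mem (h.le_sp (t i).2) hv
  have hg (g : P) (i) : cg g (v i) = v ((σ g).1 i) := by
    have h1 := hf ((t ((σ g).1 i))⁻¹ * (g * t i)) (by
      rw [map_mul, map_mul, map_inv]
      change ((σ (t ((σ g).1 i))).1)⁻¹ ((σ g).1 ((σ (t i)).1 5)) = 5
      rw [ht5, Equiv.Perm.inv_eq_iff_eq, ht5])
    rw [hvd]
    change _ = cg _ v0
    conv_rhs => rw [← h1]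
    rw [← cg_mul, ← cg_mul, Subgroup.coe_mul, Subgroup.coe_mul, Subgroup.coe_inv,
      mul_inv_cancel_left]
  have hne (i) : v i ≠ 0 := fun e => h0 (by
    rw [← cg_inv_cg (t i) v0, show cg (t i) v0 = 0 by rw [← e, hvd], map_zero])
  have hoff (i j) (hij : i ≠ j) : bW (v i) (v j) = bW (v 5) (v 0) := by
    obtain ⟨x, h1, h4⟩ := two_trans hij
    obtain ⟨g, rfl⟩ := hσ.surj x
    rw [← bW_cg g (v 5), hg, hg, h1, h4]
  have hdiag (i) : bW (v i) (v i) = bW (v 5) (v 5) := by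
    rw [← bW_cg (t i) (v 5), hg, ht5]
  have hsum : ∑ i, v i = 0 := by
    by_contra hs
    have hfix (g : G4 F) (hgP : g ∈ P) : cg g (∑ i, v i) = ∑ i, v i := by
      rw [map_sum]
      exact (Finset.sum_congr rfl fun i _ => hg ⟨g, hgP⟩ i).trans
        (Equiv.sum_comp (σ ⟨g, hgP⟩).1 v)
    obtain ⟨c, hc⟩ := h.scalar_of_semi hs fun g hgP => ⟨1, by rw [one_smul]; exact hfix g hgP⟩
    exact hs (eq_zero_of_scalar h2 (Submodule.sum_mem _ fun i _ => hW i : _ ∈ Wsp F).2 hc)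
  have hle : Submodule.span F (Set.range v) ≤ Wsp F :=
    Submodule.span_le.2 (Set.range_subset_iff.2 hW)
  have hspan : Wsp F ≤ Submodule.span F (Set.range v) := by
    refine ((h.W_irr hle fun g hgP u hu => ?_).resolve_left fun e => ?_).ge
    · refine (Submodule.span_le.2 ?_ : _ ≤ (Submodule.span F (Set.range v)).comap (cg g)) hu
      rintro _ ⟨i, rfl⟩
      exact Submodule.mem_comap.2 (hg ⟨g, hgP⟩ i ▸ Submodule.subset_span ⟨_, rfl⟩)
    · exact hne 0 ((Submodule.eq_bot_iff _).1 e _ (Submodule.subset_span ⟨0, rfl⟩))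
  have h5 : bW (v 5) (v 5) = -5 * bW (v 5) (v 0) := by
    have h1 := bW_sum (v 5) v
    rw [hsum, bW_zero_right, Fin.sum_univ_six, hoff 5 1 (by decide), hoff 5 2 (by decide),
      hoff 5 3 (by decide), hoff 5 4 (by decide)] at h1
    linear_combination -h1
  refine ⟨v, bW (v 5) (v 0), ⟨hW, fun e => hne 5 ?_, h3, hoff, fun i => (hdiag i).trans h5, hsum,
    hspan⟩, hg⟩
  refine eq_zero_of_span h2 hspan (hW 5) ?_
  rintro _ ⟨i, rfl⟩
  by_cases hi : 5 = i
  · rw [← hi, h5, e, mul_zero]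
  · rw [hoff 5 i hi, e]

/-- a vector fixed by an element of order five is a multiple of a vertex -/
theorem fix_five (h2 : (2 : F) ≠ 0) {v : Fin 6 → M4 F} {β : F} (hS : Simplex v β) {z : G4 F}
    {s : Equiv.Perm (Fin 6)} (hz : ∀ i, cg z (v i) = v (s i)) (h5 : s ^ 5 = 1) (h1 : s ≠ 1)
    {u : M4 F} (hu : u ∈ Wsp F) (hf : cg z u = u) : ∃ j, ∃ c : F, u = c • v j := by
  obtain ⟨j, hj⟩ := five_orbit h5 h1
  obtain ⟨k, hk, -⟩ := exists_third j j
  have h3 (n : ℕ) (m) : bW u (v ((s ^ n) m)) = bW u (v m) := by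
    induction n with
    | zero => rfl
    | succ n ih => rw [pow_succ', Equiv.Perm.mul_apply, ← hz, ← ih, ← bW_cg z u (v _), hf]
  have h4 (m) (hm : m ≠ j) : bW u (v m) = bW u (v k) := by
    obtain ⟨n, rfl⟩ := hj k m hk hm
    exact h3 n k
  have h6 : bW u (v j) = -5 * bW u (v k) := by
    have h7 := bW_sum u v
    rw [hS.sum, bW_zero_right, ← Finset.add_sum_erase _ _ (Finset.mem_univ j),
      Finset.sum_congr rfl fun m hm => h4 m (Finset.ne_of_mem_erase hm), Finset.sum_const,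
      Finset.card_erase_of_mem (Finset.mem_univ j), Finset.card_univ, Fintype.card_fin,
      nsmul_eq_mul] at h7
    push_cast at h7
    linear_combination -h7
  refine ⟨j, bW u (v k) / β, sub_eq_zero.1 (eq_zero_of_span h2 hS.span
    (sub_mem hu (Submodule.smul_mem _ _ (hS.mem j))) ?_)⟩
  rintro _ ⟨m, rfl⟩
  have := hS.ne
  rw [bW_sub_left, bW_smul_left]
  by_cases hm : m = j
  · rw [hm, hS.diag, h6]; field_simp; ring
  · rw [hS.off j m (Ne.symm hm), h4 m hm]; field_simp; ring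

theorem sign_of_lines (h2 : (2 : F) ≠ 0) {v : Fin 6 → M4 F} {β : F} (hS : Simplex v β) {g : G4 F}
    (h : ∀ i, ∃ j, ∃ c : F, cg g (v i) = c • v j) (i : Fin 6) :
    ∃ j, cg g (v i) = v j ∨ cg g (v i) = -v j := by
  choose π c hc using h
  have h1 (i k) (hik : i ≠ k) : c i * c k = 1 := by
    have h3 := bW_cg g (v i) (v k)
    by_cases e : π i = π k
    · exfalso
      obtain ⟨m, hm, hm'⟩ := exists_third i k
      have h4 := bW_cg g (v i) (v m)
      have h5 := bW_cg g (v k) (v m)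
      have h6 := bW_cg g (v i) (v i)
      rw [hc i, bW_smul_left, hS.off _ _ hm.symm, e] at h4
      rw [hc k, bW_smul_left, hS.off _ _ hm'.symm] at h5
      have h7 : c i = c k := by
        have h8 : (c i - c k) * β = 0 := by linear_combination -c i * h5 + c k * h4
        exact sub_eq_zero.1 ((mul_eq_zero.1 h8).resolve_right hS.ne)
      rw [hc i, hc k, hS.off _ _ hik, ← h7, ← e] at h3
      rw [hc i, h3, hS.diag] at h6
      have h8 : 2 * 3 * β = 0 := by linear_combination h6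
      simp [h2, hS.three, hS.ne] at h8
    · rw [hc, hc, bW_smul_left, bW_smul_right, hS.off _ _ e, hS.off _ _ hik] at h3
      exact mul_right_cancel₀ hS.ne (by linear_combination h3)
  obtain ⟨k, hk, -⟩ := exists_third i i
  obtain ⟨m, hm, hm'⟩ := exists_third i k
  have h3 : c i * c i = 1 := by
    linear_combination c i * c m * h1 i k hk.symm + h1 i m hm.symm - c i * c i * h1 m k hm'
  refine ⟨π i, (mul_self_eq_one_iff.1 h3).imp (fun e => ?_) fun e => ?_⟩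
  · rw [hc, e, one_smul]
  · rw [hc, e, neg_one_smul]

end Six

open Six

theorem Res.a6_simplex (h : Res H P) (ho : OneInv P) (h3 : (3 : F) ≠ 0)
    (e : P ⧸ ZP P ≃* alternatingGroup (Fin 6)) :
    ∃ (v : Fin 6 → M4 F) (β : F) (σ : P →* alternatingGroup (Fin 6)), Simplex v β ∧
      Function.Surjective σ ∧
      (∀ g : P, ∀ i, ((g : G4 F) : M4 F) * v i * (((g : G4 F)⁻¹ : G4 F) : M4 F) = v ((σ g).1 i)) ∧
      ∀ g ∈ H, ∀ i, ∃ j, (g : M4 F) * v i * ((g⁻¹ : G4 F) : M4 F) = v j ∨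
        (g : M4 F) * v i * ((g⁻¹ : G4 F) : M4 F) = -v j := by
  have h0 : Cov (e.toMonoidHom.comp (QuotientGroup.mk' (ZP P))) :=
    ⟨e.surjective.comp (QuotientGroup.mk'_surjective _), fun g => by
      rw [← h.mem_ZP, ← QuotientGroup.eq_one_iff]; exact map_eq_one_iff e e.injective⟩
  obtain ⟨k, hk, hk1, ek⟩ := h0.exists_one h h3
  obtain ⟨σ, hσ, hk3⟩ : ∃ σ : P →* A6, Cov σ ∧ (σ k).1.IsThreeCycle := by
    obtain ⟨φ, hφ⟩ := exists_outer
    by_cases h1 : ((e.toMonoidHom.comp (QuotientGroup.mk' (ZP P))) k).1.IsThreeCycle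
    · exact ⟨_, h0, h1⟩
    · exact ⟨_, h0.comp φ, (hφ _ (by rw [← map_pow, hk, map_one]) hk1).2 h1⟩
  obtain ⟨v0, hv0, hv1, hf⟩ := hσ.exists_fixed h ho h3 hk3 ek
  obtain ⟨v, β, hS, hg⟩ := hσ.simplex h h3 hv0 hv1 hf
  refine ⟨v, β, σ, hS, hσ.surj, hg, fun g hgH => sign_of_lines h.two hS fun i => ?_⟩
  obtain ⟨x, hx, hx1, hx5⟩ := exists_five i
  obtain ⟨z, rfl⟩ := hσ.surj x
  let z' : P := ⟨g * z * g⁻¹, h.core.normal g hgH z z.2⟩
  have hc {n : ℕ} : σ (z' ^ n) = 1 ↔ σ (z ^ n) = 1 := by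
    rw [hσ.ker, hσ.ker, Subgroup.coe_pow, Subgroup.coe_pow, conj_pow]
    refine or_congr (by simp) ?_
    rw [mul_inv_eq_iff_eq_mul, ← eq_inv_mul_iff_mul_eq]
    simp
  refine fix_five h.two hS (hg z') ?_ ?_ (cg_mem (h.max.1.le hgH) (hS.mem i)) ?_
  · exact congrArg Subtype.val ((map_pow σ z' 5).symm.trans (hc.2 (by rw [map_pow, hx5])))
  · exact fun e => hx1 (by simpa using (hc (n := 1)).1 (by rw [pow_one]; exact Subtype.ext e))
  · change cg (g * (z : G4 F) * g⁻¹) (cg g (v i)) = _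
    rw [← cg_mul, inv_mul_cancel_right, cg_mul, hg, hx]

end Cfsg.Agent.DIM4
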