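import Cfsg.Agent.H89.Dim4Pi
import Cfsg.Agent.DIM4.Cross
import Cfsg.Agent.H10.P3Alt

/-! Project DIM4: a double cover of `A₇` in `Sp₄(q)` forces `q = 7` (see `notes/DIM4.md`). -/

set_option autoImplicit false

namespace Cfsg.Agent.DIM4

open Matrix

/-- The kinds of elements of `A₇`. -/
def Cls7 {G : Type*} [Group G] (x : G) : Prop :=
  x ^ 4 = 1 ∨ x ^ 3 = 1 ∨ x ^ 7 = 1 ∨ (x ^ 5 = 1 ∧ ∃ k, k * x * k⁻¹ = x ^ 7) ∨
    ∃ s, s * s = 1 ∧ s ≠ 1 ∧ s * x * s⁻¹ = x ∧ x ^ 3 * x ^ 3 = 1 ∧ x ^ 3 ≠ 1 ∧ s * x ^ 3 ≠ 1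

theorem Cls7.map {G G' : Type*} [Group G] [Group G'] (φ : G ≃* G') {x : G} (h : Cls7 x) :
    Cls7 (φ x) := by
  rcases h with h | h | h | ⟨h, k, hk⟩ | ⟨s, h1, h2, h3, h4, h5, h6⟩
  · exact Or.inl (by rw [← map_pow, h, map_one])
  · exact Or.inr (Or.inl (by rw [← map_pow, h, map_one]))
  · exact Or.inr (Or.inr (Or.inl (by rw [← map_pow, h, map_one])))
  · exact Or.inr (Or.inr (Or.inr (Or.inl ⟨by rw [← map_pow, h, map_one], φ k, by
      rw [← map_pow, ← hk, map_mul, map_mul, map_inv]⟩)))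
  · refine Or.inr (Or.inr (Or.inr (Or.inr ⟨φ s, ?_, ?_, ?_, ?_, ?_, ?_⟩)))
    · rw [← map_mul, h1, map_one]
    · simpa using h2
    · rw [← map_inv, ← map_mul, ← map_mul, h3]
    · rw [← map_pow, ← map_mul, h4, map_one]
    · rwa [← map_pow, Ne, map_eq_one_iff _ φ.injective]
    · rwa [← map_pow, ← map_mul, Ne, map_eq_one_iff _ φ.injective]

open H10.P3 H56 H56.Alt in
theorem cls7 (x : alternatingGroup (Fin 7)) : Cls7 x := by
  obtain ⟨c, hc, r, h1, h2, -⟩ := exists_cls a7_classes x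
  obtain ⟨k, rfl⟩ := isConj_iff.1 h2
  refine Cls7.map (MulAut.conj k) ?_
  have s : ∀ y : alternatingGroup (Fin 7), a7E.pk y = c.X → Cls7 y → Cls7 r := fun y e h =>
    (Subtype.ext (a7E.pk_injective (h1.trans e.symm)) : r = y) ▸ h
  simp only [a7Cl, List.mem_cons, List.not_mem_nil, or_false] at hc
  rcases hc with rfl | rfl | rfl | rfl | rfl | rfl | rfl | rfl | rfl
  · exact s 1 (by decide +kernel) (Or.inl (one_pow _))
  · exact s (al [[0, 1], [2, 3]]) (by decide +kernel) (Or.inl (by decide +kernel))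
  · exact s (al [[0, 1, 2]]) (by decide +kernel) (Or.inr (Or.inl (by decide +kernel)))
  · exact s (al [[1, 2, 3], [4, 5, 6]]) (by decide +kernel) (Or.inr (Or.inl (by decide +kernel)))
  · exact s (al [[0, 1, 2, 3], [5, 6]]) (by decide +kernel) (Or.inl (by decide +kernel))
  · exact s (al [[0, 1, 2, 3, 4]]) (by decide +kernel) (Or.inr (Or.inr (Or.inr (Or.inl
      ⟨by decide +kernel, al [[1, 2, 4, 3], [5, 6]], by decide +kernel⟩))))
  · exact s (al [[0, 1], [2, 3, 4], [5, 6]]) (by decide +kernel) (Or.inr (Or.inr (Or.inr (Or.inr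
      ⟨al [[0, 5], [1, 6]], by decide +kernel⟩))))
  · exact s (al [[0, 1, 2, 3, 4, 6, 5]]) (by decide +kernel) (Or.inr (Or.inr (Or.inl
      (by decide +kernel))))
  · exact s (al [[0, 1, 2, 3, 4, 5, 6]]) (by decide +kernel) (Or.inr (Or.inr (Or.inl
      (by decide +kernel))))

open H10.P3 in
theorem a7_frob : ∃ x y : alternatingGroup (Fin 7), x ^ 7 = 1 ∧ x ≠ 1 ∧ y * x * y⁻¹ = x ^ 2 :=
  ⟨al [[0, 1, 2, 3, 4, 5, 6]], al [[1, 2, 4], [3, 6, 5]], by decide +kernel⟩

variable {F : Type*} [Field F] [Finite F] {H P : Subgroup (G4 F)}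

theorem Res.a7 (h : Res H P) (ho : OneInv P) (e : P ⧸ ZP P ≃* alternatingGroup (Fin 7)) :
    Nat.card F = 7 := by
  have n1 := ne_neg89 h.two
  obtain ⟨π, su, one, pm⟩ := h.pi89 e
  have h7 : (7 : F) = 0 := by_contra fun h7 => by
    obtain ⟨x, y, h1, h2, h3⟩ := a7_frob
    obtain ⟨x, rfl⟩ := su x
    obtain ⟨y, rfl⟩ := su y
    simp only [← map_pow, ← map_inv, ← map_mul, ne_eq, one, not_or] at h1 h2 h3
    have k := pm _ _ h3
    have hx := h.le_sp x.2
    push_cast at h1 k
    generalize (x : G4 F) = x at h1 h2 k hx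
    generalize (y : G4 F) = y at k
    have key : ∀ x : G4 F, x ∈ Cfsg.spGL 2 F → x ^ 7 = 1 → x ≠ 1 →
        ¬ (y * x * y⁻¹ = x ^ 2 ∨ y * x * y⁻¹ = -x ^ 2) := by
      rintro x hx h1 h2 (k | k)
      · exact seven_false (by simp) h7 h1 h2 k (charpoly_inv_sp hx)
      · have := congrArg (· ^ 7) k
        simp only [conj_pow, h1, (by decide : Odd 7).neg_pow, mul_one, mul_inv_cancel] at this
        rw [← pow_mul, mul_comm, pow_mul, h1, one_pow] at this
        exact n1 1 this
    rcases h1 with h1 | h1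
    · exact key x hx h1 h2.1 k
    · refine key (-x) (by simpa using mul_mem neg_one_mem_spGL hx)
        (by rw [(by decide : Odd 7).neg_pow, h1, neg_neg]) (fun k => h2.2 (neg_eq_iff_eq_neg.1 k)) ?_
      rw [neg_sq, mul_neg, neg_mul, neg_eq_iff_eq_neg, neg_inj]
      exact k.symm
  have : Fact (Nat.Prime 7) := ⟨by norm_num⟩
  have : CharP F 7 := (CharP.charP_iff_prime_eq_zero Fact.out).2 (by exact_mod_cast h7)
  have le := h.card_le_of_trace (p := 7) (n := 1) one_pos fun g hg => by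
    obtain ⟨g, rfl⟩ : ∃ a : P, (a : G4 F) = g := ⟨⟨g, hg⟩, rfl⟩
    have hs := h.le_sp hg
    rw [← trace_pow_char, pow_one, ← Units.val_pow_eq_pow_val]
    have sq : ∀ {a : G4 F}, a = 1 ∨ a = -1 → a * a = 1 := by rintro _ (rfl | rfl) <;> simp
    rcases cls7 (π g) with k | k | k | ⟨k, t, ht⟩ | ⟨s, k1, k2, k3, k4, k5, k6⟩
    · have := sq ((one _).1 ((map_pow π g 4).trans k))
      rw [← trace_inv_sp hs, inv_eq_of_mul_eq_one_right (a := (g : G4 F)) (b := g ^ 7) (by
        rw [← this]; push_cast; group)]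
    · have := sq ((one _).1 ((map_pow π g 3).trans k))
      rw [show (g : G4 F) ^ 7 = g * 1 by rw [← this]; push_cast; group, mul_one]
    · have k1 := (one _).1 ((map_pow π g 7).trans k)
      have k2 := trace_pow_char 7 ((g : G4 F) : M4 F) 1
      rw [pow_one, ← Units.val_pow_eq_pow_val] at k2
      refine (frobenius F 7).injective ?_
      rw [frobenius_def, frobenius_def, ← k2]
      push_cast at k1
      have k4 : (4 : F) ^ 7 = 4 := by linear_combination 2340 * h7
      rcases k1 with k1 | k1 <;> rw [k1]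
      · rw [Units.val_one, trace_one4, k4]
      · rw [Units.val_neg, Units.val_one, trace_neg, trace_one4, (by decide : Odd 7).neg_pow, k4]
    · obtain ⟨t, rfl⟩ := su t
      have k1 := (one _).1 ((map_pow π g 5).trans k)
      have k2 := pm (t * g * t⁻¹) (g ^ 7) (by simpa using ht)
      push_cast at k1 k2
      rcases k2 with k2 | k2
      · rw [← k2, Units.val_mul, Units.val_mul, trace_conj]
      · have := congrArg (· ^ 5) k2
        simp only [conj_pow, (by decide : Odd 5).neg_pow] at this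
        rw [← pow_mul, mul_comm 7, pow_mul] at this
        rcases k1 with k1 | k1 <;> rw [k1] at this
        · exact absurd (by simpa using this) (n1 1)
        · exact absurd (by simpa [(by decide : Odd 7).neg_pow] using this.symm) (n1 1)
    · obtain ⟨s, rfl⟩ := su s
      have inv : ∀ a : P, π a * π a = 1 → π a ≠ 1 → (a : G4 F) * a = -1 := fun a h1 h2 =>
        ((one _).1 ((map_mul π a a).trans h1)).resolve_left fun k => h2 ((one _).2 (ho.uniq _ a.2 k))
      rw [← map_pow] at k4 k5 k6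
      have s1 := inv s k1 k2
      have s2 := inv _ k4 k5
      have s3 := pm (s * g * s⁻¹) g (by simpa using k3)
      push_cast at s2 s3
      rcases s3 with s3 | s3
      · refine (k6 ((map_mul π _ _).symm.trans ((one _).2 (ho.uniq _ (s * g ^ 3).2 ?_)))).elim
        push_cast
        have c : Commute (s : G4 F) g := mul_inv_eq_iff_eq_mul.1 s3
        rw [((c.pow_right 3).symm).mul_mul_mul_comm, s1, s2]; simp
      · have t := trace_conj (s : G4 F) ((g : G4 F) : M4 F)
        rw [← Units.val_mul, ← Units.val_mul, s3, Units.val_neg, trace_neg, neg_eq_iff_add_eq_zero,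
          ← two_mul, mul_eq_zero, or_iff_right h.two] at t
        rw [show (g : G4 F) ^ 7 = -g by rw [← neg_one_mul, ← s2]; group, Units.val_neg, trace_neg, t,
          neg_zero]
  have := Fintype.ofFinite F
  obtain ⟨n, -, hn⟩ := FiniteField.card F 7
  rw [Nat.card_eq_fintype_card, hn] at le ⊢
  exact le_antisymm le (Nat.le_self_pow n.ne_zero 7)

end Cfsg.Agent.DIM4
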