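import Cfsg.Agent.DIM4.EvBasic
import Cfsg.Agent.DIM4.QuadG
import Cfsg.Agent.H28.SL2Prime
import Cfsg.Agent.H9.Torus2
import Cfsg.Agent.H9.SLBasic

set_option autoImplicit false
set_option linter.unusedSectionVars false

namespace Cfsg.Agent.DIM4

open Matrix H27 H28
open scoped MatrixGroups

variable {F : Type*} [Field F] [Finite F] {G : Type*} [Group G] {ρ : G →* SpM F}

namespace L2

theorem add_self (h2 : (2 : F) = 0) (a : F) : a + a = 0 := by rw [← two_mul, h2, zero_mul]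

theorem eq_of_sq (h2 : (2 : F) = 0) {a b : F} (h : a ^ 2 = b ^ 2) : a = b :=
  sub_eq_zero.1 (pow_eq_zero_iff two_ne_zero |>.1 (by linear_combination h + (b ^ 2 - a * b) * h2))

/-- averaging over an orbit of odd length -/
theorem average (h2 : (2 : F) = 0) {H : Type*} [Group H] [Finite H] (σ : H →* SpM F)
    (S : Subgroup H) (ho : Odd S.index) {Q : (I4 → F) → F} (hQ : IsQ Q)
    (hS : ∀ s ∈ S, ∀ v, Q ((σ s).1 *ᵥ v) = Q v) : ∃ Q', IsQ Q' ∧ (∀ g v, Q' ((σ g).1 *ᵥ v) = Q' v) ∧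
      ∀ p, (∀ g, Q ((σ g).1 *ᵥ p) = 0) → Q' p = 0 := by
  have := Fintype.ofFinite (H ⧸ S)
  let φ : (I4 → F) → H ⧸ S → F := fun v x => Quotient.liftOn' x (fun g => Q ((σ g⁻¹).1 *ᵥ v))
    fun a b e => by
      rw [← hS _ (QuotientGroup.leftRel_apply.1 e) ((σ b⁻¹).1 *ᵥ v), ← sp_mul_mulVec, ← map_mul,
        mul_inv_cancel_right]
  refine ⟨fun v => ∑ x, φ v x, ⟨fun c v => ?_, fun u v => ?_⟩, fun g v => ?_, fun p hp => ?_⟩
  · rw [Finset.mul_sum]
    refine Finset.sum_congr rfl fun x _ => Quotient.inductionOn' x fun g => ?_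
    change Q _ = _ * Q _
    rw [mulVec_smul, hQ.smul]
  · have : ∀ x, φ (u + v) x = φ u x + φ v x + ff u v := fun x => Quotient.inductionOn' x fun g => by
      change Q _ = Q _ + Q _ + _
      rw [mulVec_add, hQ.add, ff, sp_sympForm]
    obtain ⟨k, hk⟩ := ho
    simp only [this, Finset.sum_add_distrib, Finset.sum_const, Finset.card_univ, nsmul_eq_mul]
    rw [← Nat.card_eq_fintype_card, ← Subgroup.index, hk]
    push_cast
    rw [h2, zero_mul, zero_add, one_mul]
  · change ∑ x, φ _ x = ∑ x, φ v x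
    rw [← Equiv.sum_comp (MulAction.toPerm g⁻¹) (φ v)]
    refine Finset.sum_congr rfl fun x _ => Quotient.inductionOn' x fun a => ?_
    change Q _ = Q ((σ (g⁻¹ * a)⁻¹).1 *ᵥ v)
    rw [← sp_mul_mulVec, ← map_mul, _root_.mul_inv_rev, inv_inv]
  · exact Finset.sum_eq_zero fun x _ => Quotient.inductionOn' x fun g => hp _

theorem exists_isQ (h2 : (2 : F) = 0) {p v₀ : I4 → F} (h : ff v₀ p = 1) : ∃ Q, IsQ Q ∧ Q p = 0 := by
  refine ⟨fun v => v (.inl 0) * v (.inr 0) + v (.inl 1) * v (.inr 1) +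
    (p (.inl 0) * p (.inr 0) + p (.inl 1) * p (.inr 1)) * ff v₀ v ^ 2,
    ⟨fun c v => ?_, fun u v => ?_⟩, ?_⟩
  · simp only [sympForm_smul_right, Pi.smul_apply, smul_eq_mul]; ring
  · simp only [sympForm_add_right, Pi.add_apply, sympForm_eq u v, Fin.sum_univ_two]
    linear_combination (u (.inl 0) * v (.inr 0) + u (.inl 1) * v (.inr 1) +
      (p (.inl 0) * p (.inr 0) + p (.inl 1) * p (.inr 1)) * ff v₀ u * ff v₀ v) * h2
  · simp only [h, one_pow, mul_one, add_self h2]

theorem exists_dual {p : I4 → F} (hp : p ≠ 0) : ∃ v, ff v p = 1 := by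
  obtain ⟨v, hv⟩ : ∃ v, ff v p ≠ 0 := by
    by_contra c
    push Not at c
    exact hp (eq_zero_of_sympForm_right c)
  exact ⟨(ff v p)⁻¹ • v, by rw [ff, sympForm_smul_left, inv_mul_cancel₀ hv]⟩

variable {K : Type*} [Field K] [Finite K]

theorem conjX (l a : K) (hl : l ≠ 0) : slV l * slL (-l⁻¹) * slV l * slV a =
    slL (-(l⁻¹ ^ 2 * a)) * (slV l * slL (-l⁻¹) * slV l) := by
  ext i j
  fin_cases i <;> fin_cases j <;> simp [slV_coe, slL_coe, Matrix.mul_apply, Fin.sum_univ_two, hl]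
  field_simp

theorem conjH (l : Kˣ) (a : K) : slV (l * l * a) * H9.diagHom K l = H9.diagHom K l * slV a := by
  ext i j
  fin_cases i <;> fin_cases j <;>
    simp [slV_coe, H9.coe_diagHom, Matrix.mul_apply, Fin.sum_univ_two]
  field_simp

theorem slV_ne {a : K} (h : a ≠ 0) : slV a ≠ 1 := fun e =>
  h (by simpa [slV_coe] using congrArg (fun g : SL(2, K) => g 0 1) e)

theorem slL_ne {a : K} (h : a ≠ 0) : slL a ≠ 1 := fun e =>
  h (by simpa [slL_coe] using congrArg (fun g : SL(2, K) => g 1 0) e)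

variable {σ : SL(2, K) →* SpM F}

/-- `N_a` -/
abbrev NN (σ : SL(2, K) →* SpM F) (a : K) : M4 F := (σ (slV a)).1 - 1

/-- `M_a` -/
abbrev MM (σ : SL(2, K) →* SpM F) (a : K) : M4 F := (σ (slL a)).1 - 1

theorem not_quad (hK : (2 : K) = 0) (nofix : ∀ v, (∀ g, (σ g).1 *ᵥ v = v) → v = 0) (hc : AllC2 σ)
    (hs : Submodule.span F (Set.range fun g => (σ g).1) = ⊤)
    (hq : ∀ a b, NN σ a * NN σ b = 0) : False := by
  set N := NN σ with hN
  set M := MM σ with hM
  have mul : ∀ a b, (σ (a * b)).1 = (σ a).1 * (σ b).1 := fun a b => by rw [map_mul]; rfl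
  have hX : ∀ a, (σ (slV a)).1 = 1 + N a := fun a => by simp [hN]
  have hY : ∀ a, (σ (slL a)).1 = 1 + M a := fun a => by simp [hM]
  have cX : ∀ l a, l ≠ 0 → (σ (slV l * slL (-l⁻¹) * slV l)).1 * N a =
      M (-(l⁻¹ ^ 2 * a)) * (σ (slV l * slL (-l⁻¹) * slV l)).1 := fun l a hl => by
    rw [hN, hM, Matrix.mul_sub, Matrix.sub_mul, ← mul, conjX l a hl, mul,
      Matrix.mul_one, Matrix.one_mul]
  have MM : ∀ a b, M a * M b = 0 := fun a b => by
    have e := cX 1 (-a) one_ne_zero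
    have e' := cX 1 (-b) one_ne_zero
    simp only [inv_one, one_pow, one_mul, neg_neg] at e e'
    have h1 : M a * M b * (σ (slV 1 * slL (-1) * slV 1)).1 = 0 := by
      rw [Matrix.mul_assoc, ← e', ← Matrix.mul_assoc, ← e, Matrix.mul_assoc, hq, Matrix.mul_zero]
    have := congrArg (· * (σ (slV 1 * slL (-1) * slV 1)⁻¹).1) h1
    simpa only [Matrix.mul_assoc, ← mul, mul_inv_cancel, map_one, Matrix.zero_mul,
      OneMemClass.coe_one, Matrix.mul_one] using this
  have add : ∀ (X : K → SL(2, K)) (N : K → M4 F), (∀ a, (σ (X a)).1 = 1 + N a) →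
      (∀ a b, X (a + b) = X a * X b) → (∀ a b, N a * N b = 0) → ∀ a b, N (a + b) = N a + N b := by
    intro X N h1 h2 h3 a b
    have := congrArg (fun g => (σ g).1) (h2 a b)
    simp only [mul, h1, Matrix.add_mul, Matrix.mul_add, h3, Matrix.one_mul, Matrix.mul_one,
      add_zero] at this
    rw [← add_right_inj (1 : M4 F), this]; abel
  have Nadd := add slV N hX slV_add hq
  have Madd := add slL M hY slL_add MM
  have Mneg : ∀ a, M (-a) = -M a := fun a => by
    have h0 : M 0 = 0 := by simpa using Madd 0 0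
    exact eq_neg_of_add_eq_zero_left (by rw [← Madd, neg_add_cancel, h0])
  have fix : ∀ D : M4 F, (∀ a, N a * D = 0) → (∀ a, M a * D = 0) → D = 0 := fun D h1 h2 => by
    let S : Subgroup SL(2, K) :=
      { carrier := {g | (σ g).1 * D = D}
        one_mem' := by simp
        mul_mem' := fun {a b} ha hb => by
          change _ = _
          rw [mul, Matrix.mul_assoc, hb, ha]
        inv_mem' := fun {a} ha => by
          change _ = _
          conv_lhs => rw [← ha, ← Matrix.mul_assoc, ← mul]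
          simp }
    have : S = ⊤ := sl_eq_top_of (fun c => by
      change _ = _
      rw [hX, Matrix.add_mul, h1]; simp) fun c => by
      change _ = _
      rw [hY, Matrix.add_mul, h2]; simp
    refine Matrix.ext_of_mulVec_single fun i => (nofix _ fun g => ?_).trans (zero_mulVec _).symm
    rw [mulVec_mulVec, show (σ g).1 * D = D from this.ge (Subgroup.mem_top g)]
  have cofix : ∀ E : M4 F, (∀ a, E * N a = 0) → (∀ a, E * M a = 0) → E = 0 := fun E h1 h2 => by
    let S : Subgroup SL(2, K) :=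
      { carrier := {g | E * (σ g).1 = E}
        one_mem' := by simp
        mul_mem' := fun {a b} ha hb => by
          change _ = _
          rw [mul, ← Matrix.mul_assoc, ha, hb]
        inv_mem' := fun {a} ha => by
          change _ = _
          conv_lhs => rw [← ha, Matrix.mul_assoc, ← mul]
          simp }
    have : S = ⊤ := sl_eq_top_of (fun c => by
      change _ = _
      rw [hX, Matrix.mul_add, h1]; simp) fun c => by
      change _ = _
      rw [hY, Matrix.mul_add, h2]; simp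
    ext i j
    obtain ⟨y, hy⟩ := exists_sympForm_rep ((LinearMap.proj i).comp (mulVecLin E))
    have h3 : y = 0 := nofix y fun g => sub_eq_zero.1 (eq_zero_of_sympForm_left fun v => by
      rw [sympForm_sub_left, ← sp_mulVec_inv_mulVec (σ g) v, sp_sympForm, hy, hy, sub_eq_zero]
      simp only [LinearMap.comp_apply, mulVecLin_apply, mulVec_mulVec, ← Matrix.mul_assoc]
      rw [show E * (σ g).1 = E from this.ge (Subgroup.mem_top g)])
    have := hy (Pi.single j 1)
    rw [h3, sympForm_zero_left] at this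
    simpa using this.symm
  have kill : ∀ {E A B : M4 F} {t : SL(2, K)}, t * t = 1 → t ≠ 1 → (σ t).1 - 1 = A → E * A = 0 →
      A * B = 0 → E * B = 0 := fun {E A B t} t2 t1 e h1 h2 => by
    obtain ⟨p, hp⟩ := hc t t2 t1
    refine Matrix.ext_of_mulVec_single fun i => ?_
    obtain ⟨x, hx⟩ := hp.ker (B *ᵥ Pi.single i 1) (by rw [e, mulVec_mulVec, h2, zero_mulVec])
    rw [← mulVec_mulVec, hx, e, mulVec_mulVec, h1, zero_mulVec, zero_mulVec]
  have key : ∀ l, l ≠ 0 → N l * M l⁻¹ + M l⁻¹ * N l = 1 ∧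
      (σ (slV l * slL (-l⁻¹) * slV l)).1 = N l - M l⁻¹ := by
    intro l hl
    have hw : (σ (slV l * slL (-l⁻¹) * slV l)).1 = (1 + N l) * (1 - M l⁻¹) * (1 + N l) := by
      rw [mul, mul, hX, hY, Mneg, ← sub_eq_add_neg]
    have hb := conjX l l hl
    rw [show l⁻¹ ^ 2 * l = l⁻¹ by field_simp, ← mul_assoc, ← mul_assoc, mul_left_inj] at hb
    have hb' := congrArg (fun g => (σ g).1) hb
    rw [hw, mul, mul, hX, hY, Mneg, ← sub_eq_add_neg] at hb'
    have n := hq l l
    have m := MM l⁻¹ l⁻¹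
    have hD := braid_quad n m hb'
    have D0 : N l - N l * M l⁻¹ * N l = 0 := fix _
      (fun a => by simp [Matrix.mul_sub, ← Matrix.mul_assoc, hq])
      (fun a => by rw [hD]; simp [Matrix.mul_sub, ← Matrix.mul_assoc, MM])
    have a3 : N l * (M l⁻¹ * N l) = N l := by
      rw [← Matrix.mul_assoc]; exact (sub_eq_zero.1 D0).symm
    have b3 : M l⁻¹ * (N l * M l⁻¹) = M l⁻¹ := by
      rw [← Matrix.mul_assoc]; exact sub_eq_zero.1 (hD ▸ D0)
    have hπ : N l * M l⁻¹ + M l⁻¹ * N l = 1 := sub_eq_zero.1 (cofix _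
      (fun a => kill (A := N l) (by rw [← slV_add, add_self hK, slV_zero]) (slV_ne hl) rfl
        (by simp [Matrix.sub_mul, Matrix.add_mul, Matrix.mul_assoc, a3, n]) (hq l a))
      fun a => kill (A := M l⁻¹) (by rw [← slL_add, add_self hK, slL_zero]) (slL_ne (inv_ne_zero hl)) rfl
        (by simp [Matrix.sub_mul, Matrix.add_mul, Matrix.mul_assoc, b3, m]) (MM l⁻¹ a))
    refine ⟨hπ, ?_⟩
    rw [hw, ← zero_add (N l - _), ← sub_self (1 : M4 F)]
    nth_rw 5 [← hπ]
    simp only [Matrix.mul_add, Matrix.add_mul, Matrix.mul_sub, Matrix.sub_mul, Matrix.mul_one,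
      Matrix.one_mul, Matrix.mul_assoc, n, a3]
    abel
  let φ : SL(2, K) →* G4 F := ((SpM F).subtype.comp σ).toHomUnits
  have h1 := quad_span (P := φ.range) (fun A hA => ?_) (fun a => φ (slV a)) (fun a => φ (slL a))
    N M hX hY ?_ Nadd Madd hq MM (fun l hl => (key l hl).1) fun l a hl => by
      rw [← (key l hl).2, cX l a hl, Mneg, Matrix.neg_mul]
  · have e : Submodule.span F (Set.range ![1, N 1, M 1, N 1 * M 1]) = ⊤ := by
      refine top_le_iff.1 (hs.ge.trans (Submodule.span_le.2 ?_))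
      rintro _ ⟨g, rfl⟩
      refine Submodule.span_mono ?_ (h1 _ ⟨g, rfl⟩)
      rintro _ (rfl | rfl | rfl | rfl)
      exacts [⟨0, rfl⟩, ⟨1, rfl⟩, ⟨2, rfl⟩, ⟨3, rfl⟩]
    have := finrank_range_le_card (R := F) ![1, N 1, M 1, N 1 * M 1]
    rw [Set.finrank, e, finrank_top, Module.finrank_matrix] at this
    simp at this
  · have h2 : ∀ B : M4 F, Commute B A := fun B =>
      Submodule.span_induction (p := fun B _ => Commute B A)
        (by rintro _ ⟨g, rfl⟩; exact (hA _ ⟨_, ⟨g, rfl⟩, rfl⟩).symm) (Commute.zero_left _)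
        (fun _ _ _ _ => Commute.add_left) (fun c _ _ h => h.smul_left c)
        (hs.ge Submodule.mem_top)
    obtain ⟨c, hc⟩ := mem_range_scalar_iff_commute_single'.2 fun i j => h2 (single i j 1)
    exact ⟨c, by rw [← hc, scalar_apply, smul_one_eq_diagonal]⟩
  · rw [MonoidHom.range_eq_map, ← sl_eq_top_of (H := Subgroup.closure (Set.range slV ∪ Set.range slL))
      (fun c => Subgroup.subset_closure (Or.inl ⟨c, rfl⟩))
      (fun c => Subgroup.subset_closure (Or.inr ⟨c, rfl⟩)), MonoidHom.map_closure, Set.image_union,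
      ← Set.range_comp, ← Set.range_comp]
    rfl

theorem exists_syl (h2 : (2 : F) = 0) (hK : (2 : K) = 0) (hc : AllC2 σ)
    (hq : ¬ ∀ a b, NN σ a * NN σ b = 0) : ∃ Q, IsQ Q ∧ ∀ a v, Q ((σ (slV a)).1 *ᵥ v) = Q v := by
  set N := NN σ with hN
  have N0 : N 0 = 0 := by simp [hN, NN, slV_zero]
  have hX : ∀ a v, (σ (slV a)).1 *ᵥ v = v + N a *ᵥ v := fun a v => by simp [hN, sub_mulVec]
  have cm : ∀ a b, σ (slV b) * σ (slV a) = σ (slV a) * σ (slV b) := fun a b => by
    rw [← map_mul, ← map_mul, ← slV_add, ← slV_add, add_comm]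
  choose! P hP using fun (a : K) (ha : a ≠ 0) =>
    hc _ (by rw [← slV_add, add_self hK, slV_zero]) (slV_ne ha)
  have fl := fun a b (ha : a ≠ 0) => (hP a ha).flag h2 (cm a b)
  have kp : ∀ a b, a ≠ 0 → N b *ᵥ P a = 0 := fun a b ha => by
    rw [hN, sub_mulVec, (fl a b ha).1, one_mulVec, sub_self]
  have par : ∀ a, a ≠ 0 → ∃ c : F, P a = c • P 1 := fun a ha => by
    by_contra c
    push Not at c
    refine hq fun b d => Matrix.ext_of_mulVec_single fun i => ?_
    obtain ⟨x, hx⟩ := (hP 1 one_ne_zero).ker _ (kp a 1 ha)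
    obtain ⟨s, t, e⟩ := mem_line_of_perp (x := N d *ᵥ Pi.single i 1) (hP 1 one_ne_zero).ne c
      (by rw [hx, ff_comm h2]; exact (fl 1 1 one_ne_zero).2.1 x)
      (by rw [ff_comm h2]; exact (fl 1 d one_ne_zero).2.1 _)
      (by rw [ff_comm h2]; exact (fl a d ha).2.1 _)
    rw [← mulVec_mulVec, e, mulVec_add, mulVec_smul, mulVec_smul, kp 1 b one_ne_zero, kp a b ha,
      zero_mulVec, smul_zero, smul_zero, add_zero]
  set p := P 1 with hp
  obtain ⟨v₀, h0⟩ := exists_dual (hP 1 one_ne_zero).ne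
  have dec : ∀ v, ff (v - ff v p • v₀) p = 0 := fun v => by
    rw [ff, sympForm_sub_left, sympForm_smul_left, show Cfsg.sympForm 2 F v₀ p = 1 from h0, mul_one,
      sub_self]
  have pa : ∀ a v, a ≠ 0 → ff v p = 0 → ff v (P a) = 0 := fun a v ha hv => by
    obtain ⟨c, e⟩ := par a ha
    rw [e, ff, sympForm_smul_right, show Cfsg.sympForm 2 F v p = 0 from hv, mul_zero]
  have perp : ∀ a v, ff v p = 0 → ∃ k : F, N a *ᵥ v = k • p := fun a v hv => by
    by_cases ha : a = 0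
    · exact ⟨0, by simp [ha, N0]⟩
    obtain ⟨k, hk⟩ := (hP a ha).perp v (pa a v ha hv)
    obtain ⟨c, e⟩ := par a ha
    exact ⟨k * c, by rw [hN, hk, e, smul_smul]⟩
  have np : ∀ a v, ff (N a *ᵥ v) p = 0 := fun a => (fl 1 a one_ne_zero).2.1
  have form : ∀ a v, ff v (N a *ᵥ v) = ff v₀ (N a *ᵥ v₀) * ff v p ^ 2 := fun a v => by
    by_cases ha : a = 0
    · simp [ha, N0, sympForm_zero_right]
    obtain ⟨c, e⟩ := par a ha
    rw [hN, (hP a ha).form, (hP a ha).form, e, ff, ff, sympForm_smul_right, sympForm_smul_right,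
      show Cfsg.sympForm 2 F v₀ p = 1 from h0]
    ring
  have cH : ∀ (l : Kˣ) a v, (σ (slV (l * l * a))).1 *ᵥ ((σ (H9.diagHom K l)).1 *ᵥ v) =
      (σ (H9.diagHom K l)).1 *ᵥ ((σ (slV a)).1 *ᵥ v) := fun l a v => by
    rw [← sp_mul_mulVec, ← sp_mul_mulVec, ← map_mul, ← map_mul, conjH]
  have cN : ∀ (l : Kˣ) a v, N (l * l * a) *ᵥ ((σ (H9.diagHom K l)).1 *ᵥ v) =
      (σ (H9.diagHom K l)).1 *ᵥ (N a *ᵥ v) := fun l a v => by
    have := cH l a v
    rwa [hX, hX, mulVec_add, add_right_inj] at this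
  have hp' : ∀ l : Kˣ, ∃ c : F, (σ (H9.diagHom K l)).1 *ᵥ p = c • p := fun l => by
    have hl : (l : K) * l * 1 ≠ 0 := by simp
    obtain ⟨c, e⟩ := par _ hl
    refine ⟨c, e ▸ sub_eq_zero.1 (eq_zero_of_sympForm_right fun v => ?_)⟩
    rw [sympForm_sub_right, sub_eq_zero, ← sp_mulVec_inv_mulVec (σ (H9.diagHom K l)) v, sp_sympForm]
    refine eq_of_sq h2 ?_
    rw [← (hP 1 one_ne_zero).form, ← (hP _ hl).form]
    change ff _ (N _ *ᵥ _) = ff _ (N _ *ᵥ _)
    rw [cN, ff, ff, sp_sympForm]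
  obtain ⟨Q₀, q1, q2⟩ := exists_isQ h2 h0
  have := Fintype.ofFinite K
  have hev : Even (Nat.card K) := by
    have : CharP K 2 := (CharP.charP_iff_prime_eq_zero Nat.prime_two).2 (by exact_mod_cast hK)
    rw [Nat.card_eq_fintype_card, Nat.even_iff]
    exact FiniteField.even_card_of_char_two (ringChar.eq K 2)
  obtain ⟨Q, hQ, hT, h3⟩ := average h2 (σ.comp (H9.diagHom K)) ⊥ (by
    rw [Subgroup.index_bot, Nat.card_units]
    exact Nat.Even.sub_odd Nat.card_pos hev odd_one) q1 (by simp)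
  have Qp : Q p = 0 := h3 p fun l => by
    obtain ⟨c, e⟩ := hp' l
    rw [MonoidHom.comp_apply, e, q1.smul, q2, mul_zero]
  let δ : K → (I4 → F) → F := fun a v => Q ((σ (slV a)).1 *ᵥ v) - Q v
  have δ1 : ∀ a v, δ a v = δ a v₀ * ff v p ^ 2 := fun a v => by
    obtain ⟨k, hk⟩ := perp a _ (dec v)
    have h4 := form a (v - ff v p • v₀)
    rw [dec, zero_pow two_ne_zero, mul_zero] at h4
    have h5 : δ a (v - ff v p • v₀) = 0 := by
      simp only [δ]
      rw [hX, hQ.add, h4, hk, hQ.smul, Qp]; ring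
    have h6 : v = (v - ff v p • v₀) + ff v p • v₀ := by simp
    simp only [δ] at h5 ⊢
    generalize v - ff v p • v₀ = u at h5 h6
    generalize ff v p = c at h6
    rw [h6, mulVec_add, mulVec_smul, hQ.add, hQ.add, hQ.smul, hQ.smul, ← mulVec_smul, ff,
      sp_sympForm]
    linear_combination h5
  have δadd : ∀ a b, δ (a + b) v₀ = δ a v₀ + δ b v₀ := fun a b => by
    have h4 := δ1 a ((σ (slV b)).1 *ᵥ v₀)
    rw [hX b, ff, sympForm_add_left, show Cfsg.sympForm 2 F v₀ p = 1 from h0,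
      show Cfsg.sympForm 2 F (N b *ᵥ v₀) p = 0 from np b v₀, add_zero, one_pow, mul_one, ← hX] at h4
    simp only [δ] at h4 ⊢
    rw [slV_add, map_mul, sp_mul_mulVec]
    linear_combination h4
  have δγ : ∀ a, δ a v₀ = δ 1 v₀ * ff v₀ (N a *ᵥ v₀) := fun a => by
    by_cases ha : a = 0
    · simp [δ, ha, N0, slV_zero, sympForm_zero_right]
    have : CharP K 2 := (CharP.charP_iff_prime_eq_zero Nat.prime_two).2 (by exact_mod_cast hK)
    obtain ⟨l, hl⟩ := isSquare_of_charTwo' a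
    have l0 : l ≠ 0 := by rintro rfl; exact ha (by simpa using hl)
    have h4 := δ1 a ((σ (H9.diagHom K (Units.mk0 l l0))).1 *ᵥ v₀)
    have h5 := form a ((σ (H9.diagHom K (Units.mk0 l l0))).1 *ᵥ v₀)
    have h6 : a = Units.mk0 l l0 * Units.mk0 l l0 * 1 := by simpa using hl
    have h7 : δ a ((σ (H9.diagHom K (Units.mk0 l l0))).1 *ᵥ v₀) = δ 1 v₀ := by
      simp only [δ]
      rw [h6, cH]
      exact congrArg₂ _ (hT _ _) (hT _ _)
    rw [h6, cN, ff, sp_sympForm, ← h6, show Cfsg.sympForm 2 F v₀ (N 1 *ᵥ v₀) = 1 by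
      rw [hN]; exact ((hP 1 one_ne_zero).form v₀).trans (by rw [h0, one_pow])] at h5
    rw [h7] at h4
    rw [h4]
    linear_combination (δ a v₀) * h5
  refine ⟨Q, hQ, fun a v => sub_eq_zero.1 ((δ1 a v).trans ?_)⟩
  rw [δγ]
  refine mul_eq_zero_of_left (mul_eq_zero_of_left (by_contra fun c => hq fun a b => ?_) _) _
  by_cases ha : a = 0
  · rw [ha, N0, Matrix.zero_mul]
  have h4 := δadd a b
  rw [δγ (a + b), δγ a, δγ b, ← mul_add, mul_right_inj' c] at h4
  have h5 : N (a + b) *ᵥ v₀ = N a *ᵥ v₀ + N b *ᵥ v₀ + N a *ᵥ (N b *ᵥ v₀) := by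
    have := hX (a + b) v₀
    rw [slV_add, map_mul, sp_mul_mulVec, hX b, hX a, mulVec_add, add_assoc, add_right_inj] at this
    rw [← this]; abel
  obtain ⟨k, hk⟩ := perp a _ (np b v₀)
  rw [h5, ff, sympForm_add_right, sympForm_add_right, hk, sympForm_smul_right,
    show Cfsg.sympForm 2 F v₀ p = 1 from h0, mul_one, add_eq_left] at h4
  refine Matrix.ext_of_mulVec_single fun i => ?_
  have h6 : N a *ᵥ (N b *ᵥ _) = 0 := (fl a b ha).2.2.1 _ (pa a _ ha (dec (Pi.single i 1)))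
  rw [mulVec_sub, mulVec_sub, mulVec_smul, mulVec_smul, hk, h4, zero_smul, smul_zero,
    sub_zero] at h6
  rw [← mulVec_mulVec, h6, zero_mulVec]

end L2

open L2

theorem Ev.exists_quad (h : Ev ρ) (hc : AllC2 ρ)
    (hs : Submodule.span F (Set.range fun g => (ρ g).1) = ⊤) {K : Type*} [Field K] [Finite K]
    (hK : (2 : K) = 0) (e : G ≃* Matrix.SpecialLinearGroup (Fin 2) K) :
    ∃ Q, IsQ Q ∧ ∀ g v, Q ((ρ g).1 *ᵥ v) = Q v := by
  let σ := ρ.comp e.symm.toMonoidHom
  have h1 : ∀ g, σ (e g) = ρ g := fun g => by simp [σ]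
  have hc' : AllC2 σ := fun t t2 t1 =>
    hc (e.symm t) (by rw [← map_mul, t2, map_one]) (by simpa using t1)
  obtain ⟨Q, hQ, h2⟩ := exists_syl h.two hK hc' (not_quad hK
    (fun v hv => h.nofix v fun g => h1 g ▸ hv _) hc' (top_le_iff.1 (hs.ge.trans
      (Submodule.span_mono (by rintro _ ⟨g, rfl⟩; exact ⟨e g, congrArg Subtype.val (h1 g)⟩)))))
  let X : Multiplicative K →* SL(2, K) := MonoidHom.mk' (fun a => slV a.toAdd) fun a b => slV_add _ _
  have := Fintype.ofFinite K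
  have h3 := X.range.card_mul_index
  rw [← Nat.card_congr (MonoidHom.ofInjective (f := X) ((injective_iff_map_eq_one X).2 fun a ha =>
    by_contra fun c => slV_ne (a := a.toAdd) c ha)).toEquiv, H9.card_sl_two, Nat.card_eq_fintype_card,
    Fintype.card_multiplicative, Nat.mul_right_inj Fintype.card_ne_zero] at h3
  have : CharP K 2 := (CharP.charP_iff_prime_eq_zero Nat.prime_two).2 (by exact_mod_cast hK)
  obtain ⟨Q', q1, q2, -⟩ := average h.two σ X.range (h3 ▸ Nat.Even.sub_odd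
    (Nat.one_le_pow _ _ Fintype.card_pos) ((Nat.even_iff.2 (FiniteField.even_card_of_char_two
      (ringChar.eq K 2))).pow_of_ne_zero two_ne_zero) odd_one) hQ
    (by rintro _ ⟨a, rfl⟩; exact h2 _)
  exact ⟨Q', q1, fun g v => h1 g ▸ q2 _ v⟩

end Cfsg.Agent.DIM4
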