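import Cfsg.Agent.DIM4.Defs2
import Cfsg.Agent.H10.P3D2

/-! Two opposite square-zero elements: the root subgroups are defined over a subfield. -/

set_option autoImplicit false

namespace Cfsg.Agent.DIM4

open Matrix
open scoped MatrixGroups
open Cfsg.Agent.H28 Cfsg.Agent.H10.P3

variable {F : Type*} [Field F] [Finite F]

/-- The image of a `2 × 2` matrix in the algebra generated by `e`, `e'`. -/
def phi2 {A : Type*} [Ring A] [Algebra F A] (e e' : A) (κ : F) (g : Matrix (Fin 2) (Fin 2) F) : A :=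
  1 + ((g 0 0 - 1) * κ⁻¹) • (e * e') + g 0 1 • e + (g 1 0 * κ⁻¹) • e' +
    ((g 1 1 - 1) * κ⁻¹) • (e' * e)

omit [Finite F] in
theorem phi2_mul {A : Type*} [Ring A] [Algebra F A] {e e' : A} {κ : F}
    (he : e * e = 0) (he' : e' * e' = 0) (h1 : e * e' * e = κ • e) (h2 : e' * e * e' = κ • e')
    (hκ : κ ≠ 0) (g h : Matrix (Fin 2) (Fin 2) F) :
    phi2 e e' κ (g * h) = phi2 e e' κ g * phi2 e e' κ h := by
  have a1 : ∀ x : A, e * (e * x) = 0 := fun x => by rw [← mul_assoc, he, zero_mul]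
  have a2 : ∀ x : A, e' * (e' * x) = 0 := fun x => by rw [← mul_assoc, he', zero_mul]
  have a3 : ∀ x : A, e * (e' * (e * x)) = κ • (e * x) := fun x => by
    rw [← mul_assoc, ← mul_assoc, h1, smul_mul_assoc]
  have a4 : ∀ x : A, e' * (e * (e' * x)) = κ • (e' * x) := fun x => by
    rw [← mul_assoc, ← mul_assoc, h2, smul_mul_assoc]
  have a5 : e * (e' * e) = κ • e := by rw [← mul_assoc, h1]
  have a6 : e' * (e * e') = κ • e' := by rw [← mul_assoc, h2]
  simp only [phi2, mul_add, add_mul, mul_one, one_mul, smul_mul_assoc, mul_smul_comm, mul_assoc,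
    a1, a2, a3, a4, a5, a6, he, he', mul_zero, smul_zero, add_zero, smul_smul, Matrix.mul_apply,
    Fin.sum_univ_two]
  match_scalars <;> field_simp <;> ring

theorem sl2K_alg {A : Type*} [Ring A] [Algebra F A] (S : Submonoid A) {e e' : A} {κ μ : F}
    (he : e * e = 0) (he' : e' * e' = 0) (h1 : e * e' * e = κ • e) (h2 : e' * e * e' = κ • e')
    (hκ : κ ≠ 0) (m1 : 1 + e ∈ S) (m2 : 1 + e' ∈ S) (m3 : 1 + μ • e ∈ S) (μ0 : μ ≠ 0)
    (μ1 : μ ≠ 1) (μ2 : μ ≠ -1) :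
    ∃ K : Subfield F, μ ∈ K ∧ κ ∈ K ∧ (∀ a, 1 + a • e ∈ S ↔ a ∈ K) ∧
      (∀ a, 1 + a • e' ∈ S ↔ a ∈ K) ∧ ∀ l ∈ K, l ≠ 0 →
        1 + ((l - 1) * κ⁻¹) • (e * e') + ((l⁻¹ - 1) * κ⁻¹) • (e' * e) ∈ S := by
  let Φ : SL(2, F) →* A :=
    { toFun := fun g => phi2 e e' κ g
      map_one' := by simp [phi2]
      map_mul' := fun g h => phi2_mul he he' h1 h2 hκ _ _ }
  let H : Subgroup SL(2, F) :=
    { S.comap Φ with
      inv_mem' := fun {g} hg => by
        have hg' : g ∈ S.comap Φ := hg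
        have := (S.comap Φ).pow_mem hg' (orderOf g - 1)
        rwa [show g ^ (orderOf g - 1) = g⁻¹ from eq_inv_of_mul_eq_one_left (by
          rw [← pow_succ, Nat.sub_add_cancel (orderOf_pos g), pow_orderOf_eq_one])] at this }
  have hH : ∀ g, g ∈ H ↔ phi2 e e' κ (g : SL(2, F)) ∈ S := fun _ => Iff.rfl
  have hV : ∀ a, slV a ∈ H ↔ 1 + a • e ∈ S := fun a => by simp [hH, phi2, slV_coe]
  have hL : ∀ a, slL (a * κ) ∈ H ↔ 1 + a • e' ∈ S := fun a => by
    simp [hH, phi2, slL_coe, mul_assoc, hκ]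
  have v1 : slV (1 : F) ∈ H := (hV 1).2 (by rwa [one_smul])
  have l1 : slL κ ∈ H := by simpa using (hL 1).2 (by rwa [one_smul])
  have vμ := (hV μ).2 m3
  rcases d2 H one_ne_zero hκ v1 l1 with ⟨K, -, k1, k2⟩ | ⟨-, -, k, -⟩ | ⟨-, k, -⟩
  · have hk : κ ∈ K := by simpa using (k1 1).1 v1
    have kV : ∀ a, slV a ∈ H ↔ a ∈ K := fun a => (k1 a).trans
      ⟨fun h => by simpa [hκ] using K.div_mem h hk, fun h => K.mul_mem h hk⟩
    have kL : ∀ a, slL a ∈ H ↔ a ∈ K := fun a => by rw [k2, one_mul]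
    refine ⟨K, (kV μ).1 vμ, hk, fun a => (hV a).symm.trans (kV a), fun a => ?_, fun l hl l0 => ?_⟩
    · rw [← hL, kL]
      exact ⟨fun h => by simpa [hκ] using K.div_mem h hk, fun h => K.mul_mem h hk⟩
    · have m := H.mul_mem (H.mul_mem (H.mul_mem ((kV l).2 hl)
        ((kL _).2 (K.neg_mem (K.inv_mem hl)))) ((kV l).2 hl)) (H.mul_mem (H.mul_mem
        ((kV _).2 (K.neg_mem K.one_mem)) ((kL _).2 K.one_mem)) ((kV _).2 (K.neg_mem K.one_mem)))
      rw [hH] at m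
      simpa [phi2, slV_coe, slL_coe, Matrix.mul_apply, Fin.sum_univ_two, l0] using m
  · rcases k μ vμ with h | h | h <;> contradiction
  · rcases k μ vμ with h | h <;> contradiction

end Cfsg.Agent.DIM4
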