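import Cfsg.Agent.DIM4.EvBasic
import Cfsg.Agent.DIM4.SL2K
import Cfsg.Agent.H27.SpGen

/-! Groups generated by transvections of the symplectic 4-space in characteristic two: the case of
proportional centres (see `notes/DIM4.md`). -/

set_option autoImplicit false

namespace Cfsg.Agent.DIM4

open Matrix H27

variable {F : Type*} [Field F] [Finite F] {G : Type*} [Group G] {ρ : G →* SpM F}

namespace EvTA

omit [Finite F] in
theorem mul_act (ρ : G →* SpM F) (g k : G) (v : I4 → F) :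
    (ρ (g * k)).1 *ᵥ v = (ρ g).1 *ᵥ ((ρ k).1 *ᵥ v) := by rw [map_mul, sp_mul_mulVec]

omit [Finite F] in
theorem inv_act (ρ : G →* SpM F) (g : G) (v : I4 → F) : (ρ g⁻¹).1 *ᵥ ((ρ g).1 *ᵥ v) = v := by
  rw [map_inv, sp_inv_mulVec_mulVec]

omit [Finite F] in
theorem act_inv (ρ : G →* SpM F) (g : G) (v : I4 → F) : (ρ g).1 *ᵥ ((ρ g⁻¹).1 *ᵥ v) = v := by
  rw [map_inv, sp_mulVec_inv_mulVec]

omit [Finite F] in
theorem conj_T {g0 : G} {w : I4 → F} {c : F} (h : ρ g0 = spT w c) (g : G) :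
    ρ (g * g0 * g⁻¹) = spT ((ρ g).1 *ᵥ w) c := by
  rw [map_mul, map_mul, map_inv, h, conj_spT]

omit [Finite F] in
theorem T_range {w : I4 → F} {c : F} (h : spT w c ∈ ρ.range) (g : G) :
    spT ((ρ g).1 *ᵥ w) c ∈ ρ.range := by
  obtain ⟨g0, h⟩ := h
  exact ⟨_, conj_T h g⟩

omit [Finite F] in
/-- a subgroup containing the conjugates of a transvection is everything -/
theorem eq_top_of (h : Ev ρ) {g0 : G} {w : I4 → F} (hw : w ≠ 0) (h0 : ρ g0 = spT w 1)
    {N : Subgroup G} (hN : ∀ g, g * g0 * g⁻¹ ∈ N) : N = ⊤ := by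
  have := h.simple
  have h1 : g0 ∈ N.normalCore := hN
  rcases N.normalCore_normal.eq_bot_or_eq_top with c | c
  · rw [c, Subgroup.mem_bot] at h1
    refine absurd (eq_zero_of_sympForm_right fun v => ?_) hw
    have h2 := spT_mulVec w 1 v
    rw [← h0, h1, map_one, sp_one_mulVec, left_eq_add, one_mul, smul_eq_zero] at h2
    exact h2.resolve_right hw
  · exact top_le_iff.1 (c ▸ N.normalCore_le)

omit [Finite F] in
theorem perp_orb (h : Ev ρ) {w : I4 → F} (hw : w ∈ DT ρ) {v : I4 → F}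
    (hv : ∀ g, ff v ((ρ g).1 *ᵥ w) = 0) : v = 0 := by
  obtain ⟨w0, g0, h0⟩ := hw
  let N : Subgroup G :=
    { carrier := {g | (ρ g).1 *ᵥ v = v}
      one_mem' := by simp
      mul_mem' := fun {a b} ha hb => by
        change (ρ (a * b)).1 *ᵥ v = v
        rw [mul_act, show (ρ b).1 *ᵥ v = v from hb]; exact ha
      inv_mem' := fun {a} ha => by
        change (ρ a⁻¹).1 *ᵥ v = v
        conv_lhs => rw [← show (ρ a).1 *ᵥ v = v from ha, inv_act] }
  have hN : N = ⊤ := eq_top_of h w0 h0 fun g => by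
    change (ρ (g * g0 * g⁻¹)).1 *ᵥ v = v
    rw [conj_T h0, spT_fix _ (hv g)]
  exact h.nofix v fun g => hN.ge (Subgroup.mem_top g)

omit [Finite F] in
theorem eq_top_of_perp {X : Submodule F (I4 → F)} (h : ∀ v, (∀ x ∈ X, ff v x = 0) → v = 0) :
    X = ⊤ := by
  by_contra c
  obtain ⟨l, h0, hl⟩ := X.exists_le_ker_of_lt_top (lt_top_iff_ne_top.2 c)
  obtain ⟨a, ha⟩ := exists_sympForm_rep l
  refine h0 (LinearMap.ext fun x => ?_)
  rw [← ha, h a fun x hx => (ha x).trans (hl hx), sympForm_zero_left, LinearMap.zero_apply]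

end EvTA

open EvTA

set_option linter.unusedSectionVars false in
theorem DT.smul_mem {w : I4 → F} (hw : w ∈ DT ρ) (g : G) : (ρ g).1 *ᵥ w ∈ DT ρ := by
  obtain ⟨w0, g0, h0⟩ := hw
  exact ⟨fun c => w0 (by rw [← inv_act ρ g w, c, mulVec_zero]), _, conj_T h0 g⟩

set_option linter.unusedSectionVars false in
theorem Ev.irr (h : Ev ρ) (hD : (DT ρ).Nonempty) {X : Submodule F (I4 → F)}
    (hX : ∀ g, ∀ v ∈ X, (ρ g).1 *ᵥ v ∈ X) : X = ⊥ ∨ X = ⊤ := by
  obtain ⟨w, hw⟩ := hD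
  by_cases c : w ∈ X
  · exact Or.inr (eq_top_of_perp fun v hv => perp_orb h hw fun g => hv _ (hX g w c))
  refine Or.inl (eq_bot_iff.2 fun v hv => perp_orb h hw fun g => by_contra fun c' => c ?_)
  obtain ⟨-, g0, h0⟩ := hw
  have h1 := hX (g * g0 * g⁻¹) v hv
  rw [conj_T h0, spT_mulVec, one_mul, X.add_mem_iff_right hv, X.smul_mem_iff c'] at h1
  exact inv_act ρ g w ▸ hX g⁻¹ _ h1

set_option linter.unusedSectionVars false in
theorem ratK_of_span {D : Set (I4 → F)} (hs : Submodule.span F D = ⊤)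
    (hi : ∀ g, ∀ w ∈ D, (ρ g).1 *ᵥ w ∈ D) {K : Subfield F} (hK : ∀ u ∈ D, ∀ w ∈ D, ff u w ∈ K) :
    RatK ρ K := by
  obtain ⟨b, hb, h1, h2⟩ := exists_linearIndependent F D
  let B0 : Module.Basis b F (I4 → F) := Module.Basis.mk h2 (by rw [Subtype.range_coe, h1, hs])
  let B := B0.reindex (B0.indexEquiv (Pi.basisFun F I4))
  have hB : ∀ i, B i ∈ D := fun i => hb (by simp [B, B0])
  let P : M4 F := (Pi.basisFun F I4).toMatrix B
  have hP : ∀ j, P *ᵥ Pi.single j 1 = B j := fun j => by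
    ext i
    simp [P, Module.Basis.toMatrix_apply]
  have hu : IsUnit P.det := (Pi.basisFun F I4).isUnit_det B
  have hf : ∀ (A : M4 F) i j, (Pᵀ * J (Fin 2) F * (A * P)) i j = ff (B i) (A *ᵥ B j) := by
    intro A i j
    rw [← hP, ← hP, ff, Cfsg.sympForm, mulVec_mulVec, mulVec_mulVec, ← vecMul_transpose,
      ← dotProduct_mulVec, mulVec_mulVec]
    simp [Matrix.mul_assoc]
  intro g
  let Γ : M4 K := Matrix.of fun i j => ⟨ff (B i) (B j), hK _ (hB i) _ (hB j)⟩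
  let C : M4 K := Matrix.of fun i j => ⟨ff (B i) ((ρ g).1 *ᵥ B j), hK _ (hB i) _ (hi g _ (hB j))⟩
  have e1 : K.subtype.mapMatrix Γ = Pᵀ * J (Fin 2) F * P := by
    ext i j
    have := hf 1 i j
    rw [Matrix.one_mul, one_mulVec] at this
    exact this.symm
  have e2' : K.subtype.mapMatrix C = Pᵀ * J (Fin 2) F * ((ρ g).1 * P) := by
    ext i j
    exact (hf _ i j).symm
  have hd : IsUnit (Pᵀ * J (Fin 2) F * P).det := by
    rw [det_mul, det_mul, det_transpose]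
    exact (hu.mul (isUnit_det_J _ _)).mul hu
  have hd' : IsUnit Γ.det := by
    rw [isUnit_iff_ne_zero] at hd ⊢
    intro c
    rw [← e1, ← RingHom.map_det, c, map_zero] at hd
    exact hd rfl
  have e3 : K.subtype.mapMatrix (Γ⁻¹ * C) = P⁻¹ * ((ρ g).1 * P) := by
    have := (invertibleOfIsUnitDet _ hd)
    refine Matrix.mul_right_injective_of_invertible (Pᵀ * J (Fin 2) F * P) ?_
    change _ * _ = _ * _
    rw [Matrix.mul_assoc _ P (_ * _), mul_nonsing_inv_cancel_left _ _ hu, ← e2', ← e1, ← map_mul,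
      mul_nonsing_inv_cancel_left _ _ hd']
  have e4 : ∀ i j, (P⁻¹ * ((ρ g).1 * P)) i j ∈ K := fun i j => by
    rw [← e3]; exact ((Γ⁻¹ * C) i j).2
  have e5 : (ρ g).1 * P * P⁻¹ = (ρ g).1 := mul_nonsing_inv_cancel_right _ _ hu
  constructor
  · rw [← e5, trace_mul_comm]
    exact sum_mem fun i _ => e4 i i
  · rw [← e5, e2_mul_comm]
    have m := fun i j => sub_mem (mul_mem (e4 i i) (e4 j j)) (mul_mem (e4 i j) (e4 j i))
    exact add_mem (add_mem (add_mem (add_mem (add_mem (m _ _) (m _ _)) (m _ _)) (m _ _)) (m _ _))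
      (m _ _)

namespace EvTA

/-- the nilpotent part of a transvection -/
noncomputable def eT (w : I4 → F) : M4 F := (spT w 1).1 - 1

omit [Finite F] in
theorem eT_mulVec (w x : I4 → F) : eT w *ᵥ x = ff x w • w := by
  rw [eT, sub_mulVec, spT_mulVec, one_mulVec, one_mul, add_sub_cancel_left]

omit [Finite F] in
theorem mat_ext {A B : M4 F} (h : ∀ x, A *ᵥ x = B *ᵥ x) : A = B :=
  Matrix.toLin'.injective (LinearMap.ext h)

omit [Finite F] in
theorem one_add_eT (w : I4 → F) (a : F) : 1 + a • eT w = (spT w a).1 := mat_ext fun x => by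
  rw [add_mulVec, one_mulVec, smul_mulVec, eT_mulVec, spT_mulVec, mul_smul]

omit [Finite F] in
theorem eT_sq (w : I4 → F) : eT w * eT w = 0 := mat_ext fun x => by
  rw [← mulVec_mulVec, eT_mulVec, eT_mulVec, ff, sympForm_smul_left, sympForm_self, mul_zero,
    zero_smul, zero_mulVec]

omit [Finite F] in
theorem eT_braid (h2 : (2 : F) = 0) (w u : I4 → F) :
    eT w * eT u * eT w = (ff u w ^ 2) • eT w := mat_ext fun x => by
  simp only [← mulVec_mulVec, eT_mulVec, smul_mulVec, sympForm_smul_left, smul_smul, ff_comm h2 w u]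
  congr 1
  ring

theorem mem_of_sq_mem (h2 : (2 : F) = 0) {K : Subfield F} {a : F} (h : a ^ 2 ∈ K) : a ∈ K := by
  have inj : ∀ x y : F, x ^ 2 = y ^ 2 → x = y := fun x y e => by
    have : (x - y) ^ 2 = 0 := by linear_combination e + (y ^ 2 - x * y) * h2
    exact sub_eq_zero.1 (pow_eq_zero_iff two_ne_zero |>.1 this)
  obtain ⟨k, hk⟩ := Finite.surjective_of_injective (f := fun k : K => k ^ 2)
    (fun x y e => Subtype.ext (inj _ _ (congrArg Subtype.val e))) ⟨_, h⟩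
  exact inj k a (congrArg Subtype.val hk) ▸ k.2

/-- the matrices in the image of `ρ` -/
def imS (ρ : G →* SpM F) : Submonoid (M4 F) :=
  MonoidHom.mrange ((Matrix.symplecticGroup (Fin 2) F).subtype.comp ρ)

omit [Finite F] in
theorem mem_imS {w : I4 → F} {a : F} : 1 + a • eT w ∈ imS ρ ↔ spT w a ∈ ρ.range := by
  rw [one_add_eT]
  exact ⟨fun ⟨g, e⟩ => ⟨g, Subtype.ext e⟩, fun ⟨g, e⟩ => ⟨g, congrArg Subtype.val e⟩⟩

theorem exists_K (h2 : (2 : F) = 0) {w u : I4 → F} {c : F} (hw : w ∈ DT ρ) (hc : c • w ∈ DT ρ)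
    (h1 : c ≠ 1) (hu : u ∈ DT ρ) (hf : ff u w ≠ 0) :
    ∃ K : Subfield F, ff u w ∈ K ∧ ∀ a, spT w a ∈ ρ.range ↔ a ∈ K := by
  have c0 : c ≠ 0 := fun e => hc.1 (by rw [e, zero_smul])
  have c1 : c ^ 2 ≠ 1 := fun e => h1 (by
    have : (c - 1) ^ 2 = 0 := by linear_combination e + (1 - c) * h2
    exact sub_eq_zero.1 (pow_eq_zero_iff two_ne_zero |>.1 this))
  obtain ⟨K, -, k1, k2, -⟩ := sl2K_alg (imS ρ) (eT_sq w) (eT_sq u) (eT_braid h2 w u)
    (by rw [eT_braid h2, ff_comm h2]) (pow_ne_zero 2 hf)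
    (by rw [← one_smul F (eT w), mem_imS]; exact hw.2)
    (by rw [← one_smul F (eT u), mem_imS]; exact hu.2) (μ := c ^ 2)
    (by rw [mem_imS, ← one_mul (c ^ 2), ← spT_smul]; exact hc.2) (pow_ne_zero 2 c0) c1
    fun e => c1 (by linear_combination e - h2)
  exact ⟨K, mem_of_sq_mem h2 k1, fun a => mem_imS.symm.trans (k2 a)⟩

/-- the centres of full transvection groups -/
def D1 (ρ : G →* SpM F) : Set (I4 → F) := {u | ∀ a, spT u a ∈ ρ.range}

omit [Finite F] in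
theorem D1_smul {u : I4 → F} (hu : u ∈ D1 ρ) (c : F) : c • u ∈ D1 ρ := fun a => by
  rw [spT_smul]; exact hu _

omit [Finite F] in
theorem D1_act {u : I4 → F} (hu : u ∈ D1 ρ) (g : G) : (ρ g).1 *ᵥ u ∈ D1 ρ := fun a =>
  T_range (hu a) g

omit [Finite F] in
theorem D1_zero : (0 : I4 → F) ∈ D1 ρ := fun a => by
  rw [← zero_smul F (0 : I4 → F), spT_smul, zero_pow two_ne_zero, mul_zero, spT_zero]
  exact one_mem _

omit [Finite F] in
theorem D1_plane {u y : I4 → F} (hu : u ∈ D1 ρ) (hy : y ∈ D1 ρ) (hf : ff y u ≠ 0) (b : F) :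
    y + b • u ∈ D1 ρ := by
  obtain ⟨g, e⟩ := hu (b * (ff y u)⁻¹)
  have := D1_act hy g
  rwa [e, spT_mulVec, mul_assoc, inv_mul_cancel₀ hf, mul_one] at this

omit [Finite F] in
theorem D1_add' {u y : I4 → F} (hu : u ∈ D1 ρ) (hy : y ∈ D1 ρ) (hf : ff y u ≠ 0) :
    y + u ∈ D1 ρ := by simpa using D1_plane hu hy hf 1

theorem exists_two (h : Ev ρ) {w : I4 → F} (hw : w ∈ DT ρ) (hw1 : w ∈ D1 ρ) {u u' : I4 → F}
    (hu : u ≠ 0) (hu' : u' ≠ 0) (hp : ff u u' = 0) :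
    ∃ z ∈ D1 ρ, ff z u ≠ 0 ∧ ff z u' ≠ 0 := by
  by_contra! c
  let X := Submodule.span F (insert u {y | y ∈ D1 ρ ∧ ff y u ≠ 0})
  have h1 : ∀ d ∈ D1 ρ, ∀ v ∈ X, ff v d • d ∈ X := by
    intro d hd v hv
    by_cases e : ff d u = 0
    swap
    · exact X.smul_mem _ (Submodule.subset_span (Or.inr ⟨hd, e⟩))
    induction hv using Submodule.span_induction with
    | mem x hx =>
      rcases hx with rfl | hx
      · rw [ff_comm h.two, e, zero_smul]; exact zero_mem _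
      · by_cases e' : ff x d = 0
        · rw [e', zero_smul]; exact zero_mem _
        refine X.smul_mem _ ((X.add_mem_iff_right (Submodule.subset_span (Or.inr hx))).1
          (Submodule.subset_span (Or.inr ⟨D1_add' hd hx.1 e', ?_⟩)))
        rw [ff, sympForm_add_left, show Cfsg.sympForm 2 F d _ = 0 from e, add_zero]
        exact hx.2
    | zero => rw [ff, sympForm_zero_left, zero_smul]; exact zero_mem _
    | add x y _ _ hx hy => rw [ff, sympForm_add_left, add_smul]; exact add_mem hx hy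
    | smul a x _ hx => rw [ff, sympForm_smul_left, mul_smul]; exact X.smul_mem a hx
  obtain ⟨w0, g0, h0⟩ := id hw
  let N : Subgroup G :=
    { carrier := {g | ∀ v, (ρ g).1 *ᵥ v ∈ X ↔ v ∈ X}
      one_mem' := by simp
      mul_mem' := fun {a b} ha hb v => by rw [mul_act, ha, hb]
      inv_mem' := fun {a} ha v => by rw [← ha, act_inv] }
  have hN : N = ⊤ := eq_top_of h w0 h0 fun g v => by
    have hd := D1_act hw1 g
    rw [conj_T h0, spT_mulVec, one_mul]
    refine ⟨fun hv => ?_, fun hv => add_mem hv (h1 _ hd v hv)⟩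
    have := h1 _ hd _ hv
    rw [ff, sympForm_add_left, sympForm_smul_left, sympForm_self, mul_zero, add_zero] at this
    exact (X.add_mem_iff_left this).1 hv
  rcases h.irr ⟨w, hw⟩ (X := X) (fun g v hv => ((hN.ge (Subgroup.mem_top g)) v).2 hv) with e | e
  · exact hu ((Submodule.mem_bot F).1 (e ▸ Submodule.subset_span (Or.inl rfl)))
  refine hu' (eq_zero_of_sympForm_right fun v => ?_)
  have hv : v ∈ X := e ▸ Submodule.mem_top
  induction hv using Submodule.span_induction with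
  | mem x hx =>
    rcases hx with rfl | hx
    exacts [hp, c x hx.1 hx.2]
  | zero => exact sympForm_zero_left _
  | add x y _ _ hx hy => rw [sympForm_add_left, hx, hy, add_zero]
  | smul a x _ hx => rw [sympForm_smul_left, hx, mul_zero]

omit [Finite F] in
theorem three_aux (h : Ev ρ) {u u' y z : I4 → F} (hu : u ∈ D1 ρ) (hp : ff u u' = 0)
    (hz : z ∈ D1 ρ) (z1 : ff z u ≠ 0) (z2 : ff z u = ff z u') (hy : y ∈ D1 ρ) (y1 : ff y u ≠ 0)
    (y2 : ff y u' = 0) : ∃ x ∈ D1 ρ, ff x u ≠ 0 ∧ ff x u' ≠ 0 ∧ ff x u ≠ ff x u' := by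
  obtain ⟨a, a0, a1⟩ := h.four
  have key : ∀ y ∈ D1 ρ, ff y u ≠ 0 → ff y u' = 0 → ff y z ≠ 0 →
      ∃ x ∈ D1 ρ, ff x u ≠ 0 ∧ ff x u' ≠ 0 ∧ ff x u ≠ ff x u' := fun y hy y1 y2 y3 => by
    refine ⟨_, D1_plane hz hy y3 (-a * ff y u * (ff z u)⁻¹), ?_⟩
    simp only [ff, sympForm_add_left, sympForm_smul_left] at *
    rw [← z2, y2, mul_assoc, inv_mul_cancel₀ z1, mul_one, zero_add]
    refine ⟨fun e => a1 (mul_right_cancel₀ y1 (by linear_combination -e)),
      mul_ne_zero (neg_ne_zero.2 a0) y1, fun e => y1 (by linear_combination e)⟩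
  by_cases e : ff y z = 0
  · refine key _ (D1_add' hu hy y1) ?_ ?_ ?_ <;> simp only [ff, sympForm_add_left] at *
    · rwa [sympForm_self, add_zero]
    · rw [y2, hp, add_zero]
    · rwa [e, zero_add, sympForm_neg_comm, neg_ne_zero]
  · exact key y hy y1 y2 e

theorem D1_add (h : Ev ρ) {w : I4 → F} (hw : w ∈ DT ρ) (hw1 : w ∈ D1 ρ) {u u' : I4 → F}
    (hu : u ∈ D1 ρ) (hu' : u' ∈ D1 ρ) : u + u' ∈ D1 ρ := by
  by_cases hp : ff u u' = 0
  swap
  · exact D1_add' hu' hu hp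
  by_cases u0 : u = 0
  · rwa [u0, zero_add]
  by_cases u1 : u' = 0
  · rwa [u1, add_zero]
  by_cases u2 : u + u' = 0
  · rw [u2]; exact D1_zero
  have h2 := h.two
  obtain ⟨x, hx, x1, x2, x3⟩ : ∃ x ∈ D1 ρ, ff x u ≠ 0 ∧ ff x u' ≠ 0 ∧ ff x u ≠ ff x u' := by
    obtain ⟨z, hz, z1, z2⟩ := exists_two h hw hw1 u0 u1 hp
    by_cases z3 : ff z u = ff z u'
    swap
    · exact ⟨z, hz, z1, z2, z3⟩
    obtain ⟨g, hg⟩ : ∃ g, ff (u + u') ((ρ g).1 *ᵥ w) ≠ 0 := by
      by_contra! c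
      exact u2 (perp_orb h hw c)
    have hy := D1_act hw1 g
    generalize (ρ g).1 *ᵥ w = y at hg hy
    rw [ff_comm h2, ff, sympForm_add_right] at hg
    by_cases y2 : ff y u' = 0
    · exact three_aux h hu hp hz z1 z3 hy (fun e => hg (by rw [ff] at e y2; rw [e, y2, add_zero])) y2
    by_cases y1 : ff y u = 0
    · obtain ⟨x, hx, x1, x2, x3⟩ := three_aux h hu' (ff_comm h2 u u' ▸ hp) hz z2 z3.symm hy y2 y1
      exact ⟨x, hx, x2, x1, x3.symm⟩
    exact ⟨y, hy, y1, y2, fun e => hg (by rw [ff, ff] at e; linear_combination e + ff y u' * h2)⟩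
  have a1 := D1_add' hu hx x1
  have a2 := D1_add' hu' a1 (by
    rw [ff, sympForm_add_left, show Cfsg.sympForm 2 F u u' = 0 from hp, add_zero]; exact x2)
  have a3 := D1_plane hx a2 (by
    rw [ff_comm h2, ff, sympForm_add_right, sympForm_add_right, sympForm_self, zero_add]
    exact fun e => x3 (by rw [ff, ff]; linear_combination e - ff x u' * h2)) (-1)
  rwa [show x + u + u' + (-1 : F) • x = u + u' by module] at a3

end EvTA

theorem Ev.caseA (h : Ev ρ) {w : I4 → F} {c : F} (hw : w ∈ DT ρ) (hc : c • w ∈ DT ρ) (h1 : c ≠ 1) :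
    Function.Surjective ρ ∨ ∃ K : Subfield F, K ≠ ⊤ ∧ RatK ρ K := by
  obtain ⟨g1, hg1⟩ : ∃ g, ff w ((ρ g).1 *ᵥ w) ≠ 0 := by
    by_contra! e
    exact hw.1 (perp_orb h hw e)
  obtain ⟨K, -, hK⟩ := exists_K h.two hw hc h1 (DT.smul_mem hw g1) (ff_comm h.two w _ ▸ hg1)
  by_cases e : K = ⊤
  · left
    have hw1 : w ∈ D1 ρ := fun a => (hK a).2 (e ▸ Subfield.mem_top a)
    let X : Submodule F (I4 → F) :=
      { carrier := D1 ρ
        add_mem' := fun ha hb => D1_add h hw hw1 ha hb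
        zero_mem' := D1_zero
        smul_mem' := fun c _ hx => D1_smul hx c }
    have hX := (h.irr ⟨w, hw⟩ (X := X) fun g v hv => D1_act hv g).resolve_left fun e =>
      hw.1 ((Submodule.mem_bot F).1 (e ▸ hw1))
    exact MonoidHom.range_eq_top.1 (sp_eq_top_of_spT_mem _ fun u a => hX.ge Submodule.mem_top a)
  refine Or.inr ⟨K, e, ratK_of_span (D := Set.range fun g => (ρ g).1 *ᵥ w)
    (eq_top_of_perp fun v hv => perp_orb h hw fun g => hv _ (Submodule.subset_span ⟨g, rfl⟩)) ?_ ?_⟩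
  · rintro g _ ⟨k, rfl⟩
    exact ⟨g * k, mul_act ρ g k w⟩
  · rintro _ ⟨g, rfl⟩ _ ⟨k, rfl⟩
    have e1 : ff ((ρ g).1 *ᵥ w) ((ρ k).1 *ᵥ w) = ff ((ρ (k⁻¹ * g)).1 *ᵥ w) w := by
      rw [ff, ← sp_sympForm (ρ k⁻¹), inv_act, mul_act]
    change ff ((ρ g).1 *ᵥ w) ((ρ k).1 *ᵥ w) ∈ K
    rw [e1]
    by_cases e2 : ff ((ρ (k⁻¹ * g)).1 *ᵥ w) w = 0
    · rw [e2]; exact zero_mem _
    obtain ⟨K', k1, k2⟩ := exists_K h.two hw hc h1 (DT.smul_mem hw _) e2
    exact (hK _).1 ((k2 _).2 k1)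

end Cfsg.Agent.DIM4
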