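import Cfsg.Agent.DIM4.EvTB1

/-! Project DIM4, even `q`: pairwise non-proportional transvections are defined over `𝔽₂`. -/

set_option autoImplicit false

namespace Cfsg.Agent.DIM4

open Matrix

theorem transfer_invol {G A : Type*} [Group G] [Finite G] [CommGroup A] (hG : commutator G = ⊤)
    {S : Subgroup G} (hS : Odd S.index) (φ : S →* A) {t : G} (ht : t * t = 1) {a : A}
    (h : ∀ (g : G) (hg : g * t * g⁻¹ ∈ S), φ ⟨_, hg⟩ = a) : a = 1 := tb_transfer hG hS φ ht h

variable {F : Type*} [Field F] [Finite F] {G : Type*} [Group G] {ρ : G →* SpM F}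

/-- The square-zero part of the transvection with centre `w`. -/
def tbE (w : I4 → F) : M4 F := (H27.spT w (1 : F)).1 - 1

omit [Finite F] in
theorem tbE_mulVec (w x : I4 → F) : tbE w *ᵥ x = ff x w • w := by
  rw [tbE, sub_mulVec, tb_T, one_mulVec, add_sub_cancel_left]

omit [Finite F] in
theorem tb_ext {A B : M4 F} (h : ∀ x, A *ᵥ x = B *ᵥ x) : A = B :=
  Matrix.toLin'.injective (LinearMap.ext h)

/-- The matrices that act on `d^⊥ / d` like an element of the stabiliser of `d`. -/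
def tbS (ρ : G →* SpM F) (d : I4 → F) : Submonoid (M4 F) where
  carrier := {A | ∃ g, (ρ g).1 *ᵥ d = d ∧
    ∀ x, ff x d = 0 → ∃ k : F, A *ᵥ x = (ρ g).1 *ᵥ x + k • d}
  one_mem' := ⟨1, by rw [map_one, H27.sp_one_mulVec], fun x _ =>
    ⟨0, by rw [map_one, H27.sp_one_mulVec, one_mulVec, zero_smul, add_zero]⟩⟩
  mul_mem' := by
    rintro A B ⟨g, g1, g2⟩ ⟨k, k1, k2⟩
    refine ⟨g * k, by rw [map_mul, H27.sp_mul_mulVec, k1, g1], fun x hx => ?_⟩
    obtain ⟨a, ha⟩ := k2 x hx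
    obtain ⟨b, hb⟩ := g2 ((ρ k).1 *ᵥ x) (by
      rw [← hx]; conv_lhs => rw [← k1]
      exact H27.sp_sympForm _ _ _)
    obtain ⟨c, hc⟩ := g2 d (tb_self d)
    refine ⟨b + a * (1 + c), ?_⟩
    rw [← mulVec_mulVec, ha, mulVec_add, mulVec_smul, hb, hc, g1, map_mul, H27.sp_mul_mulVec]
    module

omit [Finite F] in
theorem tb_three (h2 : (2 : F) = 0) {m e : I4 → F} (hme : ff m e = 0) {α β γ : F}
    (hs : α + β + γ = 0) : H27.spT (α • e + m) (1 : F) * H27.spT (β • e + m) 1 *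
      H27.spT (γ • e + m) 1 = H27.spT m 1 := by
  have hem : ff e m = 0 := by rw [ff_comm h2, hme]
  refine H27.sp_ext fun u => ?_
  simp only [H27.sp_mul_mulVec, tb_T, tb_add_l, tb_add_r, tb_smul_l, tb_smul_r, tb_self, hme, hem,
    mul_zero, add_zero]
  match_scalars
  · ring
  · linear_combination ((α + β + γ) * ff u e + ff u m) * hs - (α * β + α * γ + β * γ) * ff u e * h2
  · linear_combination ff u e * hs + ff u m * h2

/-- B3: two perpendicular centres have the same nonzero product with a third one. -/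
theorem Ev.tb3 (h : Ev ρ) (hn : ∀ w ∈ DT ρ, ∀ c : F, c • w ∈ DT ρ → c = 1) {u a b : I4 → F}
    (hu : u ∈ DT ρ) (ha : a ∈ DT ρ) (hb : b ∈ DT ρ) (hp : ff a b = 0) (h1 : ff u a ≠ 0)
    (h3 : ff u b ≠ 0) : ff u a = ff u b := by
  have h2 := h.two
  by_contra hne
  have hab : a ≠ b := fun e => hne (by rw [e])
  have hba : ff b a = 0 := by rw [ff_comm h2, hp]
  obtain ⟨r, hr⟩ : ∃ r, r = ff u b / ff u a := ⟨_, rfl⟩
  have r0 : r ≠ 0 := hr ▸ div_ne_zero h3 h1
  have r1 : r ≠ 1 := fun e => hne (by rw [hr, div_eq_one_iff_eq h1] at e; exact e.symm)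
  have r2 : r ^ 2 ≠ 1 := fun e => r1 (tb_eq_one h2 (n := 1) e)
  obtain ⟨d, hd⟩ : ∃ d, b = r • a + d := ⟨b - r • a, by abel⟩
  have d0 : d ≠ 0 := fun e => tb_np hn ha hb hab r (by rw [hd, e, add_zero])
  have had : ff a d = 0 := by
    rw [hd, tb_add_r, tb_smul_r, tb_self, mul_zero, zero_add] at hp; exact hp
  have hda : ff d a = 0 := by rw [ff_comm h2, had]
  have hud : ff u d = 0 := by
    have : ff u b = r * ff u a + ff u d := by rw [hd, tb_add_r, tb_smul_r]
    rw [hr, div_mul_cancel₀ _ h1] at this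
    linear_combination -this
  have hdu : ff d u = 0 := by rw [ff_comm h2, hud]
  have hau : ff a u = ff u a := ff_comm h2 _ _
  have mem : ∀ w ∈ DT ρ, ff d w = 0 → 1 + tbE w ∈ tbS ρ d := by
    rintro w ⟨-, g, hg⟩ hw
    refine ⟨g, by rw [hg, tb_T, hw, zero_smul, add_zero], fun x _ => ⟨0, ?_⟩⟩
    rw [hg, tbE, add_sub_cancel, zero_smul, add_zero]
  have sq : ∀ w : I4 → F, tbE w * tbE w = 0 := fun w => tb_ext fun x => by
    rw [← mulVec_mulVec, tbE_mulVec, tbE_mulVec, tb_smul_l, tb_self, mul_zero, zero_smul,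
      zero_mulVec]
  have sw : ∀ v w : I4 → F, tbE v * tbE w * tbE v = ff w v ^ 2 • tbE v := fun v w =>
    tb_ext fun x => by
      simp only [← mulVec_mulVec, tbE_mulVec, smul_mulVec, tb_smul_l, smul_smul, ff_comm h2 v w]
      congr 1; ring
  obtain ⟨K, hμ, -, -, -, hl⟩ := sl2K_alg (tbS ρ d) (μ := r ^ 2) (sq a) (sq u) (sw a u)
    (hau ▸ sw u a) (pow_ne_zero 2 h1) (mem a ha hda) (mem u hu hdu) (by
      obtain ⟨-, g, hg⟩ := hb
      refine ⟨g, ?_, fun x hx => ⟨r * ff x a, ?_⟩⟩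
      · rw [hg, tb_T, hd, tb_add_r, tb_smul_r, hda, tb_self]; simp
      · rw [hg, tb_T, hd, add_mulVec, one_mulVec, smul_mulVec, tbE_mulVec, tb_add_r, tb_smul_r, hx]
        match_scalars
        · ring
        · ring
        · linear_combination (-r * ff x a) * h2) (pow_ne_zero 2 r0) r2
    (fun e => r2 (by linear_combination e - h2))
  obtain ⟨l, hl1⟩ := IsCyclic.exists_monoid_generator (α := Kˣ)
  have pw : ∀ x ∈ K, x ≠ 0 → ∃ j : ℕ, ((l : K) : F) ^ j = x := fun x hx x0 => by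
    obtain ⟨j, hj⟩ := hl1 (Units.mk0 ⟨x, hx⟩ fun e => x0 (congrArg Subtype.val e))
    exact ⟨j, by simpa using congrArg (fun y : Kˣ => ((y : K) : F)) hj⟩
  have lK : ((l : K) : F) ∈ K := (l : K).2
  have l0 : ((l : K) : F) ≠ 0 := fun e => l.ne_zero (Subtype.ext e)
  generalize ((l : K) : F) = m at pw lK l0
  have l1 : m ≠ 1 := fun e => by
    obtain ⟨j, hj⟩ := pw _ hμ (pow_ne_zero 2 r0)
    exact r2 (by rw [← hj, e, one_pow])
  have l2 : 1 + m ≠ 0 := fun e => l1 (by linear_combination e - h2)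
  obtain ⟨j, hj⟩ := pw _ (K.add_mem K.one_mem lK) l2
  obtain ⟨g, g1, g2⟩ := hl m lK l0
  obtain ⟨k, hk⟩ := g2 a had
  have hga : (ρ g).1 *ᵥ a = m • a - k • d := by
    rw [eq_sub_iff_add_eq, ← hk]
    simp only [add_mulVec, smul_mulVec, ← mulVec_mulVec, tbE_mulVec, one_mulVec, tb_smul_l, tb_self,
      hau, zero_smul, H27.sympForm_zero_left, smul_zero, add_zero]
    match_scalars
    field_simp
    ring
  obtain ⟨ν, hν⟩ : ∃ ν, ν * (1 + m) = k := ⟨k / (1 + m), div_mul_cancel₀ _ l2⟩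
  obtain ⟨e, he⟩ : ∃ e, a = e + ν • d := ⟨a - ν • d, by abel⟩
  have hge : (ρ g).1 *ᵥ e = m • e := by
    rw [show e = a - ν • d by rw [he]; abel, mulVec_sub, mulVec_smul, g1, hga, ← hν]
    match_scalars
    · ring
    · linear_combination -ν * h2
  have hde : ff d e = 0 := by
    rw [he, tb_add_r, tb_smul_r, tb_self, mul_zero, add_zero] at hda; exact hda
  have key : ∀ x y : F, x • e + y • d ∈ DT ρ → y • d ∈ DT ρ := fun x y hw => by
    by_cases x0 : x = 0
    · rwa [x0, zero_smul, zero_add] at hw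
    have hi : ∀ i : ℕ, (m ^ i * x) • e + y • d ∈ DT ρ := fun i => by
      have := DT.smul_mem hw (g ^ i)
      rwa [map_pow, mulVec_add, mulVec_smul, mulVec_smul, tb_pow_eig _ hge,
        tb_pow_eig _ (c := 1) (by rw [g1, one_smul]), one_pow, one_smul, smul_smul, mul_comm] at this
    have y0 : y ≠ 0 := fun e0 => l1 (hn _ hw m (by
      have := hi 1
      rw [e0, zero_smul, add_zero] at this ⊢
      rwa [smul_smul, ← pow_one m]))
    obtain ⟨-, g0, e0⟩ := hw
    obtain ⟨-, g1, e1⟩ := hi 1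
    obtain ⟨-, g2, e2⟩ := hi j
    refine ⟨smul_ne_zero y0 d0, g0 * g1 * g2, ?_⟩
    rw [map_mul, map_mul, e0, e1, e2]
    exact tb_three h2 (by rw [tb_smul_l, hde, mul_zero]) (by
      rw [hj]; linear_combination (x + m * x) * h2)
  have k1 := key 1 ν (by rwa [one_smul, ← he])
  have ν0 : ν ≠ 0 := fun e0 => k1.1 (by rw [e0, zero_smul])
  have one : ∀ x y : F, x • e + y • d ∈ DT ρ → y = ν := fun x y hw => by
    have := hn _ k1 (y / ν) (by rw [smul_smul, div_mul_cancel₀ _ ν0]; exact key x y hw)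
    rwa [div_eq_one_iff_eq ν0] at this
  have k2 := one r (r * ν + 1) (by convert hb using 1; rw [hd, he]; module)
  obtain ⟨x, y, hw, hxy⟩ := h.tb2 hn ha hb hab hp
  have k3 := one (x + y * r) (x * ν + y * (r * ν + 1)) (by convert hw using 1; rw [hd, he]; module)
  exact hxy (mul_right_cancel₀ ν0 (by linear_combination k3 - y * k2))

theorem Ev.tb_span (h : Ev ρ) {w : I4 → F} (hw : w ∈ DT ρ) : ∃ u ∈ DT ρ, ff u w ≠ 0 := by
  by_contra hne
  push Not at hne
  have hX : ∀ g, ∀ v ∈ Submodule.span F (DT ρ), (ρ g).1 *ᵥ v ∈ Submodule.span F (DT ρ) := by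
    intro g v hv
    induction hv using Submodule.span_induction with
    | mem x hx => exact Submodule.subset_span (DT.smul_mem hx g)
    | zero => rw [mulVec_zero]; exact Submodule.zero_mem _
    | add x y _ _ h1 h2 => rw [mulVec_add]; exact Submodule.add_mem _ h1 h2
    | smul c x _ h1 => rw [mulVec_smul]; exact Submodule.smul_mem _ c h1
  rcases h.irr ⟨w, hw⟩ hX with e | e
  · exact hw.1 ((Submodule.mem_bot F).1 (e ▸ Submodule.subset_span hw))
  · refine hw.1 (H27.eq_zero_of_sympForm_right fun v => ?_)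
    have hv : v ∈ Submodule.span F (DT ρ) := e ▸ Submodule.mem_top
    induction hv using Submodule.span_induction with
    | mem x hx => exact hne x hx
    | zero => exact H27.sympForm_zero_left _
    | add x y _ _ h1 h2 => rw [H27.sympForm_add_left, h1, h2, add_zero]
    | smul c x _ h1 => rw [H27.sympForm_smul_left, h1, mul_zero]

/-- B4: the kernel point of `f(u, ·)` on a line with two centres contains a centre. -/
theorem Ev.tb4 (h : Ev ρ) (hn : ∀ w ∈ DT ρ, ∀ c : F, c • w ∈ DT ρ → c = 1) {u a b : I4 → F}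
    (hu : u ∈ DT ρ) (ha : a ∈ DT ρ) (hb : b ∈ DT ρ) (hab : a ≠ b) (hp : ff a b = 0)
    (h1 : ff u b ≠ 0) : ∃ x y : F, x • a + y • b ∈ DT ρ ∧ ff u (x • a + y • b) = 0 := by
  by_cases h3 : ff u a = 0
  · exact ⟨1, 0, by simpa using ha, by simpa using h3⟩
  obtain ⟨x, y, hw, hxy⟩ := h.tb2 hn ha hb hab hp
  refine ⟨x, y, hw, by_contra fun h4 => hxy (mul_right_cancel₀ h1 ?_)⟩
  have e1 := h.tb3 hn hu ha hb hp h3 h1
  have e2 := h.tb3 hn hu hw hb (by simp only [tb_add_l, tb_smul_l, hp, tb_self]; ring) h4 h1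
  rw [tb_add_r, tb_smul_r, tb_smul_r, e1] at e2
  linear_combination e2

theorem Ev.tb5 (h : Ev ρ) (hn : ∀ w ∈ DT ρ, ∀ c : F, c • w ∈ DT ρ → c = 1) {u a b : I4 → F}
    (hu : u ∈ DT ρ) (ha : a ∈ DT ρ) (hb : b ∈ DT ρ) (hp : ff a b = 0) (h1 : ff u a ≠ 0)
    (h3 : ff u b = 0) : (∀ y : F, a + y • b ∈ DT ρ → y = 0 ∨ y = 1) ∧ a + b ∈ DT ρ := by
  have h2 := h.two
  have hab : a ≠ b := fun e => h1 (by rw [e, h3])
  have hba : ff b a = 0 := by rw [ff_comm h2, hp]
  have one : ∀ x y : F, x • a + y • b ∈ DT ρ → (x = 0 ∧ y = 1) ∨ x = 1 := fun x y hw => by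
    by_cases x0 : x = 0
    · exact .inl ⟨x0, hn b hb y (by simpa [x0] using hw)⟩
    have e : ff u (x • a + y • b) = x * ff u a := by rw [tb_add_r, tb_smul_r, tb_smul_r, h3]; ring
    have := h.tb3 hn hu hw ha (by simp only [tb_add_l, tb_smul_l, hba, tb_self]; ring)
      (e ▸ mul_ne_zero x0 h1) h1
    exact .inr (mul_right_cancel₀ h1 (by rw [← e, this, one_mul]))
  obtain ⟨v, hv, hvb⟩ := h.tb_span hb
  obtain ⟨x4, y4, hw, h4⟩ := h.tb4 hn hv ha hb hab hp hvb
  rcases one _ _ hw with ⟨rfl, rfl⟩ | rfl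
  · exact absurd (by simpa using h4) hvb
  rw [tb_add_r, tb_smul_r, tb_smul_r] at h4
  have two : ∀ y : F, a + y • b ∈ DT ρ → y = y4 ∨ y = y4 + 1 := fun y hy => by
    have e : ff v (a + y • b) = (y - y4) * ff v b := by
      rw [tb_add_r, tb_smul_r]; linear_combination h4
    by_cases e0 : y - y4 = 0
    · exact .inl (sub_eq_zero.1 e0)
    have := h.tb3 hn hv hy hb (by simp only [tb_add_l, tb_smul_l, hp, tb_self]; ring)
      (e ▸ mul_ne_zero e0 hvb) hvb
    have h5 : y - y4 = 1 := mul_right_cancel₀ hvb (by rw [← e, this, one_mul])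
    exact .inr (by linear_combination h5)
  have three : ∀ y : F, a + y • b ∈ DT ρ → y = 0 ∨ y = 1 := fun y hy => by
    rcases two 0 (by simpa using ha) with e | e <;> rcases two y hy with e' | e'
    · exact .inl (by linear_combination e' - e)
    · exact .inr (by linear_combination e' - e)
    · exact .inr (by linear_combination e' - e - h2)
    · exact .inl (by linear_combination e' - e)
  refine ⟨three, ?_⟩
  obtain ⟨x, y, hw, hxy⟩ := h.tb2 hn ha hb hab hp
  rcases one _ _ hw with ⟨rfl, rfl⟩ | rfl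
  · exact absurd (zero_add 1) hxy
  rw [one_smul] at hw
  rcases three y hw with rfl | rfl
  · exact absurd (add_zero 1) hxy
  · rwa [one_smul] at hw

/-- The sum of two perpendicular centres is a centre. -/
theorem Ev.tb6 (h : Ev ρ) (hn : ∀ w ∈ DT ρ, ∀ c : F, c • w ∈ DT ρ → c = 1) {a b : I4 → F}
    (ha : a ∈ DT ρ) (hb : b ∈ DT ρ) (hab : a ≠ b) (hp : ff a b = 0) : a + b ∈ DT ρ := by
  have h2 := h.two
  obtain ⟨u, hu, h1⟩ := h.tb_span ha
  by_cases h3 : ff u b = 0
  · exact (h.tb5 hn hu ha hb hp h1 h3).2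
  have e1 := h.tb3 hn hu ha hb hp h1 h3
  obtain ⟨x, y, hw, h4⟩ := h.tb4 hn hu ha hb hab hp h3
  have hy : y = x := by
    rw [tb_add_r, tb_smul_r, tb_smul_r, e1] at h4
    exact mul_right_cancel₀ h3 (by linear_combination h4 - x * ff u b * h2)
  subst hy
  rw [← smul_add] at hw h4
  have y0 : y ≠ 0 := fun e => hw.1 (by rw [e, zero_smul])
  rcases (h.tb5 hn hu ha hw (by rw [tb_smul_r, tb_add_r, tb_self, hp]; ring) h1 h4).1 y⁻¹ (by
    rwa [inv_smul_smul₀ y0, ← add_assoc, tb_addself h2, zero_add]) with e | e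
  · exact absurd e (inv_ne_zero y0)
  · rwa [inv_eq_one.1 e, one_smul] at hw

theorem Ev.caseB (h : Ev ρ) (hn : ∀ w ∈ DT ρ, ∀ c : F, c • w ∈ DT ρ → c = 1) :
    ∀ u ∈ DT ρ, ∀ w ∈ DT ρ, ff u w = 0 ∨ ff u w = 1 := by
  intro u hu w hw
  have h2 := h.two
  refine or_iff_not_imp_left.2 fun h1 => ?_
  obtain ⟨w', hw', hne, hp⟩ := h.tb1 hw
  obtain ⟨x, y, hz, h3⟩ := h.tb4 hn hu hw' hw hne.symm (by rw [ff_comm h2, hp]) h1
  have hwz : ff w (x • w' + y • w) = 0 := by
    simp only [tb_add_r, tb_smul_r, hp, tb_self]; ring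
  generalize x • w' + y • w = z at hz h3 hwz
  have h4 := (h.tb5 hn hu hw hz hwz h1 h3).2
  have T : ∀ v ∈ DT ρ, u + ff u v • v ∈ DT ρ := by
    rintro v ⟨-, g, hg⟩
    have := DT.smul_mem hu g
    rwa [hg, tb_T] at this
  have h5 := T _ hw
  have h6 := T _ h4
  rw [tb_add_r, h3, add_zero] at h6
  have e : u + ff u w • w + (u + ff u w • (w + z)) = ff u w • z := by
    rw [add_add_add_comm, tb_addself h2, zero_add, ← smul_add, ← add_assoc, tb_addself h2, zero_add]
  refine hn z hz _ (e ▸ h.tb6 hn h5 h6 (fun e' => ?_) ?_)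
  · rw [← e', tb_addself h2] at e
    exact smul_ne_zero h1 hz.1 e.symm
  · simp only [tb_add_l, tb_add_r, tb_smul_l, tb_smul_r, tb_self, h3, hwz, ff_comm h2 w u]
    linear_combination ff u w ^ 2 * h2

end Cfsg.Agent.DIM4
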