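import Cfsg.Agent.DIM4.EvTA
import Cfsg.Agent.S0215
import Mathlib.GroupTheory.Transfer

/-! Project DIM4, even `q`: groups generated by pairwise non-proportional transvections. -/

set_option autoImplicit false

namespace Cfsg.Agent.DIM4

open Matrix

theorem tb_transfer {G A : Type*} [Group G] [Finite G] [CommGroup A] (hG : commutator G = ⊤)
    {S : Subgroup G} (hS : Odd S.index) (φ : S →* A) {t : G} (ht : t * t = 1) {a : A}
    (h : ∀ (g : G) (hg : g * t * g⁻¹ ∈ S), φ ⟨_, hg⟩ = a) : a = 1 := by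
  classical
  have : Fintype (Quotient (MulAction.orbitRel (Subgroup.zpowers t) (G ⧸ S))) := Fintype.ofFinite _
  have hV : MonoidHom.transfer φ t = 1 := by
    have : t ∈ commutator G := hG ▸ Subgroup.mem_top t
    exact Abelianization.commutator_subset_ker _ this
  have hper : ∀ q : G ⧸ S, Function.minimalPeriod (t • ·) q = 1 ∨
      Function.minimalPeriod (t • ·) q = 2 := fun q => by
    have : Function.minimalPeriod (t • ·) q ∣ 2 :=
      MulAction.pow_smul_eq_iff_minimalPeriod_dvd.1 (by rw [pow_two, ht, one_smul])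
    exact (Nat.dvd_prime Nat.prime_two).1 this
  have h1 : ∀ (q : G ⧸ S), Function.minimalPeriod (t • ·) q = 1 →
      φ ⟨_, QuotientGroup.out_conj_pow_minimalPeriod_mem S t q⟩ = a := fun q hq => by
    have := h q.out⁻¹ (by simpa [hq] using QuotientGroup.out_conj_pow_minimalPeriod_mem S t q)
    rw [← this]
    congr 1
    exact Subtype.ext (by simp [hq])
  have h2 : ∀ (q : G ⧸ S), Function.minimalPeriod (t • ·) q = 2 →
      φ ⟨_, QuotientGroup.out_conj_pow_minimalPeriod_mem S t q⟩ = 1 := fun q hq => by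
    rw [← map_one φ]
    congr 1
    exact Subtype.ext (by simp [hq, pow_two, ht])
  have hi := S.index_eq_sum_minimalPeriod t
  obtain ⟨q0, hq0⟩ : ∃ q : G ⧸ S, Function.minimalPeriod (t • ·) q = 1 := by
    by_contra hne
    push Not at hne
    rw [hi, Finset.sum_congr rfl fun q _ => (hper q.out).resolve_left (hne _)] at hS
    simp only [Finset.sum_const, smul_eq_mul] at hS
    exact (Nat.not_even_iff_odd.2 hS) (Even.mul_left even_two _)
  have ha : a ^ 2 = 1 := by
    rw [← h1 q0 hq0, ← map_pow, ← map_one φ]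
    congr 1
    refine Subtype.ext ?_
    simp only [hq0, pow_one, Subgroup.coe_mul, Subgroup.coe_one, pow_two]
    calc q0.out⁻¹ * t * q0.out * (q0.out⁻¹ * t * q0.out) = q0.out⁻¹ * (t * t) * q0.out := by group
      _ = 1 := by rw [ht]; group
  rw [MonoidHom.transfer_eq_prod_quotient_orbitRel_zpowers_quot,
    Finset.prod_congr rfl (g := fun q => a ^ Function.minimalPeriod (t • ·) q.out) fun q _ => by
      rcases hper q.out with e | e
      · rw [h1 _ e, e, pow_one]
      · rw [h2 _ e, e, ha], Finset.prod_pow_eq_pow_sum, ← hi] at hV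
  obtain ⟨k, hk⟩ := hS
  rwa [hk, pow_succ, pow_mul, ha, one_pow, one_mul] at hV

variable {F : Type*} [Field F] {G : Type*} [Group G] {ρ : G →* SpM F}

theorem tb_add_l (u v w : I4 → F) : ff (u + v) w = ff u w + ff v w := H27.sympForm_add_left _ _ _
theorem tb_add_r (u v w : I4 → F) : ff u (v + w) = ff u v + ff u w := H27.sympForm_add_right _ _ _
theorem tb_smul_l (c : F) (u v : I4 → F) : ff (c • u) v = c * ff u v := H27.sympForm_smul_left _ _ _
theorem tb_smul_r (c : F) (u v : I4 → F) : ff u (c • v) = c * ff u v := H27.sympForm_smul_right _ _ _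
theorem tb_self (u : I4 → F) : ff u u = 0 := H27.sympForm_self _

theorem tb_T (w x : I4 → F) : (H27.spT w (1 : F)).1 *ᵥ x = x + ff x w • w := by
  rw [H27.spT_mulVec, one_mul]

theorem tb_inv (g : SpM F) (u v : I4 → F) : ff (g.1 *ᵥ u) v = ff u ((g⁻¹).1 *ᵥ v) := by
  conv_lhs => rw [← H27.sp_mulVec_inv_mulVec g v]
  exact H27.sp_sympForm g _ _

theorem tb_trace (a b : I4 → F) :
    (H27.spT a (1 : F) * H27.spT b 1).1.trace = 4 - ff a b ^ 2 := by
  change (Cfsg.sympTransvection 2 a 1 * Cfsg.sympTransvection 2 b 1).trace = _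
  simp [Cfsg.sympTransvection, Matrix.trace, Matrix.mul_apply, Fintype.sum_sum_type,
    Fin.sum_univ_two, ff, H27.sympForm_eq, Matrix.vecMulVec_apply, Matrix.mulVec, dotProduct,
    Matrix.J, Matrix.one_apply]
  ring

theorem tb_perp (h2 : (2 : F) = 0) {S : Subgroup G} (hS : IsPGroup 2 S) {s t : G} (hs : s ∈ S)
    (ht : t ∈ S) {a b : I4 → F} (ha : ρ s = H27.spT a 1) (hb : ρ t = H27.spT b 1) : ff a b = 0 := by
  obtain ⟨n, hn⟩ := hS ⟨s * t, S.mul_mem hs ht⟩
  have h1 : (s * t) ^ 2 ^ n = 1 := congrArg Subtype.val hn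
  have := trace_of_two_pow h2 (g := ρ (s * t)) (n := n) (by rw [← map_pow, h1, map_one])
  rw [map_mul, ha, hb, tb_trace] at this
  have h4 : ff a b ^ 2 = 0 := by linear_combination 2 * h2 - this
  exact pow_eq_zero_iff two_ne_zero |>.1 h4

theorem tb_sq (h : Ev ρ) {t : G} {w : I4 → F} (ht : ρ t = H27.spT w 1) : t * t = 1 :=
  h.inj (by rw [map_mul, ht, H27.spT_mul, one_add_one_eq_two, h.two, H27.spT_zero, map_one])

theorem tb_conj {t : G} {w : I4 → F} (ht : ρ t = H27.spT w 1) (g : G) :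
    ρ (g * t * g⁻¹) = H27.spT ((ρ g).1 *ᵥ w) 1 := by
  rw [map_mul, map_mul, map_inv, ht, H27.conj_spT]

theorem tb_np (hn : ∀ w ∈ DT ρ, ∀ c : F, c • w ∈ DT ρ → c = 1) {a b : I4 → F} (ha : a ∈ DT ρ)
    (hb : b ∈ DT ρ) (hab : a ≠ b) (c : F) : b ≠ c • a := fun e =>
  hab (by rw [e, hn a ha c (e ▸ hb), one_smul])

theorem tb_addself (h2 : (2 : F) = 0) (u : I4 → F) : u + u = 0 := by
  rw [← two_smul F, h2, zero_smul]

theorem tb_eq_one (h2 : (2 : F) = 0) {c : F} {n : ℕ} (h : c ^ 2 ^ n = 1) : c = 1 := by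
  induction n with
  | zero => simpa using h
  | succ n ih =>
    refine ih ?_
    have : (c ^ 2 ^ n - 1) ^ 2 = 0 := by
      rw [pow_succ, pow_mul] at h
      linear_combination h + (1 - c ^ 2 ^ n) * h2
    exact sub_eq_zero.1 (pow_eq_zero_iff two_ne_zero |>.1 this)

theorem tb_pow_eig (g : SpM F) {v : I4 → F} {c : F} (h : g.1 *ᵥ v = c • v) (n : ℕ) :
    (g ^ n).1 *ᵥ v = c ^ n • v := by
  induction n with
  | zero => rw [pow_zero, pow_zero, one_smul, H27.sp_one_mulVec]
  | succ n ih => rw [pow_succ, H27.sp_mul_mulVec, h, mulVec_smul, ih, smul_smul, pow_succ']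

variable [Finite F]

theorem Ev.tb_fin (h : Ev ρ) : Finite G := Finite.of_injective ρ h.inj

/-- B1: by the `Z*`-theorem every centre is perpendicular to another one. -/
theorem Ev.tb1 (h : Ev ρ) {w : I4 → F} (hw : w ∈ DT ρ) : ∃ w' ∈ DT ρ, w ≠ w' ∧ ff w w' = 0 := by
  have := h.tb_fin
  have := h.simple
  have : Fact (Nat.Prime 2) := ⟨Nat.prime_two⟩
  obtain ⟨w0, t, ht⟩ := id hw
  have t1 : t ≠ 1 := fun e => w0 (spT_inj h.two (u := w) (w := 0) (by
    rw [← ht, e, map_one]
    exact H27.sp_ext fun u => by rw [H27.sp_one_mulVec, tb_T, smul_zero, add_zero]))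
  have ho : orderOf t = 2 := orderOf_eq_prime (by rw [pow_two, tb_sq h ht]) t1
  have hp : IsPGroup 2 (Subgroup.zpowers t) :=
    IsPGroup.of_card (n := 1) (by rw [Nat.card_zpowers, ho]; rfl)
  obtain ⟨S, hS⟩ := hp.exists_le_sylow
  have htS : t ∈ (S : Subgroup G) := hS (Subgroup.mem_zpowers t)
  by_contra hne
  push Not at hne
  obtain ⟨N, hN, hodd, hc⟩ := S0215.result S t ho htS fun g hg => by
    by_contra hg1
    refine hne _ (DT.smul_mem hw g) (fun e => hg1 (h.inj ?_))
      (tb_perp h.two S.2 htS hg ht (tb_conj ht g))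
    rw [tb_conj ht, ← e, ht]
  rcases hN.eq_bot_or_eq_top with e | e
  · have hz : t ∈ Subgroup.center G := Subgroup.mem_center_iff.2 fun g => by
      have h1 : t * g * t⁻¹ * g⁻¹ = 1 := by simpa [e] using hc g
      calc g * t = (t * g * t⁻¹ * g⁻¹) * g * t := by rw [h1, one_mul]
        _ = t * g := by group
    rcases (inferInstance : (Subgroup.center G).Normal).eq_bot_or_eq_top with e' | e'
    · exact t1 (by simpa [e'] using hz)
    · obtain ⟨a, b, hab⟩ := h.nonab
      exact hab (Subgroup.mem_center_iff.1 (e' ▸ Subgroup.mem_top b) a)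
  · rw [e, Subgroup.card_top] at hodd
    exact (Nat.not_even_iff_odd.mpr hodd) (even_iff_two_dvd.mpr (ho ▸ orderOf_dvd_natCard t))

/-- B2: the centres on a totally isotropic line do not lie on an affine line. -/
theorem Ev.tb2 (h : Ev ρ) (hn : ∀ w ∈ DT ρ, ∀ c : F, c • w ∈ DT ρ → c = 1) {a b : I4 → F}
    (ha : a ∈ DT ρ) (hb : b ∈ DT ρ) (hab : a ≠ b) (hp : ff a b = 0) :
    ∃ x y : F, x • a + y • b ∈ DT ρ ∧ x + y ≠ 1 := by
  have := h.tb_fin
  have : Fact (Nat.Prime 2) := ⟨Nat.prime_two⟩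
  have h2 := h.two
  by_contra hne
  push Not at hne
  obtain ⟨a0, s, hs⟩ := id ha
  obtain ⟨-, t, ht⟩ := id hb
  have hba : ff b a = 0 := by rw [ff_comm h2, hp]
  have hc : Commute s t := h.inj (by
    rw [map_mul, map_mul, hs, ht]
    refine H27.sp_ext fun u => ?_
    simp only [H27.sp_mul_mulVec, tb_T, tb_add_l, tb_smul_l, hp, hba, mul_zero, add_zero]
    abel)
  have hP : IsPGroup 2 (Subgroup.closure ({s, t} : Set G)) := fun g => ⟨1, Subtype.ext (by
    have : ∀ x ∈ Subgroup.closure ({s, t} : Set G), x * x = 1 ∧ Commute x s ∧ Commute x t := by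
      intro x hx
      induction hx using Subgroup.closure_induction'' with
      | one => simp
      | mem x hx =>
        rcases hx with rfl | rfl
        · exact ⟨tb_sq h hs, Commute.refl _, hc⟩
        · exact ⟨tb_sq h ht, hc.symm, Commute.refl _⟩
      | inv_mem x hx =>
        rcases hx with rfl | rfl
        · exact ⟨by rw [← _root_.mul_inv_rev, tb_sq h hs, inv_one], (Commute.refl _).inv_left,
            hc.inv_left⟩
        · exact ⟨by rw [← _root_.mul_inv_rev, tb_sq h ht, inv_one], hc.symm.inv_left,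
            (Commute.refl _).inv_left⟩
      | mul x y hx hy h1 h3 =>
        refine ⟨?_, h1.2.1.mul_left h3.2.1, h1.2.2.mul_left h3.2.2⟩
        have : Commute x y := by
          refine Subgroup.closure_induction (p := fun y _ => Commute x y) ?_ (Commute.one_right _)
            (fun _ _ _ _ => Commute.mul_right) (fun _ _ => Commute.inv_right) hy
          rintro z (rfl | rfl)
          exacts [h1.2.1, h1.2.2]
        calc x * y * (x * y) = x * (y * x) * y := by group
          _ = (x * x) * (y * y) := by rw [← this.eq]; group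
          _ = 1 := by rw [h1.1, h3.1, one_mul]
    simpa [pow_two] using (this g g.2).1)⟩
  obtain ⟨S, hS⟩ := hP.exists_le_sylow
  have hsS : s ∈ (S : Subgroup G) := hS (Subgroup.subset_closure (by simp))
  have htS : t ∈ (S : Subgroup G) := hS (Subgroup.subset_closure (by simp))
  have line : ∀ v, ff a v = 0 → ff b v = 0 → ∃ c d : F, v = c • a + d • b := fun v =>
    mem_line_of_perp a0 (tb_np hn ha hb hab) hp
  have aff : ∀ r ∈ (S : Subgroup G), ∀ w ∈ DT ρ, ρ r = H27.spT w 1 →
      ∃ k : F, w = a + k • (a + b) := fun r hr w hw e => by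
    obtain ⟨x, y, rfl⟩ := line w (tb_perp h2 S.2 hsS hr hs e) (tb_perp h2 S.2 htS hr ht e)
    refine ⟨y, ?_⟩
    rw [show x = 1 + y by linear_combination hne x y hw - y * h2]
    module
  have ga : ∀ g ∈ (S : Subgroup G), ∃ k : F, (ρ g).1 *ᵥ a = a + k • (a + b) := fun g hg =>
    aff _ (mul_mem (mul_mem hg hsS) (inv_mem hg)) _ (DT.smul_mem ha g) (tb_conj hs g)
  have gd : ∀ g ∈ (S : Subgroup G), (ρ g).1 *ᵥ (a + b) = a + b := fun g hg => by
    obtain ⟨k, hk⟩ := ga g hg
    obtain ⟨l, hl⟩ := aff _ (mul_mem (mul_mem hg htS) (inv_mem hg)) _ (DT.smul_mem hb g)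
      (tb_conj ht g)
    have e : (ρ g).1 *ᵥ (a + b) = (k + l) • (a + b) := by
      rw [mulVec_add, hk, hl, add_add_add_comm, tb_addself h2, zero_add, add_smul]
    obtain ⟨n, hg'⟩ := S.2 ⟨g, hg⟩
    have h1 : g ^ 2 ^ n = 1 := congrArg Subtype.val hg'
    have h3 := tb_pow_eig _ e (2 ^ n)
    rw [← map_pow, h1, map_one, H27.sp_one_mulVec] at h3
    have d0 : a + b ≠ 0 := fun e0 => hab (by
      rw [← add_zero a, ← tb_addself h2 b, ← add_assoc, e0, zero_add])
    rw [e, tb_eq_one h2 (c := k + l) (n := n) (smul_left_injective F d0 (by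
      change _ • _ = _ • _
      rw [← h3, one_smul])), one_smul]
  obtain ⟨e, he1, he2⟩ : ∃ e, ff e (a + b) = 0 ∧ ff e a = 1 := by
    have d0 : a + b ≠ 0 := fun e0 => hab (by
      rw [← add_zero a, ← tb_addself h2 b, ← add_assoc, e0, zero_add])
    by_contra hx
    push Not at hx
    obtain ⟨c, hc⟩ := mem_point_of_perp (x := a) d0 fun y hy => by
      by_contra h0
      refine hx ((ff a y)⁻¹ • y) ?_ ?_
      · rw [tb_smul_l, ff_comm h2 y, hy, mul_zero]
      · rw [tb_smul_l, ff_comm h2 y, inv_mul_cancel₀ h0]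
    have c0 : c ≠ 0 := fun e0 => a0 (by rw [hc, e0, zero_smul])
    refine tb_np hn ha hb hab (c⁻¹ - 1) ?_
    rw [sub_smul, one_smul, eq_sub_iff_add_eq, add_comm, eq_inv_smul_iff₀ c0, ← hc]
  have mv : ∀ g ∈ (S : Subgroup G), ∃ x y : F, (ρ g).1 *ᵥ e = e + (x • a + y • b) := by
    intro g hg
    obtain ⟨k, hk⟩ := ga _ (inv_mem hg)
    have h1 : ff ((ρ g).1 *ᵥ e) a = 1 := by
      rw [tb_inv, ← map_inv, hk, tb_add_r, tb_smul_r, he1, he2, mul_zero, add_zero]
    have h3 : ff ((ρ g).1 *ᵥ e) (a + b) = 0 := by rw [tb_inv, ← map_inv, gd _ (inv_mem hg), he1]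
    rw [tb_add_r] at h3 he1
    obtain ⟨x, y, hxy⟩ := line ((ρ g).1 *ᵥ e + e)
      (by rw [ff_comm h2, tb_add_l, h1, he2]; linear_combination h2)
      (by rw [ff_comm h2, tb_add_l]; linear_combination h3 + he1 - h1 - he2 - h2)
    exact ⟨x, y, by rw [← hxy, add_left_comm, tb_addself h2, add_zero]⟩
  let φ : (S : Subgroup G) →* Multiplicative F := MonoidHom.mk'
    (fun g => Multiplicative.ofAdd (ff ((ρ g).1 *ᵥ e) e)) fun g k => by
      rw [← ofAdd_add]
      congr 1
      obtain ⟨x, y, h1⟩ := mv _ (inv_mem g.2)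
      obtain ⟨z, w, h3⟩ := mv _ k.2
      rw [Subgroup.coe_mul, map_mul, H27.sp_mul_mulVec, tb_inv (ρ g), tb_inv (ρ g), ← map_inv, h1,
        h3]
      simp only [tb_add_l, tb_add_r, tb_smul_l, tb_smul_r, tb_self, hp, hba]
      ring
  have := tb_transfer h.perfect (S := S) (Nat.odd_iff.2 (by
    have := S.not_dvd_index; omega)) φ (tb_sq h hs) (a := Multiplicative.ofAdd 1) fun g hg => by
      obtain ⟨k, hk⟩ := aff _ hg _ (DT.smul_mem ha g) (tb_conj hs g)
      have h1 : ff e ((ρ g).1 *ᵥ a) = 1 := by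
        rw [hk, tb_add_r, tb_smul_r, he1, he2, mul_zero, add_zero]
      change Multiplicative.ofAdd (ff ((ρ (g * s * g⁻¹)).1 *ᵥ e) e) = _
      rw [tb_conj hs, tb_T, h1, one_smul, tb_add_l, tb_self, zero_add, ff_comm h2, h1]
  exact one_ne_zero (ofAdd_eq_one.1 this)

end Cfsg.Agent.DIM4
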