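import Cfsg.Agent.DIM4.Stab
import Cfsg.Agent.H98.Descent
import Cfsg.Agent.H98.Burnside
import Cfsg.Agent.S0205
import Cfsg.Agent.S0215

/-! Irreducibility of the perfect core on `W`; `-1 ∈ P`; traces. -/

set_option autoImplicit false
set_option linter.unusedSectionVars false

namespace Cfsg.Agent.DIM4

open Matrix Module
open scoped commutatorElement

variable {F : Type*} [Field F] [Finite F] {H P : Subgroup (G4 F)}

omit [Finite F] in
theorem mem_scalars_sp {g : G4 F} (hg : g ∈ Cfsg.spGL 2 F) :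
    g ∈ Cfsg.Geo.scalars I4 F ↔ g = 1 ∨ g = -1 := by
  rw [Cfsg.Geo.mem_scalars_iff]
  refine ⟨fun ⟨c, hc⟩ => pm_of_comm hg fun v _ => by simp [hc], ?_⟩
  rintro (rfl | rfl)
  exacts [⟨1, by simp⟩, ⟨-1, by simp⟩]

omit [Finite F] in
theorem Res.le_sp (h : Res H P) : P ≤ Cfsg.spGL 2 F := h.core.le.trans h.max.1.le

omit [Finite F] in
theorem Res.mem_ZP (h : Res H P) {g : P} : g ∈ ZP P ↔ (g : G4 F) = 1 ∨ (g : G4 F) = -1 :=
  Subgroup.mem_subgroupOf.trans (mem_scalars_sp (h.le_sp g.2))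

omit [Finite F] in
theorem Res.not_sp_le (h : Res H P) : ¬ Cfsg.spGL 2 F ≤ P := fun e =>
  h.max.1.not_ge (e.trans h.core.le)

omit [Finite F] in
theorem Res.eq_of_map (h : Res H P) {N : Subgroup (G4 F)} (hN : N ≤ P)
    (hs : ∀ g ∈ P, g ∈ N ∨ -g ∈ N) : N = P := by
  refine le_antisymm hN (h.core.perfect.ge.trans (Subgroup.commutator_le.2 fun g hg k hk => ?_))
  have key : ∀ g ∈ N, ∀ k ∈ N, ⁅g, k⁆ ∈ N := fun g hg k hk =>
    N.mul_mem (N.mul_mem (N.mul_mem hg hk) (N.inv_mem hg)) (N.inv_mem hk)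
  rcases hs g hg with a | a <;> rcases hs k hk with b | b <;>
    simpa [commutatorElement_def, inv_neg] using key _ a _ b

omit [Finite F] in
theorem Res.eq_of_normal (h : Res H P) {N : Subgroup (G4 F)} (hN : N ≤ P)
    (hn : ∀ g ∈ P, ∀ x ∈ N, g * x * g⁻¹ ∈ N) {x : G4 F} (hx : x ∈ N) (h1 : x ≠ 1) (h2 : x ≠ -1) :
    N = P := by
  have hs := h.core.simple
  have hnn : (N.subgroupOf P).Normal := ⟨fun y hy g => hn g g.2 y hy⟩
  rcases (hnn.map _ (QuotientGroup.mk'_surjective (ZP P))).eq_bot_or_eq_top with e | e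
  · have : QuotientGroup.mk' (ZP P) ⟨x, hN hx⟩ ∈ (⊥ : Subgroup _) := e ▸ ⟨_, hx, rfl⟩
    rw [Subgroup.mem_bot, QuotientGroup.mk'_apply, QuotientGroup.eq_one_iff, h.mem_ZP] at this
    exact (this.elim h1 h2).elim
  · refine h.eq_of_map hN fun g hg => ?_
    obtain ⟨n, hn, e'⟩ : QuotientGroup.mk' (ZP P) ⟨g, hg⟩ ∈ _ := e ▸ Subgroup.mem_top _
    rw [QuotientGroup.mk'_apply, QuotientGroup.mk'_apply, QuotientGroup.eq, h.mem_ZP] at e'
    refine e'.imp (fun e => ?_) fun e => ?_
    · rw [← show (n : G4 F) = g from inv_mul_eq_one.1 e]; exact hn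
    · rw [show g = (n : G4 F) * -1 from inv_mul_eq_iff_eq_mul.1 e, mul_neg, neg_neg, mul_one]
      exact hn

omit [Finite F] in
theorem irr_conj_eq_iff {g : G4 F} {a b : M4 F} :
    (g : M4 F) * a * ((g⁻¹ : G4 F) : M4 F) = b ↔ (g : M4 F) * a = b * g := by
  rw [Units.mul_inv_eq_iff_eq_mul]

omit [Finite F] in
theorem Res.scalar_of_semi (h : Res H P) {a : M4 F} (ha : a ≠ 0)
    (hs : ∀ g ∈ P, ∃ c : F, (g : M4 F) * a * ((g⁻¹ : G4 F) : M4 F) = c • a) :
    ∃ c : F, a = c • (1 : M4 F) := by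
  have _ := ha
  let C : Subgroup (G4 F) :=
    { carrier := {g | (g : M4 F) * a = a * g}
      one_mem' := by simp
      mul_mem' := fun {g k} hg hk => by
        change _ = _ at hg hk ⊢
        rw [Units.val_mul, Matrix.mul_assoc, hk, ← Matrix.mul_assoc, hg, Matrix.mul_assoc]
      inv_mem' := fun {g} hg => by
        change _ = _ at hg ⊢
        rw [Units.inv_mul_eq_iff_eq_mul, ← Matrix.mul_assoc, hg, Units.mul_inv_cancel_right] }
  have hC : P ≤ C := h.core.perfect.ge.trans (Subgroup.commutator_le.2 fun g hg k hk => by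
    obtain ⟨c, hc⟩ := hs _ (P.inv_mem hg)
    obtain ⟨d, hd⟩ := hs _ (P.inv_mem hk)
    rw [irr_conj_eq_iff] at hc hd
    have e : ∀ {x y : G4 F} {c d : F}, (x : M4 F) * a = c • a * x → (y : M4 F) * a = d • a * y →
        ((x * y : G4 F) : M4 F) * a = (c * d) • a * (x * y : G4 F) := fun {x y c d} hx hy => by
      rw [Units.val_mul, Matrix.mul_assoc, hy, Matrix.smul_mul, Matrix.mul_smul,
        ← Matrix.mul_assoc, hx]
      simp only [Matrix.smul_mul, smul_smul, Matrix.mul_assoc, mul_comm]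
    have e1 := e hc hd
    have e2 := e hd hc
    rw [mul_comm, ← irr_conj_eq_iff, ← irr_conj_eq_iff.2 e1] at e2
    change ((g * k * g⁻¹ * k⁻¹ : G4 F) : M4 F) * a = a * (g * k * g⁻¹ * k⁻¹ : G4 F)
    rw [← irr_conj_eq_iff, show g * k * g⁻¹ * k⁻¹ = (k⁻¹ * g⁻¹)⁻¹ * (g⁻¹ * k⁻¹) by group,
      conj_conj, ← e2, ← conj_conj]
    simp)
  exact h.core.absIrred.2 a (by rintro _ ⟨g, hg, rfl⟩; exact (hC hg).symm)

omit [Finite F] in
theorem Res.irr_iso (h : Res H P) {T : Submodule F (M4 F)} (hT : T ≤ Wsp F)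
    (hi : ∀ g ∈ P, ∀ v ∈ T, (g : M4 F) * v * ((g⁻¹ : G4 F) : M4 F) ∈ T)
    (h0 : ∀ u ∈ T, ∀ v ∈ T, bW u v = 0) : T = ⊥ := by
  classical
  have key : ∀ s : Finset (M4 F), (∀ r ∈ s, r ∈ T) → ∃ x : I4 → F, x ≠ 0 ∧ ∀ r ∈ s, r *ᵥ x = 0 := by
    intro s
    induction s using Finset.induction_on with
    | empty => exact fun _ => ⟨1, one_ne_zero, by simp⟩
    | insert r s _ ih =>
      intro hs
      have hr := hs r (Finset.mem_insert_self _ _)
      obtain ⟨x, hx, hx'⟩ := ih fun t ht => hs t (Finset.mem_insert_of_mem ht)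
      by_cases e : r *ᵥ x = 0
      · exact ⟨x, hx, fun t ht => (Finset.mem_insert.1 ht).elim (fun e' => e' ▸ e) (hx' t)⟩
      · refine ⟨_, e, fun t ht => ?_⟩
        rw [mulVec_mulVec]
        rcases Finset.mem_insert.1 ht with rfl | ht'
        · have := h0 t hr t hr
          rw [bW_self h.two] at this
          rw [mul_self h.two (hT hr), (mul_eq_zero.1 this).resolve_left h.two, zero_smul,
            zero_mulVec]
        · rw [anti_of_perp h.two (hT hr) (hT (hs t ht)) (h0 _ hr _ (hs t ht)), neg_mulVec,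
            ← mulVec_mulVec, hx' t ht', mulVec_zero, neg_zero]
  obtain ⟨s, rfl⟩ : T.FG := IsNoetherian.noetherian T
  obtain ⟨x, hx, hx'⟩ := key s fun r hr => Submodule.subset_span hr
  let K : Submodule F (I4 → F) :=
    { carrier := {y | ∀ r ∈ Submodule.span F (s : Set (M4 F)), r *ᵥ y = 0}
      add_mem' := fun ha hb r hr => by rw [mulVec_add, ha r hr, hb r hr, add_zero]
      zero_mem' := fun r _ => mulVec_zero r
      smul_mem' := fun c y hy r hr => by rw [mulVec_smul, hy r hr, smul_zero] }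
  rcases h.core.absIrred.1 K (by
    rintro _ ⟨g, hg, rfl⟩ _ ⟨y, hy, rfl⟩ r hr
    have := congrArg ((g : M4 F) *ᵥ ·) (hy _ (hi _ (P.inv_mem hg) r hr))
    simpa [mulVec_mulVec, ← Matrix.mul_assoc] using this) with e | e
  · refine absurd ((Submodule.eq_bot_iff _).1 e x fun r hr => ?_) hx
    induction hr using Submodule.span_induction with
    | mem r hr => exact hx' r hr
    | zero => exact zero_mulVec _
    | add a b _ _ ha hb => rw [add_mulVec, ha, hb, add_zero]
    | smul c a _ ha => rw [smul_mulVec, ha, smul_zero]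
  · refine (Submodule.eq_bot_iff _).2 fun r hr => Matrix.toLin'.injective (LinearMap.ext fun y => ?_)
    rw [toLin'_apply, (e ▸ Submodule.mem_top : y ∈ K) r hr, map_zero, LinearMap.zero_apply]

omit [Finite F] in
theorem Res.irr_small (h : Res H P) {T : Submodule F (M4 F)} (hT : T ≤ Wsp F)
    (hi : ∀ g ∈ P, ∀ v ∈ T, (g : M4 F) * v * ((g⁻¹ : G4 F) : M4 F) ∈ T)
    (h2 : finrank F T ≤ 2) : T = ⊥ := by
  have z : ∀ {a : M4 F}, a.trace = 0 →
      (∀ g ∈ P, ∃ c : F, (g : M4 F) * a * ((g⁻¹ : G4 F) : M4 F) = c • a) → a = 0 := by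
    intro a ha hs
    by_contra e
    obtain ⟨c, hc⟩ := h.scalar_of_semi e hs
    exact e (eq_zero_of_scalar h.two ha hc)
  rcases h2.eq_or_lt with h2 | h2
  · let B := finBasisOfFinrankEq F T h2
    have hB : ∀ v ∈ T, ∃ α β : F, v = α • (B 0 : M4 F) + β • (B 1 : M4 F) := fun v hv =>
      ⟨_, _, (congrArg Subtype.val ((Fin.sum_univ_two _).symm.trans (B.sum_repr ⟨v, hv⟩))).symm⟩
    have hL : ∀ α β : F, α • (B 0 : M4 F) + β • (B 1 : M4 F) = 0 → α = 0 ∧ β = 0 := fun α β e =>
      LinearIndependent.pair_iff.1 (show LinearIndependent F ![B 0, B 1] by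
        convert B.linearIndependent using 1
        ext i : 1; fin_cases i <;> rfl) α β (Subtype.ext e)
    have ha := (B 0).2
    have hb := (B 1).2
    generalize (B 0 : M4 F) = a at *
    generalize (B 1 : M4 F) = b at *
    have hc : a * b - b * a = 0 := z (by rw [trace_sub, trace_mul_comm, sub_self]) fun g hg => by
      obtain ⟨α, β, e1⟩ := hB _ (hi g hg a ha)
      obtain ⟨γ, δ, e2⟩ := hB _ (hi g hg b hb)
      refine ⟨α * δ - β * γ, ?_⟩
      rw [Matrix.mul_sub, Matrix.sub_mul, ← conj_mul, ← conj_mul, e1, e2]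
      simp only [Matrix.add_mul, Matrix.mul_add, Matrix.smul_mul, Matrix.mul_smul]
      module
    have h3 : (2 : F) • (a * b) = bW a b • (1 : M4 F) := by
      rw [← anti h.two (hT ha) (hT hb), ← sub_eq_zero.1 hc, two_smul]
    have h4 := hL (bW a b) (-(2 * qW a)) (by
      have := congrArg (a * ·) h3
      simp only [Matrix.mul_smul, ← Matrix.mul_assoc, mul_self h.two (hT ha), Matrix.smul_mul,
        Matrix.one_mul, Matrix.mul_one] at this
      rw [← this]; module)
    have h5 := hL (-(2 * qW b)) (bW a b) (by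
      have := congrArg (· * b) h3
      simp only [Matrix.mul_smul, Matrix.mul_assoc, mul_self h.two (hT hb), Matrix.smul_mul,
        Matrix.one_mul, Matrix.mul_one] at this
      rw [← this]; module)
    refine h.irr_iso hT hi fun u hu v hv => ?_
    obtain ⟨α, β, rfl⟩ := hB u hu
    obtain ⟨γ, δ, rfl⟩ := hB v hv
    simp only [bW_add_left, bW_add_right, bW_smul_left, bW_smul_right, bW_self h.two, bW_comm b a,
      h4.1, neg_eq_zero.1 h4.2, neg_eq_zero.1 h5.1, mul_zero, add_zero]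
  · obtain ⟨a, ha⟩ := finrank_le_one_iff.1 (Nat.lt_succ_iff.1 h2)
    have h0 : (a : M4 F) = 0 := z (hT a.2).2 fun g hg =>
      let ⟨c, hc⟩ := ha ⟨_, hi g hg a a.2⟩; ⟨c, (congrArg Subtype.val hc).symm⟩
    refine (Submodule.eq_bot_iff _).2 fun v hv => ?_
    obtain ⟨c, hc⟩ := ha ⟨v, hv⟩
    simpa [h0] using (congrArg Subtype.val hc).symm

omit [Finite F] in
theorem Res.W_irr (h : Res H P) {T : Submodule F (M4 F)} (hT : T ≤ Wsp F)
    (hi : ∀ g ∈ P, ∀ v ∈ T, (g : M4 F) * v * ((g⁻¹ : G4 F) : M4 F) ∈ T) :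
    T = ⊥ ∨ T = Wsp F := by
  by_cases h2 : finrank F T ≤ 2
  · exact Or.inl (h.irr_small hT hi h2)
  let B : LinearMap.BilinForm F (Wsp F) := LinearMap.BilinForm.restrict (bL F) (Wsp F)
  have hB : B.Nondegenerate :=
    ⟨fun v hv => Subtype.ext (eq_zero_of_perp h.two v.2 fun w hw => hv ⟨w, hw⟩),
      fun v hv => Subtype.ext (eq_zero_of_perp h.two v.2 fun w hw =>
        (bW_comm _ _).trans (hv ⟨w, hw⟩))⟩
  have h3 := LinearMap.BilinForm.finrank_orthogonal hB (T.comap (Wsp F).subtype)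
  rw [(Submodule.comapSubtypeEquivOfLe hT).finrank_eq, finrank_Wsp h.two,
    ← Submodule.finrank_map_subtype_eq] at h3
  have h4 := h.irr_small (T := (B.orthogonal (T.comap (Wsp F).subtype)).map (Wsp F).subtype)
    (Submodule.map_subtype_le _ _) (by
      rintro g hg _ ⟨v, hv, rfl⟩
      refine ⟨⟨_, conj_mem_W (h.le_sp hg) v.2⟩, fun t ht => ?_, rfl⟩
      have := hv ⟨_, conj_mem_W (h.le_sp (P.inv_mem hg)) t.2⟩ (hi _ (P.inv_mem hg) t ht)
      change bW (_ * (t : M4 F) * _) (v : M4 F) = 0 at this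
      change bW (t : M4 F) (_ * (v : M4 F) * _) = 0
      rw [← bW_conj g, ← conj_conj] at this
      simpa using this) (by omega)
  rw [h4, finrank_bot] at h3
  exact Or.inr (Submodule.eq_of_le_of_finrank_le hT (by rw [finrank_Wsp h.two]; omega))

theorem Res.std (h : Res H P) : Std P := by
  refine ⟨h.two, h.le_sp, by_contra fun hn => ?_⟩
  have : Fact (Nat.Prime 2) := ⟨Nat.prime_two⟩
  have hs := h.core.simple
  have he : 2 ∣ Nat.card P := by
    by_contra ho
    have := S0205.result (Nat.odd_iff.2 (by omega) : Odd (Nat.card P))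
    exact h.core.nonabelian ⟨⟨IsSimpleGroup.comm_iff_isSolvable.2 inferInstance⟩⟩
  obtain ⟨S⟩ : Nonempty (Sylow 2 P) := inferInstance
  have hS : Nontrivial (S : Subgroup P) := (Subgroup.nontrivial_iff_ne_bot _).2 (S.ne_bot_of_dvd_card he)
  have hZ := S.isPGroup'.center_nontrivial
  obtain ⟨z, hz⟩ := exists_prime_orderOf_dvd_card' (G := Subgroup.center (S : Subgroup P)) 2 (by
    obtain ⟨k, hk, e⟩ := (S.isPGroup'.to_subgroup _).nontrivial_iff_card.1 hZ
    rw [e]; exact dvd_pow_self 2 hk.ne')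
  rw [← Subgroup.orderOf_coe, ← Subgroup.orderOf_coe] at hz
  have hW : ∀ y : P, orderOf y = 2 → ((y : G4 F) : M4 F) ∈ Wsp F ∧ ((y : G4 F) : M4 F) * (y : G4 F) = 1 := by
    intro y hy
    have e : ((y : G4 F) : M4 F) * (y : G4 F) = 1 := by
      have := pow_orderOf_eq_one y
      rw [hy] at this
      rw [← Units.val_mul, ← Subgroup.coe_mul, ← pow_two, this]; rfl
    refine ⟨mem_W_of_invol h.two (mem_spGL_iff.1 (h.le_sp y.2)) e (fun e1 => ?_) fun e1 => ?_, e⟩
    · rw [show y = 1 from Subtype.ext (Units.ext e1), orderOf_one] at hy; omega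
    · exact hn ((show (y : G4 F) = -1 from Units.ext e1) ▸ y.2)
  obtain ⟨N, hN, ho, hc⟩ := S0215.result S _ hz z.1.2 fun g hg => by
    have h1 := congrArg (fun x : (S : Subgroup P) => (((x : P) : G4 F) : M4 F))
      (Subgroup.mem_center_iff.1 z.2 ⟨_, hg⟩)
    have h2 := hW (g * z.1.1 * g⁻¹) 
      ((SemiconjBy.orderOf_eq g⁻¹ (by simp [SemiconjBy, mul_assoc])).trans hz)
    have h3 := hW _ hz
    generalize g * z.1.1 * g⁻¹ = y at *
    simp only [Subgroup.coe_mul, Units.val_mul] at h1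
    have h4 := congrArg (· * ((z.1.1 : G4 F) : M4 F)) (anti h.two h2.1 h3.1)
    simp only [← h1, Matrix.add_mul, Matrix.mul_assoc, h3.2, Matrix.mul_one, Matrix.smul_mul,
      Matrix.one_mul] at h4
    obtain ⟨c, hc⟩ : ∃ c : F, ((y : G4 F) : M4 F) = c • ((z.1.1 : G4 F) : M4 F) :=
      ⟨bW _ _ / 2, smul_right_injective _ h.two (by
        change (2 : F) • _ = (2 : F) • _
        rw [two_smul, h4, smul_smul, mul_div_cancel₀ _ h.two])⟩
    have h5 := h2.2
    rw [hc, Matrix.smul_mul, Matrix.mul_smul, h3.2, smul_smul] at h5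
    have h6 : c * c = 1 := by simpa using congrFun (congrFun h5 (.inl 0)) (.inl 0)
    rcases mul_self_eq_one_iff.1 h6 with rfl | rfl
    · exact Subtype.ext (Units.ext (by simpa using hc))
    · refine absurd (?_ : (-1 : G4 F) ∈ P) hn
      rw [show (-1 : G4 F) = y * z.1.1 from Units.ext (by simp [hc, h3.2])]
      exact P.mul_mem y.2 z.1.1.2
  by_cases h0 : N = ⊥
  · obtain ⟨c, hc'⟩ := h.core.absIrred.2 ((z.1.1 : G4 F) : M4 F) (by
      rintro _ ⟨g, hg, rfl⟩
      have := hc ⟨g, hg⟩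
      rw [h0, Subgroup.mem_bot, mul_inv_eq_one, mul_inv_eq_iff_eq_mul] at this
      exact congrArg (fun x : P => ((x : G4 F) : M4 F)) this)
    have := (hW _ hz).2
    rw [eq_zero_of_scalar h.two (hW _ hz).1.2 hc', Matrix.zero_mul] at this
    exact zero_ne_one this
  · obtain ⟨x, hx, hx1⟩ := (N.bot_or_exists_ne_one).resolve_left h0
    have e := h.eq_of_normal (N := N.map P.subtype) (Subgroup.map_subtype_le _)
      (by rintro g hg _ ⟨y, hy, rfl⟩; exact ⟨_, hN.conj_mem y hy ⟨g, hg⟩, rfl⟩) ⟨x, hx, rfl⟩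
      (fun e => hx1 (Subtype.ext e)) fun e => hn (e ▸ x.2)
    rw [← e, Subgroup.card_map_of_injective P.subtype_injective] at he
    exact (Nat.not_even_iff_odd.2 ho) (even_iff_two_dvd.2 he)

theorem Res.grp_eq (h : Res H P) {D : Set (M4 F)} (hD : D ⊆ Rt P) (hne : D.Nonempty)
    (hi : ∀ g ∈ P, ∀ x ∈ D, (g : M4 F) * x * ((g⁻¹ : G4 F) : M4 F) ∈ D) : grp D = P := by
  obtain ⟨x, hx⟩ := hne
  obtain ⟨hW, -, g, -, rfl⟩ := hD hx
  have h4 := four_ne h.two
  refine h.eq_of_normal ((Subgroup.closure_le _).2 fun k hk => ?_) (fun k hk y hy => ?_)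
    (Subgroup.subset_closure hx) (fun e => ?_) fun e => ?_
  · obtain ⟨k', hk', e⟩ := (hD hk).2.2
    exact Units.ext e ▸ hk'
  · induction hy using Subgroup.closure_induction with
    | mem y hy => exact Subgroup.subset_closure (hi k hk _ hy)
    | one => simp
    | mul a b _ _ ha hb => simpa [mul_assoc] using Subgroup.mul_mem _ ha hb
    | inv a _ ha => simpa [mul_assoc] using Subgroup.inv_mem _ ha
  · exact h4 (by simpa [e] using hW.2)
  · exact h4 (by simpa [e] using hW.2)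

theorem Res.conn (h : Res H P) {D : Set (M4 F)} (hD : D ⊆ Rt P) (hne : D.Nonempty)
    (hi : ∀ g ∈ P, ∀ x ∈ D, (g : M4 F) * x * ((g⁻¹ : G4 F) : M4 F) ∈ D) : Conn D := by
  rintro T hT ⟨x, hx, hxT⟩
  have gen : ∀ g : G4 F, (g : M4 F) ∈ D → ∀ v ∈ T ⊓ Wsp F, (g : M4 F) * v * g ∈ T ⊓ Wsp F := by
    intro g hg v hv
    rw [sandwich h.two (hD hg).1 hv.2, qW_eq_one h.two (hD hg).2.1, one_smul]
    exact ⟨sub_mem (hT _ hg v hv.1) hv.1, sub_mem (Submodule.smul_mem _ _ (hD hg).1) hv.2⟩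
  have inv : ∀ g : G4 F, (g : M4 F) ∈ D → g⁻¹ = g := fun g hg =>
    inv_eq_of_mul_eq_one_right (Units.ext (hD hg).2.1)
  rcases h.W_irr (T := T ⊓ Wsp F) inf_le_right (fun g hg => by
    rw [← h.grp_eq hD hne hi] at hg
    induction hg using Subgroup.closure_induction'' with
    | mem g hg => rw [inv g hg]; exact gen g hg
    | inv_mem g hg => rw [inv g hg, inv g hg]; exact gen g hg
    | one => simp
    | mul a b _ _ ha hb => exact fun v hv => conj_conj a b v ▸ ha _ (hb v hv)) with e | e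
  · exact absurd ((Submodule.eq_bot_iff _).1 e x ⟨hxT, (hD hx).1⟩) (h.std.rs.ne_zero (hD hx))
  · exact e ▸ inf_le_left

theorem Res.trace_top (h : Res H P) {K : Subfield F} (hK : ∀ g ∈ P, (g : M4 F).trace ∈ K) :
    K = ⊤ := by_contra fun e => h.core.no_subfield K e
  (H98.realisable_of_trace (H98.grpAlg_eq_top_of_absIrr h.core.absIrred) K hK)

theorem Res.card_le_of_trace (h : Res H P) {p n : ℕ} [Fact p.Prime] [CharP F p] (hn : 0 < n)
    (hK : ∀ g ∈ P, (g : M4 F).trace ^ p ^ n = (g : M4 F).trace) : Nat.card F ≤ p ^ n := by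
  classical
  have := Fintype.ofFinite F
  have e := h.trace_top (K := RingHom.eqLocusField (iterateFrobenius F p n) (RingHom.id F)) hK
  have hp : 1 < p := (Fact.out : p.Prime).one_lt
  rw [Nat.card_eq_fintype_card, ← FiniteField.X_pow_card_pow_sub_X_natDegree_eq F hn.ne' hp]
  refine Polynomial.card_le_degree_of_subset_roots (Z := Finset.univ) fun x _ => ?_
  rw [Polynomial.mem_roots (FiniteField.X_pow_card_pow_sub_X_ne_zero F hn.ne' hp)]
  have : x ^ p ^ n = x := (e ▸ Subfield.mem_top x :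
    x ∈ RingHom.eqLocusField (iterateFrobenius F p n) (RingHom.id F))
  simp [this]

omit [Finite F] in
open Polynomial in
theorem trace_pow_char {ι : Type*} [Fintype ι] [DecidableEq ι] (p : ℕ) [Fact p.Prime] [CharP F p]
    (A : Matrix ι ι F) (n : ℕ) : (A ^ p ^ n).trace = A.trace ^ p ^ n := by
  have hp : p.Prime := Fact.out
  cases isEmpty_or_nonempty ι
  · simp [Matrix.trace, hp.ne_zero]
  have key : ∀ M : Matrix ι ι F, (M ^ p).trace = M.trace ^ p := fun M => by
    have e : (M ^ p).charpoly = M.charpoly.map (frobenius F p) := by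
      apply expand_injective hp.pos
      rw [← map_expand, map_frobenius_expand]
      unfold charpoly
      rw [AlgHom.map_det, ← coe_detMonoidHom, ← (detMonoidHom : Matrix ι ι F[X] →* F[X]).map_pow]
      apply congr_arg detMonoidHom
      refine matPolyEquiv.injective ?_
      rw [map_pow, matPolyEquiv_charmatrix, sub_pow_char_of_commute, ← C_pow]
      · exact (id (matPolyEquiv_eq_X_pow_sub_C p M) :)
      · exact (C M).commute_X
    rw [trace_eq_neg_charpoly_coeff, trace_eq_neg_charpoly_coeff, e, coeff_map, ← map_neg,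
      frobenius_def]
  induction n with
  | zero => simp
  | succ n ih => rw [pow_succ, pow_mul, pow_mul, key, ih]

theorem Res.not_dim4 (h : Res H P) {a b c : M4 F}
    (hs : ∀ g ∈ P, (g : M4 F) ∈ Submodule.span F {1, a, b, c}) : False := by
  have e : Submodule.span F (Set.range ![1, a, b, c]) = ⊤ := by
    refine top_le_iff.1 fun x _ => Submodule.span_le.2 ?_
      (H98.mem_grpAlg_iff.1 (H98.grpAlg_eq_top_of_absIrr h.core.absIrred ▸ Algebra.mem_top))
    rintro _ ⟨g, hg, rfl⟩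
    refine Submodule.span_mono ?_ (hs g hg)
    rintro _ (rfl | rfl | rfl | rfl)
    exacts [⟨0, rfl⟩, ⟨1, rfl⟩, ⟨2, rfl⟩, ⟨3, rfl⟩]
  have := finrank_range_le_card (R := F) ![1, a, b, c]
  rw [Set.finrank, e, finrank_top, finrank_matrix] at this
  simp at this

theorem Res.q3 (h : Res H P) {g k : G4 F} (hgen : Subgroup.closure {g, k} = P) {a b c : F}
    (ha : (g : M4 F) + ((g⁻¹ : G4 F) : M4 F) = a • 1)
    (hb : (k : M4 F) + ((k⁻¹ : G4 F) : M4 F) = b • 1)
    (hc : ((g * k : G4 F) : M4 F) + (((g * k)⁻¹ : G4 F) : M4 F) = c • 1) : False := by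
  set S := Submodule.span F {1, (g : M4 F), (k : M4 F), (g : M4 F) * k} with hS
  have m : ∀ α β γ δ : F, α • (1 : M4 F) + β • (g : M4 F) + γ • (k : M4 F) + δ • ((g : M4 F) * k) ∈ S :=
    fun α β γ δ => by
      refine add_mem (add_mem (add_mem ?_ ?_) ?_) ?_ <;>
        exact Submodule.smul_mem _ _ (Submodule.subset_span (by simp))
  have ig := eq_sub_of_add_eq' ha
  have ik := eq_sub_of_add_eq' hb
  have gg : (g : M4 F) * g = a • (g : M4 F) - 1 := by
    rw [← g.inv_mul, ig, Matrix.sub_mul, Matrix.smul_mul, Matrix.one_mul]; abel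
  have kk : (k : M4 F) * k = b • (k : M4 F) - 1 := by
    rw [← k.inv_mul, ik, Matrix.sub_mul, Matrix.smul_mul, Matrix.one_mul]; abel
  have kg : (k : M4 F) * g = (c - a * b) • (1 : M4 F) + b • (g : M4 F) + a • (k : M4 F) +
      (-1 : F) • ((g : M4 F) * k) := by
    rw [_root_.mul_inv_rev, Units.val_mul, Units.val_mul, ig, ik] at hc
    simp only [Matrix.sub_mul, Matrix.mul_sub, Matrix.smul_mul, Matrix.mul_smul, Matrix.one_mul,
      Matrix.mul_one] at hc
    linear_combination (norm := module) hc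
  have cl : ∀ x : M4 F, x ∈ S → x * g ∈ S → x * k ∈ S → x * (g * k) ∈ S → ∀ s ∈ S, x * s ∈ S := by
    intro x h1 h2 h3 h4 s hs
    refine (Submodule.span_le (p := S.comap (LinearMap.mulLeft F x))).2 ?_ hs
    rintro _ (rfl | rfl | rfl | rfl)
    exacts [by simpa using h1, h2, h3, h4]
  have cg : ∀ s ∈ S, (g : M4 F) * s ∈ S :=
    cl _ (by simpa using m 0 1 0 0) (by rw [gg]; convert m (-1) a 0 0 using 1; module)
      (by simpa using m 0 0 0 1) (by
        rw [← Matrix.mul_assoc, gg, Matrix.sub_mul, Matrix.smul_mul, Matrix.one_mul]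
        convert m 0 0 (-1) a using 1; module)
  have ck : ∀ s ∈ S, (k : M4 F) * s ∈ S :=
    cl _ (by simpa using m 0 0 1 0) (kg ▸ m _ _ _ _) (by rw [kk]; convert m (-1) 0 b 0 using 1; module)
      (by
        rw [← Matrix.mul_assoc, kg]
        simp only [Matrix.add_mul, Matrix.smul_mul, Matrix.one_mul, Matrix.mul_assoc, kk,
          Matrix.mul_sub, Matrix.mul_smul, Matrix.mul_one]
        convert m (-a) 1 c 0 using 1; module)
  refine h.not_dim4 (a := g) (b := k) (c := g * k) fun x hx => ?_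
  suffices ∀ s ∈ S, (x : M4 F) * s ∈ S by simpa using this 1 (by simpa using m 1 0 0 0)
  rw [← hgen] at hx
  induction hx using Subgroup.closure_induction'' with
  | mem x hx => rcases hx with rfl | rfl; exacts [cg, ck]
  | inv_mem x hx =>
    intro s hs
    rcases hx with rfl | rfl
    · rw [ig, Matrix.sub_mul, Matrix.smul_mul, Matrix.one_mul]
      exact sub_mem (Submodule.smul_mem _ _ hs) (cg s hs)
    · rw [ik, Matrix.sub_mul, Matrix.smul_mul, Matrix.one_mul]
      exact sub_mem (Submodule.smul_mem _ _ hs) (ck s hs)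
  | one => simp
  | mul x y _ _ hx hy => exact fun s hs => by rw [Units.val_mul, Matrix.mul_assoc]; exact hx _ (hy s hs)

end Cfsg.Agent.DIM4
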