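import Cfsg.Agent.DIM4.Irr
import Cfsg.Agent.DIM4.L27B
import Cfsg.Agent.H27.TvBasic

/-! `SL₂(7)` is not the perfect core of a maximal subgroup of `Sp₄(7)`. -/

set_option autoImplicit false

namespace Cfsg.Agent.DIM4

open Matrix

theorem L27.Rel.map {A B : Type*} [Ring A] [Ring B] (f : A →+* B) {u w t t' : A}
    (h : L27.Rel u w t t') : L27.Rel (f u) (f w) (f t) (f t') :=
  ⟨by rw [← map_mul, h.ww, map_neg, map_one], by simp only [← map_mul, h.rel, map_neg],
    by rw [← map_pow, ← map_mul, ← map_mul, h.tu], by rw [← map_pow, ← map_mul, ← map_mul, h.tu'],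
    by rw [← map_mul, h.tt, map_one], by rw [← map_mul, ← map_mul, h.wt]⟩

theorem exists_conj_zpowers {G : Type*} [Group G] [Finite G] {p : ℕ} [Fact p.Prime]
    (hG : ¬ p ^ 2 ∣ Nat.card G) {u v : G} (hu : orderOf u = p) (hv : v ^ p = 1) :
    ∃ g : G, ∃ k : ℕ, g * v * g⁻¹ = u ^ k := by
  obtain ⟨S, hS⟩ := (IsPGroup.of_card (p := p) (n := 1) (G := Subgroup.zpowers u)
    (by rw [Nat.card_zpowers, hu, pow_one])).exists_le_sylow
  obtain ⟨T, hT⟩ := (show IsPGroup p (Subgroup.zpowers v) from fun ⟨x, n, e⟩ => ⟨1, Subtype.ext (by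
    simp only [← e, pow_one, SubgroupClass.coe_pow, OneMemClass.coe_one]
    rw [← zpow_natCast, ← _root_.zpow_mul, mul_comm, _root_.zpow_mul, zpow_natCast, hv,
      _root_.one_zpow])⟩).exists_le_sylow
  obtain ⟨g, rfl⟩ := MulAction.exists_smul_eq G T S
  have e : Subgroup.zpowers u = (g • T : Sylow p G) := by
    refine Subgroup.eq_of_le_of_card_ge hS ?_
    obtain ⟨n, hn⟩ := IsPGroup.iff_card.1 (g • T).isPGroup'
    rw [hn, Nat.card_zpowers, hu]
    have : n ≤ 1 := by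
      by_contra! h
      exact hG ((pow_dvd_pow p h).trans (hn ▸ Subgroup.card_subgroup_dvd_card _))
    simpa using Nat.pow_le_pow_right (Fact.out : p.Prime).pos this
  have : g * v * g⁻¹ ∈ Subgroup.zpowers u :=
    e ▸ Subgroup.smul_mem_pointwise_smul v (MulAut.conj g) _ (hT (Subgroup.mem_zpowers v))
  obtain ⟨k, hk⟩ := mem_powers_iff_mem_zpowers.2 this
  exact ⟨g, k, hk.symm⟩

theorem adj_map {F F' : Type*} [Field F] [Field F'] (φ : F →+* F') (A : M4 F) :
    adj (φ.mapMatrix A) = φ.mapMatrix (adj A) := by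
  have : φ.mapMatrix (J (Fin 2) F) = J (Fin 2) F' := by
    ext (i | i) (j | j) <;> fin_cases i <;> fin_cases j <;> simp [J]
  rw [adj, adj, map_neg, map_mul, map_mul, this]
  rfl

variable {F : Type*} [Field F] [Finite F] {H P : Subgroup (G4 F)}

theorem Res.not_l27 (h : Res H P) (hF : Nat.card F = 7) {K : Type} [Field K] [Fintype K]
    (hK : Fintype.card K = 7) (e : P ⧸ ZP P ≃* Matrix.ProjectiveSpecialLinearGroup (Fin 2) K)
    (d : SL2Data P K) {a : K} (ha : ((d.X a : M4 F) - 1) ^ 3 ≠ 0) : False := by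
  have X0 : d.X 0 = 1 := by simpa using d.X_add 0 0
  have a0 : a ≠ 0 := by
    rintro rfl
    simp [X0] at ha
  have Xp : ∀ m : ℕ, d.X (m * a) = d.X a ^ m := fun m => by
    induction m with
    | zero => simpa using X0
    | succ m ih => rw [Nat.cast_succ, add_mul, one_mul, d.X_add, ih, pow_succ]
  have k7 : (7 : K) = 0 := by simpa [hK] using FiniteField.cast_card_eq_zero K
  have k2 : (2 : K) ≠ 0 := fun e => one_ne_zero (by linear_combination k7 - 3 * e : (1 : K) = 0)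
  have u7 : d.X a ^ 7 = 1 := by rw [← Xp, Nat.cast_ofNat, k7, zero_mul, X0]
  have a2 : 2 * a ≠ 0 := mul_ne_zero k2 a0
  have c1 := d.conjX a
  have c2 := d.conjX (2 * a)
  have s1 := d.w_sq a a0
  have s2 := d.w_sq _ a2
  have wP : d.X a * d.Y (-a⁻¹) * d.X a ∈ P :=
    P.mul_mem (P.mul_mem (d.X_mem _) (d.Y_mem _)) (d.X_mem _)
  generalize hw : d.X a * d.Y (-a⁻¹) * d.X a = w at c1 s1 wP
  generalize d.X (2 * a) * d.Y (-(2 * a)⁻¹) * d.X (2 * a) = w2 at c2 s2
  have i1 : w⁻¹ = -w := inv_eq_of_mul_eq_one_right (by rw [mul_neg, s1, neg_neg])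
  have i2 : w2⁻¹ = -w2 := inv_eq_of_mul_eq_one_right (by rw [mul_neg, s2, neg_neg])
  have R : L27.Rel (d.X a) w (w⁻¹ * w2) (w2⁻¹ * w) := by
    refine ⟨s1, ?_, ?_, ?_, by group, by rw [mul_inv_cancel_left, mul_assoc, s1, i2]; simp⟩
    · have := c1 a a0
      rw [show a⁻¹ ^ 2 * a = a⁻¹ by field_simp] at this
      rw [mul_assoc (d.X a) w, this, ← mul_assoc, mul_assoc _ w w, s1, mul_neg_one, neg_mul, hw]
    · have e1 := c1 ((2 : ℕ) * a) a0
      rw [show a⁻¹ ^ 2 * ((2 : ℕ) * a) = (2 * a)⁻¹ ^ 2 * a by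
        field_simp; push_cast; linear_combination k7, Xp] at e1
      rw [mul_assoc, c2 a a2, inv_mul_eq_iff_eq_mul, ← mul_assoc, e1]; group
    · have e1 := c2 ((4 : ℕ) * a) a2
      rw [show (2 * a)⁻¹ ^ 2 * ((4 : ℕ) * a) = a⁻¹ ^ 2 * a by field_simp; push_cast; ring, Xp] at e1
      rw [mul_assoc, c1 a a0, inv_mul_eq_iff_eq_mul, ← mul_assoc, e1]; group
  have XP : ∀ b, ∃ m : ℕ, d.X b = d.X a ^ m := fun b => by
    obtain ⟨x, hx⟩ := (ZMod.ringEquivOfPrime K (by norm_num) hK).surjective (b / a)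
    obtain ⟨m, rfl⟩ := ZMod.natCast_zmod_surjective x
    exact ⟨m, by rw [← Xp, ← map_natCast (ZMod.ringEquivOfPrime K (by norm_num) hK), hx,
      div_mul_cancel₀ _ a0]⟩
  have gen : P = Subgroup.closure {d.X a, w} := by
    refine le_antisymm ?_ ((Subgroup.closure_le _).2 (by
      rintro _ (rfl | rfl)
      exacts [d.X_mem _, wP]))
    have hu : d.X a ∈ Subgroup.closure {d.X a, w} := Subgroup.subset_closure (by simp)
    have hw : w ∈ Subgroup.closure {d.X a, w} := Subgroup.subset_closure (by simp)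
    have hX : ∀ b, d.X b ∈ Subgroup.closure {d.X a, w} := fun b => by
      obtain ⟨m, e⟩ := XP b
      exact e ▸ pow_mem hu m
    refine d.gen.ge.trans ((Subgroup.closure_le _).2 ?_)
    rintro _ (⟨b, rfl⟩ | ⟨b, rfl⟩)
    · exact hX b
    · have := c1 (-(a ^ 2 * b)) a0
      rw [show -(a⁻¹ ^ 2 * -(a ^ 2 * b)) = b by field_simp, ← mul_inv_eq_iff_eq_mul] at this
      exact this ▸ mul_mem (mul_mem hw (hX _)) (inv_mem hw)
  have card : ¬ 7 ^ 2 ∣ Nat.card P := by
    have h1 := H9.gcd_mul_card_psl_two (F := K)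
    obtain ⟨n, hn⟩ := IsPGroup.iff_card.1 (show IsPGroup 2 (ZP P) from fun x => ⟨1, by
      rcases h.mem_ZP.1 x.2 with e | e <;> exact Subtype.ext (Subtype.ext (by simp [e]))⟩)
    rw [hK] at h1
    rw [Subgroup.card_eq_card_quotient_mul_card_subgroup (ZP P), Nat.card_congr e.toEquiv, hn,
      show Nat.card (ProjectiveSpecialLinearGroup (Fin 2) K) = 168 by norm_num at h1; omega]
    intro hd
    exact absurd ((Nat.Coprime.pow 2 n (by norm_num)).dvd_of_dvd_mul_right hd) (by norm_num)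
  have syl : ∀ x ∈ H, ∃ p ∈ P, ∃ k : ℕ, p * x * d.X a * (p * x)⁻¹ = d.X a ^ k := by
    intro x hx
    obtain ⟨p, k, hk⟩ := exists_conj_zpowers card (u := ⟨d.X a, d.X_mem a⟩)
      (v := ⟨_, h.core.normal x hx _ (d.X_mem a)⟩)
      (orderOf_eq_prime (Subtype.ext u7) fun e => d.X_ne a a0 (congrArg Subtype.val e))
      (Subtype.ext (by simp [conj_pow, u7]))
    refine ⟨p, p.2, k, ?_⟩
    have := congrArg Subtype.val hk
    simp only [Subgroup.coe_mul, Subgroup.coe_inv, Subgroup.coe_pow] at this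
    rw [← this]; group
  have usp := h.le_sp (d.X_mem a)
  have wsp := h.le_sp wP
  generalize d.X a = u at *
  have := Fintype.ofFinite F
  let φ := ZMod.ringEquivOfPrime F (by norm_num) (Fintype.card_eq_nat_card.trans hF)
  let ψ : M4 F →+* M4 L27.F7 := (φ.symm : F →+* L27.F7).mapMatrix
  let E : G4 L27.F7 ≃* G4 F := Units.mapEquiv φ.mapMatrix.toMulEquiv
  have hψ : Function.Injective ψ := φ.symm.mapMatrix.injective
  have Eψ : ∀ x, ψ (E x : M4 F) = x := fun x => φ.mapMatrix.symm_apply_apply (x : M4 L27.F7)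
  have sp : ∀ x ∈ Cfsg.spGL 2 F, adj (ψ (x : M4 F)) * ψ (x : M4 F) = 1 := fun x hx => by
    rw [adj_map, ← map_mul, mem_spGL_iff.1 hx, map_one]
  have R' : L27.Rel (u : M4 F) w (w⁻¹ * w2 : G4 F) (w2⁻¹ * w : G4 F) :=
    ⟨congrArg Units.val R.ww, congrArg Units.val R.rel, by simpa using congrArg Units.val R.tu,
      by simpa using congrArg Units.val R.tu', congrArg Units.val R.tt, congrArg Units.val R.wt⟩
  obtain ⟨g, g1, g2⟩ := (R'.map ψ).exists_conj
    (by rw [← map_pow, ← Units.val_pow_eq_pow_val, u7, Units.val_one, map_one])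
    (by rw [← map_one ψ, ← map_sub, ← map_pow]; exact (map_ne_zero_iff ψ hψ).2 ha)
  let E' : G4 L27.F7 ≃* G4 F := (MulAut.conj g).trans E
  have ev : ∀ {x : G4 L27.F7} {y : G4 F}, ψ (y : M4 F) * g = g * x → E' x = y := fun {x y} k =>
    Units.ext (hψ (by
      change ψ (E (g * x * g⁻¹) : M4 F) = _
      rw [Eψ, Units.val_mul, Units.val_mul, ← k, Units.mul_inv_cancel_right]))
  have eu : E' L27.u0 = u := ev g1
  have ew : E' L27.w0 = w := ev g2
  have mP : ∀ x, x ∈ Subgroup.closure {L27.u0, L27.w0} ↔ E' x ∈ P := fun x => by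
    rw [gen, ← eu, ← ew, ← Set.image_pair, ← MonoidHom.coe_coe, ← MonoidHom.map_closure,
      Subgroup.mem_map_iff_mem E'.injective]
  have hsp : (Cfsg.spGL 2 F).comap (E' : G4 L27.F7 →* G4 F) = Cfsg.spGL 2 L27.F7 := by
    ext x
    rw [← L27.simil (sp u usp) (sp w wsp) g1 g2, Subgroup.mem_comap, mem_spGL_iff, mem_spGL_iff,
      ← hψ.eq_iff, map_mul, ← adj_map, map_one]
    change adj (ψ (E (g * x * g⁻¹) : M4 F)) * ψ (E (g * x * g⁻¹) : M4 F) = 1 ↔ _
    rw [Eψ]
  refine L27.explicit (hsp ▸ H27.isMaximalIn_comap E' h.max) (fun x hx y hy => ?_)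
    (fun x hx => h.core.le ((mP x).1 hx)) fun x hx => ?_
  · rw [mP, map_mul, map_mul, map_inv]
    exact h.core.normal _ hx _ ((mP y).1 hy)
  · obtain ⟨p, hp, k, hk⟩ := syl _ hx
    obtain ⟨p, rfl⟩ := E'.surjective p
    refine ⟨p, (mP p).2 hp, k, E'.injective ?_⟩
    simpa only [map_mul, map_inv, map_pow, eu, MonoidHom.coe_coe] using hk

theorem Res.l27_eq (h : Res H P) (hF : Nat.card F = 7) {K : Type} [Field K] [Fintype K]
    (hK : Fintype.card K = 7) (e : P ⧸ ZP P ≃* Matrix.ProjectiveSpecialLinearGroup (Fin 2) K)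
    (d : SL2Data P K) {a : K} (ha : ((d.X a : M4 F) - 1) ^ 3 ≠ 0) : H = P :=
  (h.not_l27 hF hK e d ha).elim

end Cfsg.Agent.DIM4
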