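import Cfsg.Agent.DIM4.UForm
import Cfsg.Agent.H27.SpGen

/-! Subgroups containing a full Eichler group. -/

set_option autoImplicit false

namespace Cfsg.Agent.DIM4

open Matrix

variable {F : Type*} [Field F] {G : Subgroup (G4 F)}

/-- All Eichler elements of `s` lie in `G`. -/
def FullE (G : Subgroup (G4 F)) (s : M4 F) : Prop :=
  ∀ v ∈ Wsp F, bW s v = 0 → InG G (1 + s * v)

theorem FullE.smul {s : M4 F} (h : FullE G s) (c : F) : FullE G (c • s) := by
  intro v hv hb
  by_cases c0 : c = 0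
  · simpa [c0] using InG.one
  · rw [bW_smul_left] at hb
    have := h (c • v) (Submodule.smul_mem _ _ hv)
      (by rw [bW_smul_right, (mul_eq_zero.1 hb).resolve_left c0, mul_zero])
    rwa [Matrix.mul_smul, ← Matrix.smul_mul] at this

theorem conj_one_add (g : G4 F) (s v : M4 F) :
    (g : M4 F) * (1 + s * v) * ((g⁻¹ : G4 F) : M4 F) =
      1 + (g : M4 F) * s * ((g⁻¹ : G4 F) : M4 F) * ((g : M4 F) * v * ((g⁻¹ : G4 F) : M4 F)) := by
  rw [conj_mul, Matrix.mul_add, Matrix.add_mul, Matrix.mul_one, Units.mul_inv]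

theorem conj_inv_conj (g : G4 F) (v : M4 F) :
    (g : M4 F) * (((g⁻¹ : G4 F) : M4 F) * v * ((g⁻¹⁻¹ : G4 F) : M4 F)) * ((g⁻¹ : G4 F) : M4 F) = v := by
  rw [inv_inv, ← Matrix.mul_assoc, ← Matrix.mul_assoc, Units.mul_inv, Matrix.one_mul,
    Matrix.mul_assoc, Units.mul_inv, Matrix.mul_one]

theorem FullE.conj (S : Std G) {s : M4 F} (h : FullE G s) {g : G4 F} (hg : g ∈ G) :
    FullE G ((g : M4 F) * s * ((g⁻¹ : G4 F) : M4 F)) := by
  intro v hv hb
  rw [← conj_inv_conj g v] at hb ⊢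
  rw [bW_conj] at hb
  rw [← conj_one_add]
  exact (h _ (conj_mem_W (inv_mem (S.le hg)) hv) hb).conj hg

theorem FullE.conj' (S : Std G) {s A B : M4 F} (h : FullE G s) (hA : InG G A) (hB : A * B = 1) :
    FullE G (A * s * B) := by
  obtain ⟨g, hg, rfl⟩ := hA
  rw [← Units.inv_eq_of_mul_eq_one_right hB]
  exact h.conj S hg

theorem bW_self_zero {s : M4 F} (hss : s * s = 0) : bW s s = 0 := by simp [bW, hss]

theorem qW_zero_of {s : M4 F} (hss : s * s = 0) : qW s = 0 := by simp [qW, hss]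

theorem FullE.eich (S : Std G) {s w v : M4 F} (hs : s ∈ Wsp F) (hss : s * s = 0) (h : FullE G s)
    (hw : w ∈ Wsp F) (h' : FullE G w) (hv : v ∈ Wsp F) (hb : bW s v = 0) :
    FullE G (w + (bW v w - bW s w * qW v) • s - bW s w • v) := by
  rw [← eich_conj S.two hs hss hv hw hb]
  exact h'.conj' S (h v hv hb) (by
    rw [eich_mul S.two hs hss hv hb, add_neg_cancel, Matrix.mul_zero, add_zero])

theorem FullE.move (S : Std G) {s s' w : M4 F} (hs : s ∈ Wsp F) (hss : s * s = 0) (h : FullE G s)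
    (hs' : s' ∈ Wsp F) (hss' : s' * s' = 0) (h' : FullE G s') (hb : bW s s' ≠ 0) (hw : w ∈ Wsp F)
    (hww : w * w = 0) (hc : bW s w ≠ 0) : FullE G w := by
  have := (h.eich S hs hss hs' h' (v := (bW s s')⁻¹ • s' - (bW s w)⁻¹ • w)
    (sub_mem (Submodule.smul_mem _ _ hs') (Submodule.smul_mem _ _ hw)) (by
      rw [bW_sub_right, bW_smul_right, bW_smul_right, inv_mul_cancel₀ hb, inv_mul_cancel₀ hc,
        sub_self])).smul (bW s w / bW s s')
  convert this using 1
  have e : qW ((bW s s')⁻¹ • s' - (bW s w)⁻¹ • w) = -((bW s s')⁻¹ * (bW s w)⁻¹ * bW w s') := by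
    rw [sub_eq_add_neg, ← neg_smul, qW_add S.two, qW_smul, qW_smul, qW_zero_of hss', qW_zero_of hww,
      bW_smul_left, bW_smul_right, bW_comm s' w]
    ring
  rw [e, bW_sub_left, bW_smul_left, bW_smul_left, bW_self_zero hss']
  match_scalars <;> field_simp <;> ring

theorem FullE.all (S : Std G) {s s' : M4 F} (hs : s ∈ Wsp F) (hss : s * s = 0) (h : FullE G s)
    (hs' : s' ∈ Wsp F) (hss' : s' * s' = 0) (h' : FullE G s') (hb : bW s s' ≠ 0) {w : M4 F}
    (hw : w ∈ Wsp F) (hww : w * w = 0) : FullE G w := by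
  by_cases c : bW s w = 0
  swap
  · exact h.move S hs hss hs' hss' h' hb hw hww c
  by_cases c' : bW s' w = 0
  swap
  · exact h'.move S hs' hss' hs hss h (by rwa [bW_comm]) hw hww c'
  by_cases w0 : w = 0
  · intro v _ _; simpa [w0] using InG.one
  obtain ⟨B, hB, b0⟩ : ∃ B ∈ Wsp F, bW w B ≠ 0 := by
    by_contra! hall
    exact w0 (eq_zero_of_perp S.two hw hall)
  have hv : B - (bW s B / bW s s') • s' ∈ Wsp F := sub_mem hB (Submodule.smul_mem _ _ hs')
  have sv : bW s (B - (bW s B / bW s s') • s') = 0 := by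
    rw [bW_sub_right, bW_smul_right]; field_simp; ring
  have vw : bW (B - (bW s B / bW s s') • s') w ≠ 0 := by
    rwa [bW_sub_left, bW_smul_left, c', mul_zero, sub_zero, bW_comm]
  generalize B - (bW s B / bW s s') • s' = v at hv sv vw
  refine (h.eich S hs hss hs' h' hv sv).move S
    (sub_mem (add_mem hs' (Submodule.smul_mem _ _ hs)) (Submodule.smul_mem _ _ hv)) ?_ hs hss h ?_
    hw hww ?_
  · rw [← eich_conj S.two hs hss hv hs' sv]
    have e : (1 + s * -v) * (1 + s * v) = 1 := by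
      rw [eich_mul S.two hs hss (neg_mem hv) (by rw [bW_neg_right, sv, neg_zero]), neg_add_cancel,
        Matrix.mul_zero, add_zero]
    calc _ = (1 + s * v) * (s' * ((1 + s * -v) * (1 + s * v)) * s') * (1 + s * -v) := by
          simp only [Matrix.mul_assoc]
      _ = 0 := by rw [e, Matrix.mul_one, hss', Matrix.mul_zero, Matrix.zero_mul]
  · rwa [bW_sub_left, bW_add_left, bW_smul_left, bW_smul_left, bW_self_zero hss, bW_comm v s, sv,
      mul_zero, mul_zero, add_zero, sub_zero, bW_comm]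
  · rw [bW_sub_left, bW_add_left, bW_smul_left, bW_smul_left, c, c', mul_zero, add_zero, zero_sub]
    exact neg_ne_zero.2 (mul_ne_zero hb vw)

theorem sp_le_of_full (S : Std G) (h : ∀ w ∈ Wsp F, w * w = 0 → FullE G w) :
    Cfsg.spGL 2 F ≤ G := by
  let N : Subgroup (Matrix.symplecticGroup (Fin 2) F) :=
    G.comap (Matrix.symplecticGroup (Fin 2) F).subtype.toHomUnits
  have hN : ∀ A, A ∈ N ↔ InG G A.1 := fun A =>
    ⟨fun h => ⟨_, h, rfl⟩, fun ⟨g, hg, e⟩ => by
      change _ ∈ G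
      convert hg using 1
      exact Units.ext e.symm⟩
  have top : N = ⊤ := by
    refine H27.sp_eq_top_of_spT_mem N fun w c => ?_
    by_cases w0 : w = 0
    · have : H27.spT w c = 1 := H27.sp_ext fun u => by simp [H27.spT_mulVec, w0]
      rw [this]; exact N.one_mem
    obtain ⟨A, hA⟩ := H27.sp_witt_family (u := fun _ : Unit => (Pi.single (.inl 0) 1 : I4 → F))
      (v := fun _ => w) (linearIndependent_unique_iff.2 (by simp))
      (linearIndependent_unique_iff.2 w0) (fun _ _ => by simp [H27.sympForm_self])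
    have e : (H27.spT (Pi.single (.inl 0) 1 : I4 → F) c).1 =
        1 + cl (Pi.single 1 1) * cl (Pi.single 3 (-c)) := by
      change 1 + _ = _
      congr 1
      ext (i | i) (j | j) <;> fin_cases i <;> fin_cases j <;>
        simp [cl_apply, Matrix.mul_apply, Fintype.sum_sum_type, vecMulVec_apply, J]
    let g : G4 F := (Matrix.symplecticGroup (Fin 2) F).subtype.toHomUnits A
    have hg : g ∈ Cfsg.spGL 2 F := fun u v => H27.sp_sympForm A u v
    rw [← hA (), ← H27.conj_spT, hN]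
    change InG G ((g : M4 F) * (H27.spT (Pi.single (.inl 0) 1 : I4 → F) c).1 *
      ((g⁻¹ : G4 F) : M4 F))
    rw [e, conj_one_add]
    refine h _ (conj_mem_W hg (cl_mem _)) ?_ _ (conj_mem_W hg (cl_mem _)) ?_
    · rw [conj_mul, mul_self S.two (cl_mem _), qW_cl S.two]; simp
    · rw [bW_conj, bW_cl S.two]; simp
  intro g hg
  obtain ⟨g', hg', e⟩ := (hN ⟨g, H27.mem_sp_iff.2 hg⟩).1 (top ▸ Subgroup.mem_top _)
  rwa [← Units.ext e]

theorem sp_le_of_eich (S : Std G) {s x : M4 F} (hs : s ∈ Wsp F) (hss : s * s = 0)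
    (hx : x ∈ Rt G) (hb : bW s x ≠ 0) (h : ∀ v ∈ Wsp F, bW s v = 0 → InG G (1 + s * v)) :
    Cfsg.spGL 2 F ≤ G := by
  have e : x * s * x = bW s x • x - s := by
    rw [sandwich S.two hx.1 hs, qW_eq_one S.two hx.2.1, one_smul]
  refine sp_le_of_full S fun w hw hww => FullE.all S hs hss h (s' := x * s * x)
    (e ▸ sub_mem (Submodule.smul_mem _ _ hx.1) hs) ?_ (FullE.conj' S h hx.2.2 hx.2.1) ?_ hw hww
  · calc _ = x * (s * (x * x) * s) * x := by simp only [Matrix.mul_assoc]
      _ = 0 := by rw [hx.2.1, Matrix.mul_one, hss, Matrix.mul_zero, Matrix.zero_mul]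
  · rw [e, bW_sub_right, bW_smul_right, bW_self_zero hss, sub_zero]
    exact mul_ne_zero hb hb

theorem sp_le_of_frame3 (S : Std G) (hF : ∀ a : F, a = 0 ∨ a = 1 ∨ a = -1)
    {x : Fin 5 → M4 F} (hx : Orth (Rt G) x)
    (h : ∀ (i : Fin 5) (ε : Fin 5 → F), ε i = 0 → (∀ j, j ≠ i → ε j = 1 ∨ ε j = -1) →
      ∑ j, ε j • x j ∈ Rt G) : Cfsg.spGL 2 F ≤ G := by
  have h2 := S.two
  have R := S.rs
  have h3 : (3 : F) = 0 := by
    rcases hF 2 with e | e | e
    · exact absurd e h2
    · exact absurd (by linear_combination e : (1 : F) = 0) one_ne_zero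
    · linear_combination e
  have W := fun i => (hx.1 i).1
  have bb : ∀ i j, bW (x i) (x j) = if i = j then 2 else 0 := fun i j => by
    split_ifs with e
    · rw [e, R.bW_self (hx.1 j)]
    · exact hx.2 i j e
  obtain ⟨s, hs⟩ : ∃ s, s = x 0 + x 1 + x 2 := ⟨_, rfl⟩
  have sW : s ∈ Wsp F := hs ▸ add_mem (add_mem (W 0) (W 1)) (W 2)
  have hss : s * s = 0 := by
    have : 2 * qW s = 0 := by
      rw [← bW_self h2, hs]
      simp [bW_add_left, bW_add_right, bb]
      linear_combination 2 * h3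
    rw [mul_self h2 sW, (mul_eq_zero.1 this).resolve_left h2, zero_smul]
  have key : ∀ u ∈ Rt G, s + u ∈ Rt G → bW s u = 0 → InY G s u := fun u hu hu' hb =>
    ⟨hu.1, hb, by
      have := hu'.2.2.mul hu.2.2
      rwa [Matrix.add_mul, hu.2.1, add_comm] at this⟩
  have sm : ∀ (a : F) v, InY G s v → InY G s (a • v) := fun a v hv => by
    rcases hF a with rfl | rfl | rfl
    · simpa using InY.zero
    · simpa using hv
    · simpa using hv.neg S sW hss
  have y0 : InY G s s := ⟨sW, bW_self_zero hss, by simpa [hss] using InG.one⟩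
  have y3 : InY G s (x 3) := key _ (hx.1 3) (by
    simpa [Fin.sum_univ_five, hs] using h 4 ![1, 1, 1, 1, 0] rfl
      (by intro j hj; fin_cases j <;> simp at hj ⊢)) (by simp [hs, bW_add_left, bb])
  have y4 : InY G s (x 4) := key _ (hx.1 4) (by
    simpa [Fin.sum_univ_five, hs] using h 3 ![1, 1, 1, 0, 1] rfl
      (by intro j hj; fin_cases j <;> simp at hj ⊢)) (by simp [hs, bW_add_left, bb])
  have yu : InY G s (x 0 - x 1 + x 3 + x 4) := key _ (by
    simpa [Fin.sum_univ_five, sub_eq_add_neg] using h 2 ![1, -1, 0, 1, 1] rfl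
      (by intro j hj; fin_cases j <;> simp at hj ⊢)) (by
    convert h 1 ![-1, 0, 1, 1, 1] rfl (by intro j hj; fin_cases j <;> simp at hj ⊢) using 1
    simp only [Fin.sum_univ_five, hs, cons_val]
    linear_combination (norm := module) h3 • x 0) (by
      simp [hs, bW_add_left, bW_add_right, bW_sub_right, bb])
  refine sp_le_of_eich S sW hss (hx.1 0) (by simpa [hs, bW_add_left, bb] using h2)
    fun v hv hb => ?_
  have e := hx.expand R hv
  rw [hs, bW_add_left, bW_add_left, bW_comm (x 0), bW_comm (x 1), bW_comm (x 2)] at hb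
  rw [Fin.sum_univ_five] at e
  generalize bW v (x 0) = a0, bW v (x 1) = a1, bW v (x 2) = a2, bW v (x 3) = a3,
    bW v (x 4) = a4 at e hb
  have := ((((sm (a2 / 2) _ y0).add S sW hss (sm ((a1 - a0) / 2) _ yu)).add S sW hss
    (sm ((a3 - a1 + a0) / 2) _ y3)).add S sW hss (sm ((a4 - a1 + a0) / 2) _ y4)).2.2
  convert this using 3
  rw [e, hs]
  match_scalars <;> field_simp
  · linear_combination -hb + a0 * h3
  · linear_combination -hb + a1 * h3
  all_goals ring

theorem Conn.exists_ne (h2 : (2 : F) ≠ 0) {D : Set (M4 F)} (hc : Conn D) (hne : D.Nonempty)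
    {s : M4 F} (hs : s ∈ Wsp F) (h0 : s ≠ 0) : ∃ x ∈ D, bW s x ≠ 0 := by
  by_contra! hall
  obtain ⟨x, hx⟩ := hne
  have := hc (LinearMap.ker (bL F s)) (fun x hx v _ => by
    simp [bW_smul_right, hall x hx]) ⟨x, hx, by simp [hall x hx]⟩
  exact h0 (eq_zero_of_perp h2 hs fun B hB => by simpa using this hB)

theorem Conn.mono (h2 : (2 : F) ≠ 0) {D D' : Set (M4 F)} (hc : Conn D) (hne : D.Nonempty)
    (hD : D ⊆ D') (hW : ∀ x ∈ D', x ∈ Wsp F ∧ x ≠ 0) : Conn D' := by
  rintro T hT ⟨x', hx', hxT⟩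
  obtain ⟨x, hx, hb⟩ := hc.exists_ne h2 hne (hW x' hx').1 (hW x' hx').2
  refine hc T (fun y hy => hT y (hD hy)) ⟨x, hx, ?_⟩
  exact (Submodule.smul_mem_iff _ hb).1 (hT x (hD hx) x' hxT)

end Cfsg.Agent.DIM4
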