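import Cfsg.Agent.DIM4.UForm
import Cfsg.Agent.DIM4.UFull
import Cfsg.Agent.DIM4.Stab
import Cfsg.Agent.H28.OmegaIndex

set_option autoImplicit false

namespace Cfsg.Agent.DIM4

open Matrix

variable {F : Type*} [Field F]

namespace Pla

/-- closed under the reflections in `D` -/
def Cld (D : Set (M4 F)) (T : Submodule F (M4 F)) : Prop := ∀ x ∈ D, ∀ v ∈ T, bW v x • x ∈ T

theorem Cld.mem {D : Set (M4 F)} {T : Submodule F (M4 F)} (h : Cld D T) {x v : M4 F} (hx : x ∈ D)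
    (hv : v ∈ T) (h0 : bW v x ≠ 0) : x ∈ T := (T.smul_mem_iff h0).1 (h x hx v hv)

/-- the smallest closed subspace containing `a` -/
def cmp (D : Set (M4 F)) (a : M4 F) : Submodule F (M4 F) := sInf {T | Cld D T ∧ a ∈ T}

theorem cld_cmp (D : Set (M4 F)) (a : M4 F) : Cld D (cmp D a) := fun x hx v hv =>
  Submodule.mem_sInf.2 fun T hT => hT.1 x hx v (Submodule.mem_sInf.1 hv T hT)

theorem mem_cmp (D : Set (M4 F)) (a : M4 F) : a ∈ cmp D a := Submodule.mem_sInf.2 fun _ hT => hT.2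

theorem Cld.or {D : Set (M4 F)} {T : Submodule F (M4 F)} (h : Cld D T) {a : M4 F} (ha : a ∈ D) :
    cmp D a ≤ T ∨ ∀ t ∈ cmp D a, ∀ v ∈ T, bW v t = 0 := by
  by_cases h1 : a ∈ T
  · exact Or.inl (sInf_le ⟨h, h1⟩)
  refine Or.inr fun t ht => (show cmp D a ≤ LinearMap.BilinForm.orthogonal (bL F) T from
    sInf_le ⟨fun x hx w hw v hv => ?_, fun v hv => ?_⟩) ht
  · change bW v (bW w x • x) = 0
    rw [bW_smul_right]
    by_cases h2 : bW v x = 0
    · rw [h2, mul_zero]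
    · rw [bW_comm w, show bW x w = 0 from hw x (h.mem hx hv h2), zero_mul]
  · by_contra h2
    exact h1 (h.mem ha hv h2)

/-- conjugation -/
def cg (g : G4 F) : M4 F →ₗ[F] M4 F where
  toFun v := (g : M4 F) * v * ((g⁻¹ : G4 F) : M4 F)
  map_add' u v := by rw [Matrix.mul_add, Matrix.add_mul]
  map_smul' c v := by rw [Matrix.mul_smul, Matrix.smul_mul]; rfl

theorem cg_inv (g : G4 F) (v : M4 F) : cg g (cg g⁻¹ v) = v := by
  change (g : M4 F) * (((g⁻¹ : G4 F) : M4 F) * v * ((g⁻¹⁻¹ : G4 F) : M4 F)) * _ = v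
  rw [← conj_conj, mul_inv_cancel]; simp

theorem bW_cg (g : G4 F) (u v : M4 F) : bW (cg g u) (cg g v) = bW u v := bW_conj g u v

theorem exists_mu [Fintype F] (h5 : 5 ≤ Fintype.card F) : ∃ μ : F, μ ≠ 0 ∧ μ ≠ 1 ∧ μ ≠ -1 := by
  classical
  obtain ⟨μ, hμ⟩ := Finset.exists_mem_notMem_of_card_lt_card (s := ({0, 1, -1} : Finset F))
    (t := Finset.univ) (Finset.card_le_three.trans_lt (by rw [Finset.card_univ]; omega))
  exact ⟨μ, by simpa using hμ⟩

theorem exists_gam [Fintype F] (h5 : 5 ≤ Fintype.card F) {c : F} (hc : c ≠ 0) (e : F) :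
    ∃ γ : F, γ ≠ 0 ∧ c * γ ^ 2 ≠ e := by
  obtain ⟨μ, h0, h1, h2⟩ := exists_mu h5
  by_cases h : c = e
  · exact ⟨μ, h0, fun k => (sq_eq_one_iff.not.2 (not_or.2 ⟨h1, h2⟩))
      (mul_left_cancel₀ hc (by rw [k, h, mul_one]))⟩
  · exact ⟨1, one_ne_zero, by simpa using h⟩

theorem exists_frame [Finite F] (h2 : (2 : F) ≠ 0) {v v' : M4 F} (hv : v ∈ Wsp F)
    (hv' : v' ∈ Wsp F) (q0 : qW v ≠ 0) (q1 : qW v' ≠ 0) (h : bW v v' = 0) :
    ∃ a ∈ Wsp F, ∃ b ∈ Wsp F, ∃ y ∈ Wsp F, qW a = 1 ∧ qW b = -1 ∧ qW y ≠ 0 ∧ bW v a = 0 ∧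
      bW v' a = 0 ∧ bW v b = 0 ∧ bW v' b = 0 ∧ bW a b = 0 ∧ bW v y = 0 ∧ bW v' y = 0 ∧
      bW a y = 0 ∧ bW b y = 0 := by
  let Q : QuadraticForm F (M4 F) := LinearMap.BilinMap.toQuadraticMap ((2 : F)⁻¹ • bL F)
  have hQ : ∀ A, Q A = qW A := fun A => by
    change 2⁻¹ * bW A A = _
    rw [bW_self h2]; field_simp
  have hP : ∀ A B, QuadraticMap.polarBilin Q A B = bW A B := fun A B => by
    change Q (A + B) - Q A - Q B = _
    rw [hQ, hQ, hQ, qW_add h2]; ring
  have n0 : H28.NondegOn Q (Wsp F) := fun x hx h => eq_zero_of_perp h2 hx fun y hy =>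
    (hP x y).symm.trans (h y hy)
  have n1 := n0.inf_ker h2 hv (hQ v ▸ q0)
  have n2 := n1.inf_ker h2 (u := v') ⟨hv', (hP _ _).trans h⟩ (hQ v' ▸ q1)
  have d1 := H28.finrank_le_inf_ker (Wsp F) (QuadraticMap.polarBilin Q v)
  have d2 := H28.finrank_le_inf_ker (Wsp F ⊓ LinearMap.ker (QuadraticMap.polarBilin Q v))
    (QuadraticMap.polarBilin Q v')
  rw [finrank_Wsp h2] at d1
  obtain ⟨a, ha, qa⟩ := n2.exists_eq (by omega) 1
  have n3 := n2.inf_ker h2 ha (qa ▸ one_ne_zero)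
  have d3 := H28.finrank_le_inf_ker (Wsp F ⊓ LinearMap.ker (QuadraticMap.polarBilin Q v) ⊓
    LinearMap.ker (QuadraticMap.polarBilin Q v')) (QuadraticMap.polarBilin Q a)
  obtain ⟨b, hb, qb⟩ := n3.exists_eq (by omega) (-1)
  have n4 := n3.inf_ker h2 hb (qb ▸ neg_ne_zero.2 one_ne_zero)
  have d4 := H28.finrank_le_inf_ker (Wsp F ⊓ LinearMap.ker (QuadraticMap.polarBilin Q v) ⊓
    LinearMap.ker (QuadraticMap.polarBilin Q v') ⊓ LinearMap.ker (QuadraticMap.polarBilin Q a))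
    (QuadraticMap.polarBilin Q b)
  obtain ⟨y, hy, qy⟩ := n4.exists_nonsingular (fun e => by rw [e, finrank_bot] at d4; omega)
  simp only [Submodule.mem_inf, LinearMap.mem_ker, hP, hQ] at ha hb hy qa qb qy
  exact ⟨a, ha.1.1, b, hb.1.1.1, y, hy.1.1.1.1, qa, qb, qy, ha.1.2, ha.2, hb.1.1.2, hb.1.2, hb.2,
    hy.1.1.1.2, hy.1.1.2, hy.1.2, hy.2⟩

end Pla

set_option maxHeartbeats 1600000 in
open Pla in
theorem jstab_max [Fintype F] (h2 : (2 : F) ≠ 0) (h5 : 5 ≤ Fintype.card F) {J0 : M4 F} {δ : F}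
    (hJ : adj J0 = -J0) (hδ : δ ≠ 0) (hJJ : J0 * J0 = δ • (1 : M4 F)) :
    Cfsg.Geo.IsMaximalIn (Cfsg.spGL 2 F) (JStab J0) := by
  obtain ⟨v, hv, q0, hv', o01, qv', hC, hA⟩ := fix3 h2 hJ hδ hJJ
  generalize J0 * v = v' at *
  have q1 : qW v' ≠ 0 := qv' ▸ mul_ne_zero (neg_ne_zero.2 hδ) q0
  obtain ⟨a, ha, b, hb, y, hy, qa, qb, qy, o02, o12, o03, o13, o23, o04, o14, o24, o34⟩ :=
    exists_frame h2 hv hv' q0 q1 o01
  have hexp : ∀ w ∈ Wsp F, w = (bW w v / (2 * qW v)) • v + (bW w v' / (2 * qW v')) • v' +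
      (bW w a / 2) • a - (bW w b / 2) • b + (bW w y / (2 * qW y)) • y := fun w hw => by
    have := expand h2 (Fintype.card_fin 5) (x := ![v, v', a, b, y])
      (fun i => by fin_cases i <;> assumption)
      (fun i => by fin_cases i <;> simp [*])
      (fun i j hij => by
        fin_cases i <;> fin_cases j <;> first | exact absurd rfl hij | assumption |
          (rw [bW_comm]; assumption)) hw
    simp only [Fin.sum_univ_five, cons_val, cons_val_zero, cons_val_one, qa, qb] at this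
    rw [mul_one, mul_neg_one, div_neg, neg_smul, ← sub_eq_add_neg] at this
    exact this
  have o10 := (bW_comm _ _).trans o01
  have o20 := (bW_comm _ _).trans o02
  have o21 := (bW_comm _ _).trans o12
  have o30 := (bW_comm _ _).trans o03
  have o31 := (bW_comm _ _).trans o13
  have o32 := (bW_comm _ _).trans o23
  have o40 := (bW_comm _ _).trans o04
  have o41 := (bW_comm _ _).trans o14
  have o42 := (bW_comm _ _).trans o24
  have o43 := (bW_comm _ _).trans o34
  have hm3 : ∀ α β γ : F, α • a + β • b + γ • y ∈ Wsp F := fun α β γ =>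
    add_mem (add_mem (Submodule.smul_mem _ _ ha) (Submodule.smul_mem _ _ hb))
      (Submodule.smul_mem _ _ hy)
  have hq3 : ∀ α β γ : F, qW (α • a + β • b + γ • y) = α ^ 2 - β ^ 2 + γ ^ 2 * qW y :=
    fun α β γ => by
      simp only [qW_add h2, qW_smul, bW_add_left, bW_smul_left, bW_smul_right, qa, qb, o23, o24, o34]
      ring
  have hc3 : ∀ α β γ : F, J0 * (α • a + β • b + γ • y) = (α • a + β • b + γ • y) * J0 :=
    fun α β γ => (hC _ (hm3 α β γ)).2 (by
      simp only [bW_add_right, bW_smul_right, o02, o03, o04, o12, o13, o14]; simp)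
  have h4 := four_ne h2
  refine ⟨lt_of_le_of_ne (fun g hg => hg.1) fun e => ?_, fun G hM hG => ?_⟩
  · have hw : v + (((2 - qW v) / 2) • a + (qW v / 2) • b + (0 : F) • y) ∈ Wsp F :=
      add_mem hv (hm3 _ _ _)
    obtain ⟨-, -, g, hg, e'⟩ := mem_Rt_sp hw (by
      rw [mul_self h2 hw, qW_add h2, hq3, ← one_smul F (1 : M4 F), smul_smul]
      congr 1
      simp only [bW_add_right, bW_smul_right, o02, o03, o04]
      field_simp; ring)
    rcases (e ▸ hg : g ∈ JStab J0).2 with h | h <;> rw [e'] at h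
    · have := ((hC _ hw).1 h.symm).1
      simp only [bW_add_right, bW_smul_right, o02, o03, o04, bW_self h2] at this
      exact mul_ne_zero h2 q0 (by linear_combination this)
    · obtain ⟨α, β, h⟩ := Submodule.mem_span_pair.1 ((hA _ hw).1 (by rw [h, neg_neg]))
      have := congrArg (bW b) h
      simp only [bW_add_right, bW_smul_right, o30, o31, o32, o34, bW_self h2, qb] at this
      exact q0 (by rw [← div_mul_cancel₀ (qW v) h2]; linear_combination this)
  by_cases hGM : G ≤ JStab J0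
  · exact Or.inl (le_antisymm hGM hM)
  refine Or.inr (le_antisymm hG ?_)
  have S : Std G := ⟨h2, hG, hM ⟨neg_one_mem_spGL, Or.inl (by simp)⟩⟩
  have hin : ∀ A : M4 F, adj A * A = 1 → (A * J0 = J0 * A ∨ A * J0 = -(J0 * A)) → InG G A :=
    fun A h1 h => ⟨spOf A h1, hM ⟨spOf_mem A h1, h⟩, rfl⟩
  have hr : ∀ α β γ : F, α ^ 2 - β ^ 2 + γ ^ 2 * qW y = 1 → α • a + β • b + γ • y ∈ Rt G :=
    fun α β γ h => by
      have h1 := mul_self h2 (hm3 α β γ)
      rw [hq3, h, one_smul] at h1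
      exact ⟨hm3 .., h1, hin _ (by rw [(hm3 α β γ).1, h1]) (Or.inl (hc3 ..).symm)⟩
  have haD : a ∈ Rt G := by simpa using hr 1 0 0 (by ring)
  have hT := cld_cmp (Rt G) a
  have haT := mem_cmp (Rt G) a
  have hTW : cmp (Rt G) a ≤ Wsp F := sInf_le ⟨fun x hx _ _ => Submodule.smul_mem _ _ hx.1, ha⟩
  obtain ⟨hyT, hbT⟩ : y ∈ cmp (Rt G) a ∧ b ∈ cmp (Rt G) a := by
    obtain ⟨γ, γ0, hγ⟩ := exists_gam h5 qy 2
    have k : ∀ ε : F, ε ^ 2 = γ ^ 2 → (1 - qW y * γ ^ 2 / 2) • a + (qW y * γ ^ 2 / 2) • b + ε • y ∈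
        cmp (Rt G) a := fun ε hε => hT.mem (hr _ _ _ (by rw [hε]; field_simp; ring)) haT (by
      simp only [bW_add_right, bW_smul_right, o23, o24, bW_self h2, qa]
      intro h
      exact hγ (by rw [← div_mul_cancel₀ (qW y * γ ^ 2) h2]; linear_combination -h))
    have k1 : y ∈ cmp (Rt G) a := by
      refine (Submodule.smul_mem_iff _ (mul_ne_zero h2 γ0)).1 ?_
      convert sub_mem (k γ rfl) (k (-γ) (by ring)) using 1
      module
    refine ⟨k1, (Submodule.smul_mem_iff _ (div_ne_zero (mul_ne_zero qy (pow_ne_zero 2 γ0)) h2)).1 ?_⟩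
    convert sub_mem (sub_mem (k γ rfl) (Submodule.smul_mem _ γ k1))
      (Submodule.smul_mem _ (1 - qW y * γ ^ 2 / 2) haT) using 1
    module
  have hinv : ∀ g ∈ G, ∀ t ∈ cmp (Rt G) a, cg g t ∈ cmp (Rt G) a := fun g hg => by
    have h1 : Cld (Rt G) ((cmp (Rt G) a).comap (cg g)) := fun x hx w hw => by
      rw [Submodule.mem_comap, map_smul, ← bW_cg g]
      exact hT _ (S.conj_mem hg hx) _ hw
    refine (h1.or haD).resolve_right fun h => ?_
    have h3 : ∀ t ∈ cmp (Rt G) a, ∀ t' ∈ cmp (Rt G) a, bW (cg g⁻¹ t) t' = 0 := fun t ht t' ht' =>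
      h t' ht' _ (by rwa [Submodule.mem_comap, cg_inv])
    have h3' : ∀ t ∈ cmp (Rt G) a, ∀ t' ∈ cmp (Rt G) a, bW t' (cg g⁻¹ t) = 0 := fun t ht t' ht' =>
      (bW_comm _ _).trans (h3 t ht t' ht')
    have hq : ∀ t, qW (cg g⁻¹ t) = qW t := qW_conj g⁻¹
    have hW : ∀ t ∈ Wsp F, cg g⁻¹ t ∈ Wsp F := fun t => conj_mem_W (hG (inv_mem hg))
    have := card_le_five h2 (x := ![a, b, y, cg g⁻¹ a, cg g⁻¹ b, cg g⁻¹ y])
      (fun i => by fin_cases i <;> simp [ha, hb, hy, hW]) (linearIndependent_of_orth h2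
        (fun i => by fin_cases i <;> simp [hq, qa, qb, qy]) fun i j hij => by
          fin_cases i <;> fin_cases j <;> first | exact absurd rfl hij |
            simp [h3, h3', haT, hbT, hyT, o23, o24, o34, o32, o42, o43, bW_cg])
    simp at this
  have hrefl : ∀ α β : F, α ^ 2 - δ * β ^ 2 ≠ 0 → ∀ t ∈ cmp (Rt G) a, bW t a = 0 → bW t b = 0 →
      bW t (α • v + β • v') ≠ 0 → α • v + β • v' ∈ cmp (Rt G) a := fun α β h t ht ta tb h0 => by
    have hu : α • v + β • v' ∈ Wsp F :=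
      add_mem (Submodule.smul_mem _ _ hv) (Submodule.smul_mem _ _ hv')
    have hu' := (hA _ hu).2 (Submodule.mem_span_pair.2 ⟨α, β, rfl⟩)
    have qu : qW (α • v + β • v') ≠ 0 := by
      simp only [qW_add h2, qW_smul, bW_smul_left, bW_smul_right, o01, qv']
      convert mul_ne_zero h q0 using 1
      ring
    generalize α • v + β • v' = u at hu hu' qu h0
    have hz := hm3 ((1 + qW u) / 2) ((1 - qW u) / 2) 0
    have hz' := hc3 ((1 + qW u) / 2) ((1 - qW u) / 2) 0
    have qz : qW (((1 + qW u) / 2) • a + ((1 - qW u) / 2) • b + (0 : F) • y) = qW u := by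
      rw [hq3]; field_simp; ring
    have tz : bW t (((1 + qW u) / 2) • a + ((1 - qW u) / 2) • b + (0 : F) • y) = 0 := by
      simp only [bW_add_right, bW_smul_right, ta, tb]; simp
    generalize ((1 + qW u) / 2) • a + ((1 - qW u) / 2) • b + (0 : F) • y = z at hz hz' qz tz
    obtain ⟨g, hg, e⟩ := hin _ (adj_pair h2 hu hz (d := (qW u)⁻¹) (by rw [qz]; field_simp))
      (Or.inr (by
        rw [Matrix.smul_mul, Matrix.mul_smul, Matrix.mul_assoc, ← hz', ← Matrix.mul_assoc J0, hu',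
          Matrix.neg_mul, smul_neg, neg_neg, Matrix.mul_assoc]))
    have h1 : cg g t = t - (bW t u / qW u) • u := by
      change (g : M4 F) * t * _ = _
      rw [← adj_coe (hG hg), e, adj_smul, adj_mul, hu.1, hz.1, Matrix.smul_mul, Matrix.smul_mul,
        Matrix.mul_smul, show u * z * t * (z * u) = u * (z * t * z) * u by
          simp only [Matrix.mul_assoc], sandwich h2 hz (hTW ht), tz, zero_smul, zero_sub,
        Matrix.mul_neg, Matrix.neg_mul, Matrix.mul_smul, Matrix.smul_mul, sandwich h2 hu (hTW ht),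
        qz]
      match_scalars <;> field_simp
    refine (Submodule.smul_mem_iff _ (div_ne_zero h0 qu)).1 ?_
    convert sub_mem ht (hinv g hg t ht) using 1
    rw [h1, sub_sub_cancel]
  have hall : Wsp F ≤ cmp (Rt G) a := by
    by_contra hne
    have h1 : ∀ t ∈ cmp (Rt G) a, bW v t = 0 ∧ bW v' t = 0 := fun t ht => by
      by_contra hc
      have h3 : (bW t v / (2 * qW v)) • v + (bW t v' / (2 * qW v')) • v' ∈ cmp (Rt G) a := by
        convert sub_mem (add_mem (sub_mem ht (Submodule.smul_mem _ (bW t a / 2) haT))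
          (Submodule.smul_mem _ (bW t b / 2) hbT))
          (Submodule.smul_mem _ (bW t y / (2 * qW y)) hyT) using 1
        nth_rw 3 [hexp t (hTW ht)]
        abel
      have h5' : bW t v / (2 * qW v) ≠ 0 ∨ bW t v' / (2 * qW v') ≠ 0 := by
        by_contra hc'
        push Not at hc'
        simp only [div_eq_zero_iff, mul_eq_zero, h2, q0, q1, or_false] at hc'
        exact hc ⟨(bW_comm _ _).trans hc'.1, (bW_comm _ _).trans hc'.2⟩
      generalize bW t v / (2 * qW v) = α at h3 h5'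
      generalize bW t v' / (2 * qW v') = β at h3 h5'
      have h6 : ∀ α' β' : F, α' ^ 2 - δ * β' ^ 2 ≠ 0 → α * α' - δ * (β * β') ≠ 0 →
          α' • v + β' • v' ∈ cmp (Rt G) a := fun α' β' k k' => hrefl α' β' k _ h3
        (by simp only [bW_add_left, bW_smul_left, o02, o12]; simp)
        (by simp only [bW_add_left, bW_smul_left, o03, o13]; simp) (by
          simp only [bW_add_left, bW_smul_left, bW_add_right, bW_smul_right, o01, o10,
            bW_self h2, qv']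
          convert mul_ne_zero k' (mul_ne_zero h2 q0) using 1
          ring)
      have h7 : α ≠ 0 → v ∈ cmp (Rt G) a := fun h => by simpa using h6 1 0 (by simp) (by simpa)
      have h8 : β ≠ 0 → v' ∈ cmp (Rt G) a := fun h => by
        simpa using h6 0 1 (by simpa) (by simp [h, hδ])
      have h9 : v ∈ cmp (Rt G) a ∧ v' ∈ cmp (Rt G) a := by
        by_cases hα : α = 0
        · have hβ := h5'.resolve_left (not_not.2 hα)
          obtain ⟨γ, γ0, hγ⟩ := exists_gam h5 one_ne_zero δ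
          refine ⟨(Submodule.smul_mem_iff _ γ0).1 ?_, h8 hβ⟩
          simpa using sub_mem (h6 γ 1 (by simpa [sub_eq_zero] using hγ) (by simp [hα, hβ, hδ]))
            (h8 hβ)
        by_cases hβ : β = 0
        · obtain ⟨γ, γ0, hγ⟩ := exists_gam h5 hδ 1
          refine ⟨h7 hα, (Submodule.smul_mem_iff _ γ0).1 ?_⟩
          simpa using sub_mem (h6 1 γ (by simpa [sub_eq_zero] using hγ.symm) (by simp [hα, hβ]))
            (h7 hα)
        · exact ⟨h7 hα, h8 hβ⟩
      refine hne fun w hw => ?_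
      rw [hexp w hw]
      exact add_mem (sub_mem (add_mem (add_mem (Submodule.smul_mem _ _ h9.1)
        (Submodule.smul_mem _ _ h9.2)) (Submodule.smul_mem _ _ haT)) (Submodule.smul_mem _ _ hbT))
        (Submodule.smul_mem _ _ hyT)
    refine hGM fun g hg => ⟨hG hg, ?_⟩
    have e1 : ∀ X Y : M4 F, cg g⁻¹ X * cg g⁻¹ Y = cg g⁻¹ (X * Y) := conj_mul g⁻¹
    have e2 : ∀ t, cg g⁻¹ (cg g t) = t := fun t => by simpa using cg_inv g⁻¹ t
    have h3 : ∀ t ∈ cmp (Rt G) a, J0 * cg g⁻¹ J0 * t = t * (J0 * cg g⁻¹ J0) := fun t ht => by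
      have k := (hC _ (hTW (hinv g hg t ht))).2 (h1 _ (hinv g hg t ht))
      have k' := congrArg (cg g⁻¹) k
      rw [← e1, ← e1, e2] at k'
      rw [Matrix.mul_assoc, k', ← Matrix.mul_assoc, (hC _ (hTW ht)).2 (h1 _ ht), Matrix.mul_assoc]
    have h5' : ∀ t ∈ Wsp F, bW t a = 0 → bW t b = 0 → bW t y = 0 → J0 * t = -(t * J0) :=
      fun t ht ta tb ty => (hA t ht).2 (Submodule.mem_span_pair.2
        ⟨bW t v / (2 * qW v), bW t v' / (2 * qW v'), by
        nth_rw 3 [hexp t ht]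
        rw [ta, tb, ty]; simp⟩)
    have h6 : ∀ t ∈ Wsp F, (∀ s ∈ cmp (Rt G) a, bW t s = 0) →
        J0 * cg g⁻¹ J0 * t = t * (J0 * cg g⁻¹ J0) := fun t ht h => by
      have k0 : ∀ s ∈ cmp (Rt G) a, bW (cg g t) s = 0 := fun s hs => by
        rw [← cg_inv g s, bW_cg, h _ (hinv _ (inv_mem hg) s hs)]
      have k := h5' (cg g t) (conj_mem_W (hG hg) ht) (k0 _ haT) (k0 _ hbT) (k0 _ hyT)
      have k' := congrArg (cg g⁻¹) k
      rw [map_neg, ← e1, ← e1, e2] at k'
      rw [Matrix.mul_assoc, k', Matrix.mul_neg, ← Matrix.mul_assoc,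
        h5' t ht (h _ haT) (h _ hbT) (h _ hyT), Matrix.neg_mul, neg_neg, Matrix.mul_assoc]
    obtain ⟨c, hc⟩ := scalar_of_comm (M := J0 * cg g⁻¹ J0) fun w hw => by
      rw [hexp w hw]
      simp only [Matrix.mul_add, Matrix.add_mul, Matrix.mul_sub, Matrix.sub_mul, Matrix.mul_smul,
        Matrix.smul_mul, h3 _ haT, h3 _ hbT, h3 _ hyT, h6 v hv fun s hs => (h1 s hs).1,
        h6 v' hv' fun s hs => (h1 s hs).2]
    have h7 : cg g⁻¹ J0 = (c / δ) • J0 := by
      have := congrArg (J0 * ·) hc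
      simp only [← Matrix.mul_assoc, hJJ, Matrix.smul_mul, Matrix.one_mul, Matrix.mul_smul,
        Matrix.mul_one] at this
      rw [div_eq_inv_mul, mul_smul, ← this, smul_smul, inv_mul_cancel₀ hδ, one_smul]
    have h8 : (c / δ) ^ 2 = 1 := by
      have := e1 J0 J0
      rw [h7, hJJ, map_smul, show cg g⁻¹ 1 = 1 by simp [cg], Matrix.smul_mul, Matrix.mul_smul, hJJ,
        smul_smul, smul_smul] at this
      have := congrFun (congrFun this (.inl 0)) (.inl 0)
      exact mul_right_cancel₀ hδ (by simpa [sq] using this)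
    have h9 : J0 * g = (c / δ) • ((g : M4 F) * J0) := by
      rw [← Matrix.mul_smul, ← h7]
      simp [cg, ← Matrix.mul_assoc]
    rcases sq_eq_one_iff.1 h8 with h | h <;> rw [h9, h] <;> simp
  have hconn : Conn (Rt G) := fun T hT' ⟨x, hx, hxT⟩ =>
    (Cld.or hT' haD).elim hall.trans fun h => absurd (h x (hall hx.1) x hxT) (by
      rw [S.rs.bW_self hx]; exact h2)
  have hs : a + b ∈ Wsp F := add_mem ha hb
  have hss : (a + b) * (a + b) = 0 := by
    rw [mul_self h2 hs, qW_add h2, qa, qb, o23]; simp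
  have hsy : bW (a + b) y = 0 := by rw [bW_add_left, o24, o34, add_zero]
  have hs0 : a + b ≠ 0 := fun e => h2 (by
    have := congrArg (bW a) e
    rwa [bW_add_right, bW_self h2, qa, o23, bW_zero_right, mul_one, add_zero] at this)
  have hE : ∀ c : F, InG G (1 + c • ((a + b) * y)) := fun c => by
    rw [← Matrix.mul_smul]
    refine hin _ (eich_sp h2 hs hss (Submodule.smul_mem _ _ hy) (by
      rw [bW_smul_right, hsy, mul_zero])) (Or.inl ?_)
    have k1 : J0 * (a + b) = (a + b) * J0 := by simpa using hc3 1 1 0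
    have k2 : J0 * (c • y) = (c • y) * J0 := by simpa using hc3 0 0 c
    rw [Matrix.add_mul, Matrix.mul_add, Matrix.mul_assoc, ← k2, ← Matrix.mul_assoc, ← k1,
      Matrix.one_mul, Matrix.mul_one, Matrix.mul_assoc]
  obtain ⟨μ, μ0, μ1, μ2⟩ := exists_mu h5
  obtain ⟨K, -, -, -, hK, -, -, -, -, hK'⟩ := uform S hconn ⟨a, haD⟩ ⟨hs, hy, hs0, hss, hsy, qy⟩
    μ0 μ1 μ2 (by simpa using hE 1) (hE μ)
  exact sp_le_of_eich S hs hss haD (by rw [bW_add_left, bW_self h2, qa, o32]; simpa using h2)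
    (hK' (top_unique fun c _ => (hK c).1 (hE c)))

end Cfsg.Agent.DIM4
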