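import Cfsg.Agent.DIM4.Irr
import Cfsg.Agent.DIM4.QuadG

/-! Quadratic modules for `SL₂(K)` do not occur in the residual class. -/

set_option autoImplicit false

namespace Cfsg.Agent.DIM4

open Matrix

variable {F : Type*} [Field F] [Finite F] {H P : Subgroup (G4 F)}

theorem Res.not_quad (h : Res H P) {K : Type} [Field K] [Finite K] (d : SL2Data P K)
    (hq : ∀ a b, ((d.X a : M4 F) - 1) * ((d.X b : M4 F) - 1) = 0) : False := by
  set N : K → M4 F := fun a => (d.X a : M4 F) - 1 with hN
  set M : K → M4 F := fun a => (d.Y a : M4 F) - 1 with hM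
  have hX : ∀ a, (d.X a : M4 F) = 1 + N a := fun a => by simp [hN]
  have hY : ∀ a, (d.Y a : M4 F) = 1 + M a := fun a => by simp [hM]
  have NN : ∀ a b, N a * N b = 0 := hq
  have cX : ∀ l a, l ≠ 0 → ((d.X l * d.Y (-l⁻¹) * d.X l : G4 F) : M4 F) * N a =
      M (-(l⁻¹ ^ 2 * a)) * (d.X l * d.Y (-l⁻¹) * d.X l : G4 F) := fun l a hl => by
    rw [hN, hM, Matrix.mul_sub, Matrix.sub_mul, ← Units.val_mul, d.conjX l a hl, Units.val_mul,
      Matrix.mul_one, Matrix.one_mul]
  have MM : ∀ a b, M a * M b = 0 := fun a b => by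
    have e := cX 1 (-a) one_ne_zero
    have e' := cX 1 (-b) one_ne_zero
    simp only [inv_one, one_pow, one_mul, neg_neg] at e e'
    rw [← (Units.mul_left_inj (d.X 1 * d.Y (-1) * d.X 1)), Matrix.mul_assoc, ← e',
      ← Matrix.mul_assoc, ← e, Matrix.mul_assoc, NN]
    simp
  have add : ∀ (X : K → G4 F) (N : K → M4 F), (∀ a, (X a : M4 F) = 1 + N a) →
      (∀ a b, X (a + b) = X a * X b) → (∀ a b, N a * N b = 0) → ∀ a b, N (a + b) = N a + N b := by
    intro X N h1 h2 h3 a b
    have := congrArg Units.val (h2 a b)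
    rw [Units.val_mul, h1, h1, h1, Matrix.add_mul, Matrix.mul_add, Matrix.mul_add, h3] at this
    simp only [Matrix.one_mul, Matrix.mul_one, add_zero] at this
    rw [← add_right_inj (1 : M4 F), this]; abel
  have Nadd := add d.X N hX d.X_add NN
  have Madd := add d.Y M hY d.Y_add MM
  have Mneg : ∀ a, M (-a) = -M a := fun a => by
    have h0 : M 0 = 0 := by simpa using Madd 0 0
    exact eq_neg_of_add_eq_zero_left (by rw [← Madd, neg_add_cancel, h0])
  have two : ∀ {X : M4 F}, X + X = 0 → X = 0 := fun {X} e => smul_right_injective _ h.two (by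
    change (2 : F) • X = (2 : F) • (0 : M4 F)
    rw [two_smul, smul_zero, e])
  have key : ∀ l, l ≠ 0 → N l * M l⁻¹ + M l⁻¹ * N l = 1 ∧
      ((d.X l * d.Y (-l⁻¹) * d.X l : G4 F) : M4 F) = N l - M l⁻¹ := by
    intro l hl
    have hw : ((d.X l * d.Y (-l⁻¹) * d.X l : G4 F) : M4 F) =
        (1 + N l) * (1 - M l⁻¹) * (1 + N l) := by
      rw [Units.val_mul, Units.val_mul, hX, hY, Mneg, ← sub_eq_add_neg]
    have hb := d.conjX l l hl
    rw [show l⁻¹ ^ 2 * l = l⁻¹ by field_simp, ← mul_assoc, ← mul_assoc, mul_left_inj] at hb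
    have hb' := congrArg Units.val hb
    rw [hw, Units.val_mul, Units.val_mul, hX, hY, Mneg, ← sub_eq_add_neg] at hb'
    have hs := congrArg Units.val (d.w_sq l hl)
    rw [Units.val_mul, hw, Units.val_neg, Units.val_one] at hs
    have n := NN l l
    have m := MM l⁻¹ l⁻¹
    have hD := braid_quad n m hb'
    rw [hw]
    generalize N l = A at *
    generalize M l⁻¹ = B at *
    have wD : (1 + A) * (1 - B) * (1 + A) * (A - A * B * A) = A - A * B * A := by
      have a : A * (A - A * B * A) = 0 := by simp [Matrix.mul_sub, ← Matrix.mul_assoc, n]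
      have b : B * (A - A * B * A) = 0 := by rw [hD]; simp [Matrix.mul_sub, ← Matrix.mul_assoc, m]
      simp only [Matrix.mul_assoc _ _ (A - A * B * A), Matrix.add_mul, Matrix.sub_mul, a, b,
        Matrix.one_mul, add_zero, sub_zero]
    have D0 : A - A * B * A = 0 := two (by
      have := congrArg (· * (A - A * B * A)) hs
      rw [Matrix.mul_assoc, wD, wD, Matrix.neg_mul, Matrix.one_mul] at this
      exact add_eq_zero_iff_eq_neg.2 this)
    have a3 : A * (B * A) = A := by rw [← Matrix.mul_assoc]; exact (sub_eq_zero.1 D0).symm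
    have b3 : B * (A * B) = B := by rw [← Matrix.mul_assoc]; exact sub_eq_zero.1 (hD ▸ D0)
    have n' : ∀ X, A * (A * X) = 0 := fun X => by rw [← Matrix.mul_assoc, n, Matrix.zero_mul]
    have m' : ∀ X, B * (B * X) = 0 := fun X => by rw [← Matrix.mul_assoc, m, Matrix.zero_mul]
    have a3' : ∀ X, A * (B * (A * X)) = A * X := fun X => by
      rw [← Matrix.mul_assoc B, ← Matrix.mul_assoc, a3]
    have b3' : ∀ X, B * (A * (B * X)) = B * X := fun X => by
      rw [← Matrix.mul_assoc A, ← Matrix.mul_assoc, b3]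
    have w1 : (1 + A) * (1 - B) * (1 + A) = (1 - (A * B + B * A)) + (A - B) := by
      simp only [Matrix.mul_add, Matrix.add_mul, Matrix.mul_sub, Matrix.sub_mul, Matrix.mul_one,
        Matrix.one_mul, Matrix.mul_assoc, n, a3]
      abel
    have hπ : A * B + B * A = 1 := by
      refine (sub_eq_zero.1 (two ?_)).symm
      rw [w1] at hs
      rw [← sub_eq_zero.2 hs]
      simp only [Matrix.mul_add, Matrix.add_mul, Matrix.mul_sub, Matrix.sub_mul, Matrix.mul_one,
        Matrix.one_mul, Matrix.mul_assoc, n, m, a3, b3, n', m', a3', b3', Matrix.mul_zero]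
      abel
    exact ⟨hπ, by rw [w1, hπ, sub_self, zero_add]⟩
  exact h.not_dim4 (quad_span h.core.absIrred.2 d.X d.Y N M hX hY d.gen Nadd Madd NN MM
    (fun l hl => (key l hl).1) fun l a hl => by
      rw [← (key l hl).2, cX l a hl, Mneg, Matrix.neg_mul])

end Cfsg.Agent.DIM4
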