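import Cfsg.Agent.DIM4.SL2K

/-! The subfield form attached to a short root subgroup. -/

set_option autoImplicit false

namespace Cfsg.Agent.DIM4

open Matrix

variable {F : Type*} [Field F] [Finite F] {G : Subgroup (G4 F)}

/-- The Eichler vectors of `s` in `G`. -/
def InY (G : Subgroup (G4 F)) (s v : M4 F) : Prop :=
  v ∈ Wsp F ∧ bW s v = 0 ∧ InG G (1 + s * v)

section
variable (S : Std G) {s : M4 F} (hs : s ∈ Wsp F) (hss : s * s = 0)
include S hs hss
omit [Finite F]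

theorem InY.add {v w : M4 F} (hv : InY G s v) (hw : InY G s w) : InY G s (v + w) :=
  ⟨add_mem hv.1 hw.1, by rw [bW_add_right, hv.2.1, hw.2.1, add_zero],
    eich_mul S.two hs hss hv.1 hv.2.1 w ▸ hv.2.2.mul hw.2.2⟩

theorem InY.neg {v : M4 F} (hv : InY G s v) : InY G s (-v) :=
  ⟨neg_mem hv.1, by rw [bW_neg_right, hv.2.1, neg_zero], hv.2.2.of_mul_eq_one (by
    rw [eich_mul S.two hs hss hv.1 hv.2.1, add_neg_cancel, Matrix.mul_zero, add_zero])⟩

theorem InY.sub {v w : M4 F} (hv : InY G s v) (hw : InY G s w) : InY G s (v - w) := by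
  rw [sub_eq_add_neg]; exact hv.add S hs hss (hw.neg S hs hss)

omit S hs hss in
theorem InY.zero : InY G s 0 := ⟨zero_mem _, bW_zero_right _, by simpa using InG.one⟩

/-- A root perpendicular to `s` reflects the Eichler vectors. -/
theorem InY.refl {v x : M4 F} (hv : InY G s v) (hx : x ∈ Rt G) (h : bW s x = 0) :
    InY G s (bW v x • x) := by
  have e : x * (1 + s * v) * x = 1 + s * (v - bW v x • x) := by
    have e1 := sandwich S.two hx.1 hv.1
    rw [qW_eq_one S.two hx.2.1, one_smul] at e1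
    rw [Matrix.mul_add, Matrix.add_mul, Matrix.mul_one, hx.2.1, ← Matrix.mul_assoc,
      anti_of_perp S.two hs hx.1 h, ← neg_sub, ← e1]
    simp only [Matrix.neg_mul, Matrix.mul_neg, Matrix.mul_assoc]
  have h1 : InY G s (v - bW v x • x) :=
    ⟨sub_mem hv.1 (Submodule.smul_mem _ _ hx.1),
      by rw [bW_sub_right, bW_smul_right, h, hv.2.1, mul_zero, sub_zero],
      e ▸ (hx.2.2.mul hv.2.2).mul hx.2.2⟩
  simpa using hv.sub S hs hss h1

/-- The torus attached to `u` scales the Eichler vectors. -/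
theorem InY.torus {u : M4 F} (hu : u ∈ Wsp F) (hb : bW s u = 1) {l : F} (hl : l ≠ 0)
    (t1 : InG G (l⁻¹ • 1 + (l - l⁻¹) • (s * u)))
    (t2 : InG G (l⁻¹⁻¹ • 1 + (l⁻¹ - l⁻¹⁻¹) • (s * u))) {v : M4 F} (hv : InY G s v) :
    InY G s (l ^ 2 • v) := by
  have e1 : s * u * s = s := by rw [s_mul_s S.two hs hss hu, bW_comm, hb, one_smul]
  have e2 : s * v * s = 0 := by rw [s_mul_s S.two hs hss hv.1, bW_comm, hv.2.1, zero_smul]
  have e1' : ∀ z, s * (u * (s * z)) = s * z := fun z => by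
    rw [← Matrix.mul_assoc, ← Matrix.mul_assoc, e1]
  have e2' : ∀ z, s * (v * (s * z)) = 0 := fun z => by
    rw [← Matrix.mul_assoc, ← Matrix.mul_assoc, e2, Matrix.zero_mul]
  refine ⟨Submodule.smul_mem _ _ hv.1, by rw [bW_smul_right, hv.2.1, mul_zero], ?_⟩
  convert (t1.mul hv.2.2).mul t2 using 1
  simp only [Matrix.add_mul, Matrix.mul_add, Matrix.smul_mul, Matrix.mul_smul, Matrix.one_mul,
    Matrix.mul_one, Matrix.mul_assoc, e1', e2', inv_inv, smul_zero, add_zero]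
  match_scalars <;> field_simp <;> ring

theorem InY.torus_sub {u u' : M4 F} (hu : u ∈ Wsp F) (hb : bW s u = 1) (hu' : u' ∈ Wsp F)
    (hb' : bW s u' = 1) {l : F} (hl : l ≠ 0) (t1 : InG G (l⁻¹ • 1 + (l - l⁻¹) • (s * u)))
    (t2 : InG G (l⁻¹⁻¹ • 1 + (l⁻¹ - l⁻¹⁻¹) • (s * u'))) : InY G s ((l ^ 2 - 1) • (u - u')) := by
  have e1 : s * u * s = s := by rw [s_mul_s S.two hs hss hu, bW_comm, hb, one_smul]
  have e1' : ∀ z, s * (u * (s * z)) = s * z := fun z => by
    rw [← Matrix.mul_assoc, ← Matrix.mul_assoc, e1]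
  refine ⟨Submodule.smul_mem _ _ (sub_mem hu hu'),
    by rw [bW_smul_right, bW_sub_right, hb, hb', sub_self, mul_zero], ?_⟩
  convert t1.mul t2 using 1
  simp only [Matrix.add_mul, Matrix.mul_add, Matrix.smul_mul, Matrix.mul_smul, Matrix.one_mul,
    Matrix.mul_one, Matrix.mul_assoc, Matrix.mul_sub, e1', inv_inv]
  match_scalars <;> field_simp <;> ring

end

/-- The field of a non-singular Eichler vector. -/
theorem InY.field (S : Std G) {s : M4 F} (hs : s ∈ Wsp F) (hss : s * s = 0) {y x : M4 F}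
    (hy : InY G s y) (hq : qW y ≠ 0) {μ : F} (μ0 : μ ≠ 0) (μ1 : μ ≠ 1) (μ2 : μ ≠ -1)
    (hμ : InY G s (μ • y)) (hx : x ∈ Rt G) (hc : bW s x ≠ 0) :
    ∃ K : Subfield F, μ ∈ K ∧ bW s x ^ 2 * qW y ∈ K ∧ (∀ a, InY G s (a • y) ↔ a ∈ K) ∧
      (∀ l ∈ K, l ≠ 0 → InG G (l⁻¹ • 1 + (l - l⁻¹) • (s * ((bW s x)⁻¹ • x)))) ∧
      ∀ a ∈ K, ∀ v, InY G s v → InY G s (a • v) := by
  have h2 := S.two
  have ys : y * s = -(s * y) := anti_of_perp h2 hs hy.1 hy.2.1
  have sxs : s * x * s = bW s x • s := by rw [s_mul_s h2 hs hss hx.1, bW_comm]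
  have xx : ∀ z, x * (x * z) = z := fun z => by rw [← Matrix.mul_assoc, hx.2.1, Matrix.one_mul]
  have yy : ∀ z, y * (y * z) = qW y • z := fun z => by
    rw [← Matrix.mul_assoc, mul_self h2 hy.1, Matrix.smul_mul, Matrix.one_mul]
  have sxs' : ∀ z, s * (x * (s * z)) = bW s x • (s * z) := fun z => by
    rw [← Matrix.mul_assoc, ← Matrix.mul_assoc, sxs, Matrix.smul_mul]
  have syxs : ∀ z, s * (y * (x * (s * z))) = bW s x • (s * (y * z)) := fun z => by
    have : s * y = -(y * s) := by rw [ys, neg_neg]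
    rw [← Matrix.mul_assoc, this, Matrix.neg_mul, Matrix.mul_assoc, sxs', ← Matrix.mul_assoc s,
      this, Matrix.mul_smul, Matrix.neg_mul, smul_neg, Matrix.mul_assoc]
  have sys : ∀ z, s * (y * (s * z)) = 0 := fun z => by
    rw [← Matrix.mul_assoc, ← Matrix.mul_assoc, s_mul_s h2 hs hss hy.1, bW_comm, hy.2.1, zero_smul,
      Matrix.zero_mul]
  have a1 : s * y * (x * (s * y) * x) * (s * y) = (bW s x ^ 2 * qW y) • (s * y) := by
    simp only [Matrix.mul_assoc]
    simp only [syxs, yy, Matrix.mul_smul, sxs', smul_smul]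
    congr 1; ring
  have a2 : x * (s * y) * x * (s * y) * (x * (s * y) * x) =
      (bW s x ^ 2 * qW y) • (x * (s * y) * x) := by
    simp only [Matrix.mul_assoc]
    simp only [syxs, yy, Matrix.mul_smul, sxs', smul_smul]
    congr 1; ring
  let M : Submonoid (M4 F) :=
    { carrier := {A | InG G A}, one_mem' := InG.one, mul_mem' := InG.mul }
  obtain ⟨K, k1, k2, k3, -, k5⟩ := sl2K_alg (F := F) M (e := s * y) (e' := x * (s * y) * x)
    (κ := bW s x ^ 2 * qW y) (μ := μ)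
    (by simp only [Matrix.mul_assoc, sys])
    (by simp only [Matrix.mul_assoc, xx, sys, Matrix.mul_zero])
    a1 a2
    (mul_ne_zero (pow_ne_zero 2 hc) hq) hy.2.2
    (by
      have := (hx.2.2.mul hy.2.2).mul hx.2.2
      rwa [Matrix.mul_add, Matrix.add_mul, Matrix.mul_one, hx.2.1] at this)
    (by have := hμ.2.2; rwa [Matrix.mul_smul] at this) μ0 μ1 μ2
  have tor : ∀ l ∈ K, l ≠ 0 → InG G (l⁻¹ • 1 + (l - l⁻¹) • (s * ((bW s x)⁻¹ • x))) := by
    intro l hl l0
    have := k5 l hl l0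
    change InG G _ at this
    convert this using 1
    have xs : x * s = bW s x • (1 : M4 F) - s * x := swap h2 hs hx.1
    have e1 : s * y * (x * (s * y) * x) = (bW s x * qW y) • (s * x) := by
      simp only [Matrix.mul_assoc, syxs, yy, Matrix.mul_smul, smul_smul]
    have e2 : x * (s * y) * x * (s * y) = (bW s x * qW y) • (x * s) := by
      simp only [Matrix.mul_assoc, syxs, mul_self h2 hy.1, Matrix.mul_smul, smul_smul,
        Matrix.mul_one]
    rw [e1, e2, xs, Matrix.mul_smul]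
    match_scalars <;> field_simp <;> ring
  have sq : ∀ l ∈ K, ∀ v, InY G s v → InY G s (l ^ 2 • v) := by
    intro l hl v hv
    by_cases l0 : l = 0
    · subst l0; simpa using InY.zero
    · exact InY.torus S hs hss (Submodule.smul_mem _ _ hx.1)
        (by rw [bW_smul_right, inv_mul_cancel₀ hc]) l0 (tor l hl l0)
        (tor _ (K.inv_mem hl) (inv_ne_zero l0)) hv
  have k2' : (2 : F) ∈ K := by exact_mod_cast natCast_mem K 2
  refine ⟨K, k1, k2, fun a => ⟨fun h => (k3 a).1 ?_, fun h => ?_⟩, tor, fun a ha v hv => ?_⟩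
  · have := h.2.2; rwa [Matrix.mul_smul] at this
  · exact ⟨Submodule.smul_mem _ _ hy.1, by rw [bW_smul_right, hy.2.1, mul_zero], by
      rw [Matrix.mul_smul]; exact (k3 a).2 h⟩
  · convert (sq _ (K.div_mem (K.add_mem ha K.one_mem) k2') v hv).sub S hs hss
      (sq _ (K.div_mem (K.sub_mem ha K.one_mem) k2') v hv) using 1
    rw [← sub_smul]
    congr 1
    field_simp; ring

theorem uform (S : Std G) (hc : Conn (Rt G)) (hne : (Rt G).Nonempty) {s y : M4 F} (h : Eich s y)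
    {μ : F} (μ0 : μ ≠ 0) (μ1 : μ ≠ 1) (μ2 : μ ≠ -1) (m1 : InG G (1 + s * y))
    (m2 : InG G (1 + μ • (s * y))) :
    ∃ (K : Subfield F) (β : F) (L : Submodule K (M4 F)), μ ∈ K ∧
      (∀ a, InG G (1 + a • (s * y)) ↔ a ∈ K) ∧ β ≠ 0 ∧ (∀ v ∈ L, v ∈ Wsp F) ∧
      (∀ v ∈ L, ∀ w ∈ L, bW v w / β ∈ K) ∧ (∀ x ∈ Rt G, ∃ c : F, c ≠ 0 ∧ c • x ∈ L) ∧
      (K = ⊤ → ∀ v ∈ Wsp F, bW s v = 0 → InG G (1 + s * v)) := by
  have h2 := S.two
  have hs := h.sW
  have hss := h.sq
  have hβ := h.ns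
  have R := S.rs
  have hy : InY G s y := ⟨h.yW, h.perp, m1⟩
  have hμ : InY G s (μ • y) := ⟨Submodule.smul_mem _ _ h.yW,
    by rw [bW_smul_right, h.perp, mul_zero], by rwa [Matrix.mul_smul]⟩
  obtain ⟨x0, hx0, c0⟩ : ∃ x ∈ Rt G, bW s x ≠ 0 := by
    by_contra! hall
    obtain ⟨x, hx⟩ := hne
    have := hc (LinearMap.ker (bL F s)) (fun x hx v _ => by
      simp [bW_smul_right, hall x hx]) ⟨x, hx, by simp [hall x hx]⟩
    exact h.ne (eq_zero_of_perp h2 hs fun B hB => by simpa using this hB)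
  obtain ⟨K, kμ, -, kY, -, kS⟩ := InY.field S hs hss hy hβ μ0 μ1 μ2 hμ hx0 c0
  have k2 : (2 : F) ∈ K := by exact_mod_cast natCast_mem K 2
  have gen : ∀ x ∈ Rt G, bW s x ≠ 0 → ∀ v, InY G s v → qW v ≠ 0 → bW s x ^ 2 * qW v ∈ K ∧
      ∀ l ∈ K, l ≠ 0 → InG G (l⁻¹ • 1 + (l - l⁻¹) • (s * ((bW s x)⁻¹ • x))) := by
    intro x hx c v hv q
    obtain ⟨K', -, a2, a3, a4, a5⟩ := InY.field S hs hss hv q μ0 μ1 μ2 (kS μ kμ v hv) hx c
    exact ⟨(kY _).1 (a5 _ a2 y hy), fun l hl => a4 l ((a3 l).1 (kS l hl v hv))⟩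
  have kc : ∀ x ∈ Rt G, bW s x ≠ 0 → bW s x ^ 2 * qW y ∈ K := fun x hx c => (gen x hx c y hy hβ).1
  have qY : ∀ v, InY G s v → qW v / qW y ∈ K := by
    intro v hv
    by_cases q : qW v = 0
    · rw [q, zero_div]; exact K.zero_mem
    · convert K.div_mem (gen x0 hx0 c0 v hv q).1 (kc x0 hx0 c0) using 1
      field_simp
  have bY : ∀ v w, InY G s v → InY G s w → bW v w / qW y ∈ K := by
    intro v w hv hw
    convert K.sub_mem (K.sub_mem (qY _ (hv.add S hs hss hw)) (qY v hv)) (qY w hw) using 1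
    rw [qW_add h2]; ring
  have uW : ∀ x ∈ Rt G, (bW s x)⁻¹ • x ∈ Wsp F := fun x hx => Submodule.smul_mem _ _ hx.1
  have us : ∀ x : M4 F, bW s x ≠ 0 → bW s ((bW s x)⁻¹ • x) = 1 := fun x c => by
    rw [bW_smul_right, inv_mul_cancel₀ c]
  have uq : ∀ x ∈ Rt G, bW s x ≠ 0 → qW ((bW s x)⁻¹ • x) / qW y ∈ K := by
    intro x hx c
    convert K.inv_mem (kc x hx c) using 1
    rw [qW_smul, R.qW hx]; field_simp
  have ud : ∀ x ∈ Rt G, bW s x ≠ 0 → InY G s ((bW s x)⁻¹ • x - (bW s x0)⁻¹ • x0) := by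
    intro x hx c
    have m : μ ^ 2 - 1 ≠ 0 := fun e => by
      rcases mul_self_eq_one_iff.1 (show μ * μ = 1 by linear_combination e) with e | e
      exacts [μ1 e, μ2 e]
    have := InY.torus_sub S hs hss (uW x hx) (us x c) (uW x0 hx0) (us x0 c0) μ0
      ((gen x hx c y hy hβ).2 μ kμ μ0)
      ((gen x0 hx0 c0 y hy hβ).2 _ (K.inv_mem kμ) (inv_ne_zero μ0))
    have := kS _ (K.inv_mem (K.sub_mem (K.pow_mem kμ 2) K.one_mem)) _ this
    rwa [smul_smul, inv_mul_cancel₀ m, one_smul] at this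
  have hu0 := uW x0 hx0
  have su0 := us x0 c0
  have qu0 := uq x0 hx0 c0
  have perp0 : ∀ x ∈ Rt G, bW s x = 0 → InY G s (bW ((bW s x0)⁻¹ • x0) x • x) := by
    intro x hx c
    have e : bW s (x0 - bW x0 x • x) = bW s x0 := by
      rw [bW_sub_right, bW_smul_right, c, mul_zero, sub_zero]
    have := (ud _ (R.refl x hx x0 hx0) (by rwa [e])).neg S hs hss
    rw [e] at this
    convert this using 1
    rw [bW_smul_left]; module
  generalize (bW s x0)⁻¹ • x0 = u0 at hu0 su0 qu0 perp0 ud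
  have bu0 : bW u0 u0 / qW y ∈ K := by
    convert K.mul_mem k2 qu0 using 1
    rw [bW_self h2]; ring
  let L : Submodule K (M4 F) :=
    { carrier := {v | bW s v ∈ K ∧ InY G s (v - bW s v • u0) ∧ bW v u0 / qW y ∈ K}
      zero_mem' := ⟨by simp, by simpa using InY.zero, by simp⟩
      add_mem' := fun {v w} hv hw => ⟨by rw [bW_add_right]; exact K.add_mem hv.1 hw.1, by
        convert hv.2.1.add S hs hss hw.2.1 using 1
        rw [bW_add_right]; module, by
        rw [bW_add_left, add_div]; exact K.add_mem hv.2.2 hw.2.2⟩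
      smul_mem' := fun k v hv => by
        change bW s ((k : F) • v) ∈ K ∧ InY G s ((k : F) • v - bW s ((k : F) • v) • u0) ∧
          bW ((k : F) • v) u0 / qW y ∈ K
        refine ⟨by rw [bW_smul_right]; exact K.mul_mem k.2 hv.1, ?_, ?_⟩
        · convert kS k k.2 _ hv.2.1 using 1
          rw [bW_smul_right]; module
        · rw [bW_smul_left, mul_div_assoc]; exact K.mul_mem k.2 hv.2.2 }
  have mL : ∀ v, v ∈ L ↔ bW s v ∈ K ∧ InY G s (v - bW s v • u0) ∧ bW v u0 / qW y ∈ K :=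
    fun v => Iff.rfl
  have smL : ∀ a ∈ K, ∀ v ∈ L, a • v ∈ L := fun a ha v hv => L.smul_mem (⟨a, ha⟩ : K) hv
  have LW : ∀ v ∈ L, v ∈ Wsp F := fun v hv => by
    simpa using add_mem ((mL v).1 hv).2.1.1 (Submodule.smul_mem _ (bW s v) hu0)
  have bLL : ∀ v ∈ L, ∀ w ∈ L, bW v w / qW y ∈ K := by
    intro v hv w hw
    obtain ⟨v1, v2, v3⟩ := (mL v).1 hv
    obtain ⟨w1, w2, w3⟩ := (mL w).1 hw
    convert K.sub_mem (K.add_mem (K.add_mem (bY _ _ v2 w2) (K.mul_mem v1 w3)) (K.mul_mem w1 v3))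
      (K.mul_mem (K.mul_mem v1 w1) bu0) using 1
    simp only [bW_sub_left, bW_sub_right, bW_smul_left, bW_smul_right, bW_comm u0 w]
    ring
  have uL : ∀ x ∈ Rt G, bW s x ≠ 0 → (bW s x)⁻¹ • x ∈ L := by
    intro x hx c
    refine (mL _).2 ⟨by rw [us x c]; exact K.one_mem, by rw [us x c, one_smul]; exact ud x hx c, ?_⟩
    convert K.sub_mem (K.add_mem (uq x hx c) qu0) (qY _ (ud x hx c)) using 1
    have : qW (-u0) = qW u0 := by rw [← neg_one_smul F u0, qW_smul]; ring
    rw [sub_eq_add_neg _ u0, qW_add h2, bW_neg_right, this]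
    ring
  have rL : ∀ x ∈ Rt G, ∀ v ∈ L, bW v x • x ∈ L := by
    intro x hx v hv
    by_cases c : bW s x = 0
    · obtain ⟨v1, v2, -⟩ := (mL v).1 hv
      have hw : InY G s (bW v x • x) := by
        convert (v2.refl S hs hss hx c).add S hs hss (kS _ v1 _ (perp0 x hx c)) using 1
        rw [bW_sub_left, bW_smul_left]; module
      refine (mL _).2 ⟨by rw [hw.2.1]; exact K.zero_mem, by rwa [hw.2.1, zero_smul, sub_zero], ?_⟩
      convert K.div_mem (bY _ _ hw (perp0 x hx c)) k2 using 1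
      simp only [bW_smul_left, bW_smul_right, R.bW_self hx, bW_comm x u0]
      field_simp
    · convert smL _ (K.mul_mem (kc x hx c) (bLL v hv _ (uL x hx c))) _ (uL x hx c) using 1
      rw [smul_smul, bW_smul_right]
      congr 1
      field_simp
  have top : Wsp F ≤ Submodule.span F (L : Set (M4 F)) := by
    refine hc _ (fun x hx v hv => ?_) ⟨x0, hx0, ?_⟩
    · induction hv using Submodule.span_induction with
      | mem v hv => exact Submodule.subset_span (rL x hx v hv)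
      | zero => simp
      | add v w _ _ hv hw => rw [bW_add_left, add_smul]; exact add_mem hv hw
      | smul a v _ hv => rw [bW_smul_left, mul_smul]; exact Submodule.smul_mem _ _ hv
    · have := Submodule.smul_mem _ (bW s x0) (Submodule.subset_span (R := F) (uL x0 hx0 c0))
      rwa [smul_smul, mul_inv_cancel₀ c0, one_smul] at this
  refine ⟨K, qW y, L, kμ, fun a => ⟨fun ha => (kY a).1 ⟨Submodule.smul_mem _ _ h.yW,
    by rw [bW_smul_right, h.perp, mul_zero], by rwa [Matrix.mul_smul]⟩, fun ha => ?_⟩, hβ, LW, bLL,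
    fun x hx => ?_, fun hK v hv hsv => ?_⟩
  · have := ((kY a).2 ha).2.2
    rwa [Matrix.mul_smul] at this
  · by_contra! hall
    have : Submodule.span F (L : Set (M4 F)) ≤ LinearMap.ker (bL F x) :=
      Submodule.span_le.2 fun v hv => by
        by_contra e
        exact hall _ (by rw [bW_comm]; simpa using e) (rL x hx v hv)
    have := this (top hx.1)
    rw [LinearMap.mem_ker, bL_apply, R.bW_self hx] at this
    exact h2 this
  · have : ∀ w ∈ Submodule.span F (L : Set (M4 F)), w ∈ L := by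
      intro w hw
      induction hw using Submodule.span_induction with
      | mem v hv => exact hv
      | zero => exact zero_mem _
      | add v w _ _ hv hw => exact add_mem hv hw
      | smul a v _ hv => exact smL a (hK ▸ Subfield.mem_top a) v hv
    have := ((mL v).1 (this v (top hv))).2.1.2.2
    rwa [hsv, zero_smul, sub_zero] at this

end Cfsg.Agent.DIM4
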